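import Mathlib
import Cfsg.Prelude.Def_BrauerPairs
import Cfsg.Agent.Helper5.BlkBr2
import Cfsg.Agent.Helper5.BlkVan
import Cfsg.Agent.Helper5.BlkInd
import Cfsg.Agent.Helper5.BlkSec2
import Cfsg.Agent.S0936

/-!
helper5: Brauer pairs of the principal block (Brauer's third main theorem for Brauer pairs).
-/

set_option autoImplicit false

namespace Cfsg.Agent.Helper5

open Cfsg Cfsg.Agent.Helper24 Cfsg.Agent.Helper22

universe u

variable {G : Type u} [Group G] [Fintype G]

theorem induced_eq_brauer_centralizer (Q : Subgroup G)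
    (ξ : Subgroup.centralizer (Q : Set G) → ℂ) (g : G) :
    inducedCentralChar (Subgroup.centralizer (Q : Set G)) ξ g
      = brauerCentralChar Q (Subgroup.centralizer (Q : Set G)) ξ g := by
  unfold inducedCentralChar brauerCentralChar
  have hset : {h : Subgroup.centralizer (Q : Set G) | IsConj g (h : G)}
      = {h : Subgroup.centralizer (Q : Set G) | IsConj g (h : G) ∧
          (h : G) ∈ Subgroup.centralizer (Q : Set G)} :=
    Set.ext fun h => ⟨fun hc => ⟨hc, h.2⟩, fun hc => hc.1⟩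
  rw [hset]

/-- every block of the centralizer of a `p`-subgroup induces a block of `G`. -/
theorem centralizer_induced {p : ℕ} [Fact p.Prime] {M : Ideal AlgInt} (hM : IsPModular p M)
    [hMp : M.IsPrime] (Q : Subgroup G) (hQ : IsPGroup p Q)
    [Fintype (Subgroup.centralizer (Q : Set G))]
    (ξ₀ : IrrCharacter (Subgroup.centralizer (Q : Set G))) :
    ∃ χ₁ : IrrCharacter G,
      (∀ g : G, MemLocalIdeal M (brauerCentralChar Q (Subgroup.centralizer (Q : Set G))
        (ξ₀ : Subgroup.centralizer (Q : Set G) → ℂ) g - centralChar (χ₁ : G → ℂ) g)) ∧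
      IsInducedBlock M (Subgroup.centralizer (Q : Set G))
        (blockOf M (ξ₀ : Subgroup.centralizer (Q : Set G) → ℂ)) (blockOf M (χ₁ : G → ℂ)) := by
  obtain ⟨χ₁, hbr⟩ := exists_brauer_block hM Q (Subgroup.centralizer (Q : Set G)) hQ le_rfl
    (Subgroup.centralizer_le_normalizer _) ξ₀
  refine ⟨χ₁, hbr, ⟨ξ₀, rfl⟩, ⟨χ₁, rfl⟩, ?_⟩
  intro ξ hξ χ hχ g
  have h1 := inducedCentralChar_congr (Subgroup.centralizer (Q : Set G)) ξ ξ₀
    (sameBlock_symm hξ) g
  have h3 := hbr g
  have h4 := hχ g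
  rw [← induced_eq_brauer_centralizer] at h3
  have h5 := memLocalIdeal_add hMp (memLocalIdeal_add hMp h1 h3) h4
  have e : inducedCentralChar (Subgroup.centralizer (Q : Set G))
        (ξ : Subgroup.centralizer (Q : Set G) → ℂ) g
      - inducedCentralChar (Subgroup.centralizer (Q : Set G))
        (ξ₀ : Subgroup.centralizer (Q : Set G) → ℂ) g
      + (inducedCentralChar (Subgroup.centralizer (Q : Set G))
        (ξ₀ : Subgroup.centralizer (Q : Set G) → ℂ) g - centralChar (χ₁ : G → ℂ) g)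
      + (centralChar (χ₁ : G → ℂ) g - centralChar (χ : G → ℂ) g)
      = inducedCentralChar (Subgroup.centralizer (Q : Set G))
        (ξ : Subgroup.centralizer (Q : Set G) → ℂ) g - centralChar (χ : G → ℂ) g := by ring
  rwa [e] at h5

/-- the Brauer-map image of a block idempotent, evaluated at a central character of the
centralizer, is the value of the block indicator at the induced block. -/
theorem brauerOmega_congr {p : ℕ} [Fact p.Prime] {M : Ideal AlgInt} (hM : IsPModular p M)
    [hMp : M.IsPrime] (Q : Subgroup G) [Fintype (Subgroup.centralizer (Q : Set G))]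
    (ξ : IrrCharacter (Subgroup.centralizer (Q : Set G))) (χ₁ : IrrCharacter G)
    (hbr : ∀ g : G, MemLocalIdeal M (brauerCentralChar Q (Subgroup.centralizer (Q : Set G))
      (ξ : Subgroup.centralizer (Q : Set G) → ℂ) g - centralChar (χ₁ : G → ℂ) g))
    (χ₀ : IrrCharacter G) (c : IrrCharacter G → ℂ)
    (hc1 : ∀ ψ ∈ blockOf M (χ₀ : G → ℂ), c ψ = 1)
    (hc0 : ∀ ψ, ψ ∉ blockOf M (χ₀ : G → ℂ) → c ψ = 0) :
    MemLocalIdeal M (brauerOmega Q (blockCoeff (blockOf M (χ₀ : G → ℂ)))
      (ξ : Subgroup.centralizer (Q : Set G) → ℂ) - c χ₁) := by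
  classical
  obtain ⟨ι, hι⟩ := exists_class_reps G
  have hβ : ∀ g : G, blockCoeff (blockOf M (χ₀ : G → ℂ)) g = specFun c g :=
    blockCoeff_eq_specFun _ c hc1 hc0
  have hcl : IsClassFunction G (blockCoeff (blockOf M (χ₀ : G → ℂ))) := by
    intro g h
    rw [hβ, hβ]
    exact specFun_isClassFunction c g h
  have h1 := sum_reps_brauer Q (Subgroup.centralizer (Q : Set G))
    (ξ : Subgroup.centralizer (Q : Set G) → ℂ) (blockCoeff (blockOf M (χ₀ : G → ℂ))) hcl ι hι
  have h2 : brauerOmega Q (blockCoeff (blockOf M (χ₀ : G → ℂ)))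
      (ξ : Subgroup.centralizer (Q : Set G) → ℂ)
      = ∑ r ∈ ι, blockCoeff (blockOf M (χ₀ : G → ℂ)) r *
        brauerCentralChar Q (Subgroup.centralizer (Q : Set G))
          (ξ : Subgroup.centralizer (Q : Set G) → ℂ) r := by
    rw [h1]
    unfold brauerOmega
    rw [finsum_eq_sum_of_fintype, Finset.mul_sum]
    refine Finset.sum_congr rfl fun k _ => ?_
    rw [if_pos k.2]
    ring
  have h3 : c χ₁ = ∑ r ∈ ι, blockCoeff (blockOf M (χ₀ : G → ℂ)) r *
      centralChar (χ₁ : G → ℂ) r := by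
    rw [spec_value c ι hι χ₁]
    exact Finset.sum_congr rfl fun r _ => by rw [hβ r]
  rw [h2, h3, ← Finset.sum_sub_distrib]
  refine memLocalIdeal_sum _ _ fun r _ => ?_
  rw [← mul_sub]
  exact memLocalIdeal_mul_left (blockCoeff_memLocalRing χ₀ r) (hbr r)

/-- the Brauer pairs of the principal block at `Q` are given by the principal block of the
centralizer of `Q`, pointwise. -/
theorem principal_brauerOmega_iff {p : ℕ} [Fact p.Prime] {M : Ideal AlgInt}
    (hM : IsPModular p M) [hMp : M.IsPrime] (Q : Subgroup G) (hQ : IsPGroup p Q)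
    (ξ : IrrCharacter (Subgroup.centralizer (Q : Set G))) :
    MemLocalIdeal M (brauerOmega Q (blockCoeff (principalBlock M G))
        (ξ : Subgroup.centralizer (Q : Set G) → ℂ) - 1)
      ↔ ξ ∈ principalBlock M (Subgroup.centralizer (Q : Set G)) := by
  classical
  have : Fintype (Subgroup.centralizer (Q : Set G)) := Fintype.ofFinite _
  obtain ⟨triv, htriv⟩ : ∃ t : IrrCharacter G, (t : G → ℂ) = fun _ => 1 :=
    ⟨⟨_, Helper24.isIrrCharacter_one⟩, rfl⟩
  have hPB := principalBlock_eq_blockOf M triv htriv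
  obtain ⟨c, hc⟩ : ∃ c : IrrCharacter G → ℂ,
      c = fun ψ => if ψ ∈ blockOf M (triv : G → ℂ) then (1 : ℂ) else 0 := ⟨_, rfl⟩
  have hc1 : ∀ ψ ∈ blockOf M (triv : G → ℂ), c ψ = 1 := fun ψ h => by rw [hc]; exact if_pos h
  have hc0 : ∀ ψ, ψ ∉ blockOf M (triv : G → ℂ) → c ψ = 0 := fun ψ h => by
    rw [hc]; exact if_neg h
  obtain ⟨χ₁, hbr, hind⟩ := centralizer_induced hM Q hQ ξ
  have hY := brauerOmega_congr hM Q ξ χ₁ hbr triv c hc1 hc0
  rw [← hPB] at hY
  have h3 := Cfsg.Agent.S0936.result p M hM (Subgroup.centralizer (Q : Set G))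
    (blockOf M (ξ : Subgroup.centralizer (Q : Set G) → ℂ)) ⟨_, hind⟩
  constructor
  · intro hmem
    have hχ₁ : χ₁ ∈ blockOf M (triv : G → ℂ) := by
      by_contra hn
      rw [hc0 χ₁ hn, sub_zero] at hY
      have h4 := memLocalIdeal_sub hY hmem
      rw [sub_sub_cancel] at h4
      exact not_memLocalIdeal_one h4
    have hB1 : blockOf M (χ₁ : G → ℂ) = principalBlock M G := by
      rw [hPB]
      exact (blockOf_eq_of_sameBlock hχ₁).symm
    rw [hB1] at hind
    have h5 := h3.mp hind
    rw [← h5]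
    exact sameBlock_refl _
  · intro hξ
    have hbξ : blockOf M (ξ : Subgroup.centralizer (Q : Set G) → ℂ)
        = principalBlock M (Subgroup.centralizer (Q : Set G)) :=
      (blockOf_eq_of_sameBlock hξ).symm
    have hind0 := h3.mpr hbξ
    have hχ₁ : χ₁ ∈ blockOf M (triv : G → ℂ) := by
      intro g
      have h1 := hind0.2.2 ξ (sameBlock_refl _) triv (by rw [hPB]; exact sameBlock_refl _) g
      have h2 := hbr g
      rw [← induced_eq_brauer_centralizer] at h2
      have h4 := memLocalIdeal_sub h2 h1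
      rwa [sub_sub_sub_cancel_left] at h4
    rw [hc1 χ₁ hχ₁] at hY
    exact hY

/-- Brauer's third main theorem for Brauer pairs. -/
theorem principal_brauerPair_iff {p : ℕ} [Fact p.Prime] {M : Ideal AlgInt}
    (hM : IsPModular p M) [hMp : M.IsPrime] (Q : Subgroup G) (hQ : IsPGroup p Q)
    (ξ₀ : IrrCharacter (Subgroup.centralizer (Q : Set G))) :
    IsBrauerPairOf p M (principalBlock M G) Q
        (blockOf M (ξ₀ : Subgroup.centralizer (Q : Set G) → ℂ))
      ↔ blockOf M (ξ₀ : Subgroup.centralizer (Q : Set G) → ℂ)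
        = principalBlock M (Subgroup.centralizer (Q : Set G)) := by
  classical
  have : Fintype (Subgroup.centralizer (Q : Set G)) := Fintype.ofFinite _
  obtain ⟨triv, htriv⟩ : ∃ t : IrrCharacter G, (t : G → ℂ) = fun _ => 1 :=
    ⟨⟨_, Helper24.isIrrCharacter_one⟩, rfl⟩
  have hPB := principalBlock_eq_blockOf M triv htriv
  constructor
  · rintro ⟨-, -, h⟩
    have h1 := (principal_brauerOmega_iff hM Q hQ ξ₀).mp (h ξ₀ (sameBlock_refl _))
    exact (blockOf_eq_of_sameBlock h1).symm
  · intro he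
    refine ⟨⟨hQ, ξ₀, rfl⟩, ⟨triv, hPB⟩, ?_⟩
    intro ξ hξ
    rw [he] at hξ
    exact (principal_brauerOmega_iff hM Q hQ ξ).mpr hξ

end Cfsg.Agent.Helper5
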