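import Mathlib
import Cfsg.Prelude.Def_Transfer
import Cfsg.Prelude.Def_BrauerPairs
import Cfsg.Prelude.Def_BlockRank
import Cfsg.Agent.Helper5.BlkPair
import Cfsg.Agent.Helper5.BlkRank
import Cfsg.Agent.Helper5.BlkKer
import Cfsg.Agent.Helper5.GlCorr
import Cfsg.Agent.Helper24.GalOdd1
import Cfsg.Agent.S0071

/-!
helper5: the principal block is nilpotent iff `G` has a normal `p`-complement iff the principal
block has `p`-regular rank one.
-/

set_option autoImplicit false

namespace Cfsg.Agent.Helper5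

open Cfsg Cfsg.Agent.Helper24 Cfsg.Agent.Helper22

universe u

theorem index_centralizer_equiv {A : Type*} [Group A] (φ : A ≃* A) (k : A) :
    (Subgroup.centralizer ({φ k} : Set A)).index
      = (Subgroup.centralizer ({k} : Set A)).index := by
  have h : Subgroup.centralizer ({φ k} : Set A)
      = (Subgroup.centralizer ({k} : Set A)).map (φ : A →* A) := by
    ext x
    rw [Subgroup.mem_centralizer_singleton_iff, Subgroup.mem_map]
    constructor
    · intro hx
      refine ⟨φ.symm x, ?_, φ.apply_symm_apply x⟩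
      rw [Subgroup.mem_centralizer_singleton_iff]
      apply φ.injective
      rw [map_mul, map_mul, φ.apply_symm_apply]
      exact hx
    · rintro ⟨y, hy, rfl⟩
      rw [Subgroup.mem_centralizer_singleton_iff] at hy
      show φ y * φ k = φ k * φ y
      rw [← map_mul, ← map_mul, hy]
  rw [h]
  exact Subgroup.index_map_equiv _ φ

variable {G : Type u} [Group G] [Fintype G]

/-- the principal block of a subgroup is stable under conjugation by its normalizer. -/
theorem principal_conj_stable {M : Ideal AlgInt} (K : Subgroup G) (g : G)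
    (hg : g ∈ Subgroup.normalizer (K : Set G)) (χ : IrrCharacter K)
    (hχ : χ ∈ principalBlock M K) :
    ∃ χ' ∈ principalBlock M K, IsConjCharOf K g (χ : K → ℂ) (χ' : K → ℂ) := by
  have hmem : ∀ k : K, g⁻¹ * (k : G) * g ∈ K := by
    intro k
    have := (Subgroup.mem_normalizer_iff.mp (inv_mem hg) (k : G)).mp k.2
    simpa using this
  have hmem' : ∀ k : K, g * (k : G) * g⁻¹ ∈ K := fun k =>
    (Subgroup.mem_normalizer_iff.mp hg (k : G)).mp k.2
  obtain ⟨φ, hφ⟩ : ∃ φ : K ≃* K, ∀ k : K, ((φ k : K) : G) = g⁻¹ * (k : G) * g := by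
    refine ⟨{ toFun := fun k => ⟨g⁻¹ * (k : G) * g, hmem k⟩
              invFun := fun k => ⟨g * (k : G) * g⁻¹, hmem' k⟩
              left_inv := fun k => by
                apply Subtype.ext
                show g * (g⁻¹ * (k : G) * g) * g⁻¹ = (k : G)
                group
              right_inv := fun k => by
                apply Subtype.ext
                show g⁻¹ * (g * (k : G) * g⁻¹) * g = (k : G)
                group
              map_mul' := fun a b => by
                apply Subtype.ext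
                show g⁻¹ * ((a : G) * (b : G)) * g = (g⁻¹ * (a : G) * g) * (g⁻¹ * (b : G) * g)
                group }, fun k => rfl⟩
  have hirr : IsIrrCharacter K (fun a => (χ : K → ℂ) (φ a)) :=
    isIrrCharacter_comp_mulEquiv φ χ.2
  refine ⟨⟨_, hirr⟩, ?_, ?_⟩
  · intro k
    have h1 := hχ (φ k)
    have e1 : centralChar (fun _ : K => (1 : ℂ)) k
        = centralChar (fun _ : K => (1 : ℂ)) (φ k) := by
      unfold centralChar
      rw [index_centralizer_equiv φ k]
    have e2 : centralChar (fun a => (χ : K → ℂ) (φ a)) k = centralChar (χ : K → ℂ) (φ k) := by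
      unfold centralChar
      rw [index_centralizer_equiv φ k]
      show _ * (χ : K → ℂ) (φ k) / (χ : K → ℂ) (φ 1) = _
      rw [map_one]
    show MemLocalIdeal M (centralChar (fun _ : K => (1 : ℂ)) k
      - centralChar (fun a => (χ : K → ℂ) (φ a)) k)
    rw [e1, e2]
    exact h1
  · intro k k' hk
    show (χ : K → ℂ) (φ k') = (χ : K → ℂ) k
    have : φ k' = k := by
      apply Subtype.ext
      rw [hφ, hk]
      group
    rw [this]

theorem normalCompl_facts {p : ℕ} [Fact p.Prime] (P : Sylow p G) (N : Subgroup G)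
    (hc : N.IsComplement' (P : Subgroup G)) :
    (∃ k : ℕ, N.index = p ^ k) ∧ Nat.Coprime (Nat.card N) p := by
  have hp : p.Prime := Fact.out
  have h1 : Nat.card N * Nat.card (P : Subgroup G) = Nat.card G := hc.card_mul_card
  have h2 : Nat.card (P : Subgroup G) = p ^ (Nat.card G).factorization p :=
    P.card_eq_multiplicity
  have h3 : N.index * Nat.card N = Nat.card G := N.index_mul_card
  have hN0 : 0 < Nat.card N := Nat.card_pos
  have hidx : N.index = Nat.card (P : Subgroup G) := by
    have : N.index * Nat.card N = Nat.card (P : Subgroup G) * Nat.card N := by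
      rw [h3, ← h1, mul_comm]
    exact Nat.eq_of_mul_eq_mul_right hN0 this
  refine ⟨⟨_, hidx.trans h2⟩, ?_⟩
  have hG0 : Nat.card G ≠ 0 := Nat.card_pos.ne'
  have h5 := Nat.coprime_ordCompl hp hG0
  have h4 : Nat.card G / p ^ (Nat.card G).factorization p = Nat.card N := by
    apply Nat.div_eq_of_eq_mul_left (pow_pos hp.pos _)
    rw [← h2]
    exact h1.symm
  rw [h4] at h5
  exact h5.symm

/-- a group with a normal `p`-complement has nilpotent principal block. -/
theorem principal_nilpotent_of_compl {p : ℕ} [Fact p.Prime] {M : Ideal AlgInt}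
    (hM : IsPModular p M) [hMp : M.IsPrime] (h : HasNormalPComplement p G) :
    IsNilpotentBlock p M (principalBlock M G) := by
  classical
  have hp : p.Prime := Fact.out
  obtain ⟨P, N, hN, hc⟩ := h
  obtain ⟨hidx, hcop⟩ := normalCompl_facts P N hc
  obtain ⟨triv, htriv⟩ : ∃ t : IrrCharacter G, (t : G → ℂ) = fun _ => 1 :=
    ⟨⟨_, Helper24.isIrrCharacter_one⟩, rfl⟩
  refine ⟨⟨triv, principalBlock_eq_blockOf M triv htriv⟩, ?_⟩
  intro Q e hQe x hx _ hreg
  have hQ : IsPGroup p Q := hQe.1.1
  have hxN : x ∈ N := mem_of_not_dvd_orderOf_of_index N hidx hp hreg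
  rw [Subgroup.mem_centralizer_iff]
  intro u hu
  have hu' : u ∈ Q := hu
  have hcQ : x * u * x⁻¹ * u⁻¹ ∈ Q :=
    Q.mul_mem ((Subgroup.mem_normalizer_iff.mp hx u).mp hu') (Q.inv_mem hu')
  have hcN : x * u * x⁻¹ * u⁻¹ ∈ N := by
    have h1 : x * (u * x⁻¹ * u⁻¹) ∈ N := N.mul_mem hxN (hN.conj_mem _ (N.inv_mem hxN) u)
    have e : x * u * x⁻¹ * u⁻¹ = x * (u * x⁻¹ * u⁻¹) := by group
    rw [e]
    exact h1
  have hc1 : x * u * x⁻¹ * u⁻¹ = 1 := by
    obtain ⟨k, hk⟩ := hQ ⟨_, hcQ⟩
    have hk' : (x * u * x⁻¹ * u⁻¹) ^ p ^ k = 1 := by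
      have := congrArg Subtype.val hk
      simpa using this
    have ho1 : orderOf (x * u * x⁻¹ * u⁻¹) ∣ p ^ k := orderOf_dvd_of_pow_eq_one hk'
    have ho2 : orderOf (x * u * x⁻¹ * u⁻¹) ∣ Nat.card N := by
      have := orderOf_dvd_natCard (⟨_, hcN⟩ : N)
      rwa [Subgroup.orderOf_mk] at this
    have h3 : Nat.Coprime (orderOf (x * u * x⁻¹ * u⁻¹)) (p ^ k) :=
      Nat.Coprime.coprime_dvd_left ho2 (Nat.Coprime.pow_right k hcop)
    exact orderOf_eq_one_iff.mp (Nat.Coprime.eq_one_of_dvd h3 ho1)
  have h4 : x * u = u * x := by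
    have e : x * u = (x * u * x⁻¹ * u⁻¹) * (u * x) := by group
    rw [e, hc1, one_mul]
  exact h4.symm

/-- if the principal block is nilpotent then `G` has a normal `p`-complement. -/
theorem compl_of_principal_nilpotent {p : ℕ} [Fact p.Prime] {M : Ideal AlgInt}
    (hM : IsPModular p M) [hMp : M.IsPrime]
    (h : IsNilpotentBlock p M (principalBlock M G)) : HasNormalPComplement p G := by
  classical
  have hp : p.Prime := Fact.out
  obtain ⟨P⟩ : Nonempty (Sylow p G) := inferInstance
  suffices hs : ∃ N : Subgroup G, N.Normal ∧ N.IsComplement' (P : Subgroup G) by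
    obtain ⟨N, hN, hc⟩ := hs
    exact ⟨P, N, hN, hc⟩
  rw [Cfsg.Agent.S0071.result P]
  intro Q hQP g hg hgo
  have hQ : IsPGroup p Q := P.isPGroup'.to_le hQP
  have : Fintype (Subgroup.centralizer (Q : Set G)) := Fintype.ofFinite _
  obtain ⟨trivC, htrivC⟩ : ∃ t : IrrCharacter (Subgroup.centralizer (Q : Set G)),
      (t : Subgroup.centralizer (Q : Set G) → ℂ) = fun _ => 1 :=
    ⟨⟨_, Helper24.isIrrCharacter_one⟩, rfl⟩
  have hPBC := principalBlock_eq_blockOf M trivC htrivC
  have hpair : IsBrauerPairOf p M (principalBlock M G) Q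
      (principalBlock M (Subgroup.centralizer (Q : Set G))) := by
    rw [hPBC]
    exact (principal_brauerPair_iff hM Q hQ trivC).mpr hPBC.symm
  have hgC : g ∈ Subgroup.normalizer ((Subgroup.centralizer (Q : Set G) : Subgroup G) : Set G) :=
    Subgroup.mem_normalizer_iff.mpr
      (fun h => (conj_mem_centralizer_iff_of_normalizer Q hg).symm)
  refine h.2 Q _ hpair g hg ⟨hgC, ?_⟩ ?_
  · intro χ hχ
    exact principal_conj_stable _ g hgC χ hχ
  · intro hd
    exact hp.one_lt.ne' (Nat.Coprime.eq_one_of_dvd hgo.symm hd)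

/-- a group with a normal `p`-complement has principal block of `p`-regular rank one. -/
theorem principal_rank_one_of_compl {p : ℕ} [Fact p.Prime] {M : Ideal AlgInt}
    (hM : IsPModular p M) [hMp : M.IsPrime] (h : HasNormalPComplement p G) :
    blockRank p (principalBlock M G) = 1 := by
  classical
  have hp : p.Prime := Fact.out
  obtain ⟨P, N, hN, hc⟩ := h
  obtain ⟨hidx, hcop⟩ := normalCompl_facts P N hc
  have hchar := Cfsg.Agent.Helper9.pPrimeCore_characteristic p G
  have hNn : (pPrimeCore p G).Normal := inferInstance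
  have hNle : N ≤ pPrimeCore p G := le_sSup ⟨hN, hcop⟩
  have hnc : ∃ k : ℕ, (pPrimeCore p G).index = p ^ k := by
    obtain ⟨k, hk⟩ := hidx
    have hdvd : (pPrimeCore p G).index ∣ N.index := Subgroup.index_dvd_of_le hNle
    rw [hk] at hdvd
    obtain ⟨j, -, hj⟩ := (Nat.dvd_prime_pow hp).mp hdvd
    exact ⟨j, hj⟩
  have hPB := principal_block_of_normal_compl hM hnc
  obtain ⟨triv, htriv⟩ : ∃ t : IrrCharacter G, (t : G → ℂ) = fun _ => 1 :=
    ⟨⟨_, Helper24.isIrrCharacter_one⟩, rfl⟩
  have htB : triv ∈ principalBlock M G := by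
    rw [principalBlock_eq_blockOf M triv htriv]
    exact sameBlock_refl _
  have h1reg : IsPRegular p (1 : G) := by
    show ¬ p ∣ orderOf (1 : G)
    rw [orderOf_one]
    exact fun hd => hp.one_lt.ne' (Nat.dvd_one.mp hd)
  have hkey : ∀ χ ∈ principalBlock M G,
      pRegularPart p (χ : G → ℂ) = (χ : G → ℂ) 1 • pRegularPart p (triv : G → ℂ) := by
    intro χ hχ
    funext x
    rw [Pi.smul_apply, smul_eq_mul]
    unfold pRegularPart
    by_cases hx : IsPRegular p x
    · rw [if_pos hx, if_pos hx, htriv, mul_one]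
      rw [hPB] at hχ
      exact hχ x (mem_of_not_dvd_orderOf_of_index (pPrimeCore p G) hnc hp hx)
    · rw [if_neg hx, if_neg hx, mul_zero]
  have hspan : Submodule.span ℂ
        ((fun χ : IrrCharacter G => pRegularPart p (χ : G → ℂ)) '' principalBlock M G)
      = Submodule.span ℂ {pRegularPart p (triv : G → ℂ)} := by
    apply le_antisymm
    · rw [Submodule.span_le]
      rintro _ ⟨χ, hχ, rfl⟩
      show pRegularPart p (χ : G → ℂ) ∈ _
      rw [hkey χ hχ]
      exact Submodule.smul_mem _ _ (Submodule.mem_span_singleton_self _)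
    · rw [Submodule.span_le, Set.singleton_subset_iff]
      exact Submodule.subset_span ⟨triv, htB, rfl⟩
  unfold blockRank
  rw [hspan]
  apply finrank_span_singleton
  intro h0
  have h2 := congrFun h0 1
  unfold pRegularPart at h2
  rw [if_pos h1reg, htriv] at h2
  exact one_ne_zero h2

/-- if the principal block has `p`-regular rank one then `G` has a normal `p`-complement. -/
theorem compl_of_principal_rank_one {p : ℕ} [Fact p.Prime] {M : Ideal AlgInt}
    (hM : IsPModular p M) [hMp : M.IsPrime]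
    (h : blockRank p (principalBlock M G) = 1) : HasNormalPComplement p G := by
  classical
  have hp : p.Prime := Fact.out
  obtain ⟨triv, htriv⟩ : ∃ t : IrrCharacter G, (t : G → ℂ) = fun _ => 1 :=
    ⟨⟨_, Helper24.isIrrCharacter_one⟩, rfl⟩
  have hPB := principalBlock_eq_blockOf M triv htriv
  have htB : triv ∈ principalBlock M G := by
    rw [hPB]
    exact sameBlock_refl _
  have h1reg : IsPRegular p (1 : G) := by
    show ¬ p ∣ orderOf (1 : G)
    rw [orderOf_one]
    exact fun hd => hp.one_lt.ne' (Nat.dvd_one.mp hd)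
  have hstep1 : ∀ χ ∈ principalBlock M G, ∀ x : G, IsPRegular p x →
      (χ : G → ℂ) x = (χ : G → ℂ) 1 := by
    intro χ hχ x hx
    unfold blockRank at h
    obtain ⟨S, hS⟩ : ∃ S : Submodule ℂ (G → ℂ), S = Submodule.span ℂ
        ((fun χ : IrrCharacter G => pRegularPart p (χ : G → ℂ)) '' principalBlock M G) :=
      ⟨_, rfl⟩
    rw [← hS] at h
    have ht0 : pRegularPart p (triv : G → ℂ) ∈ S := by
      rw [hS]
      exact Submodule.subset_span ⟨triv, htB, rfl⟩
    have hχ0 : pRegularPart p (χ : G → ℂ) ∈ S := by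
      rw [hS]
      exact Submodule.subset_span ⟨χ, hχ, rfl⟩
    have hne : (⟨_, ht0⟩ : S) ≠ 0 := by
      intro h0
      have h0' : pRegularPart p (triv : G → ℂ) = 0 := congrArg Subtype.val h0
      have h2 := congrFun h0' 1
      unfold pRegularPart at h2
      rw [if_pos h1reg, htriv] at h2
      exact one_ne_zero h2
    obtain ⟨c, hc⟩ := (finrank_eq_one_iff_of_nonzero' (⟨_, ht0⟩ : S) hne).mp h ⟨_, hχ0⟩
    have hc' : c • pRegularPart p (triv : G → ℂ) = pRegularPart p (χ : G → ℂ) :=
      congrArg Subtype.val hc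
    have e1 := congrFun hc' 1
    have ex := congrFun hc' x
    rw [Pi.smul_apply, smul_eq_mul] at e1 ex
    unfold pRegularPart at e1 ex
    rw [if_pos h1reg, if_pos h1reg, htriv, mul_one] at e1
    rw [if_pos hx, if_pos hx, htriv, mul_one] at ex
    rw [← ex, ← e1]
  obtain ⟨P⟩ : Nonempty (Sylow p G) := inferInstance
  suffices hs : ∃ N : Subgroup G, N.Normal ∧ N.IsComplement' (P : Subgroup G) by
    obtain ⟨N, hN, hc⟩ := hs
    exact ⟨P, N, hN, hc⟩
  rw [Cfsg.Agent.S0071.result P]
  intro Q hQP g hg hgo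
  have hQ : IsPGroup p Q := P.isPGroup'.to_le hQP
  have hgreg : IsPRegular p g := fun hd =>
    hp.one_lt.ne' (Nat.Coprime.eq_one_of_dvd hgo.symm hd)
  rw [Subgroup.mem_centralizer_iff]
  intro u hu
  have hu' : u ∈ Q := hu
  have hcQ : g * u * g⁻¹ * u⁻¹ ∈ Q :=
    Q.mul_mem ((Subgroup.mem_normalizer_iff.mp hg u).mp hu') (Q.inv_mem hu')
  have hval : ∀ χ ∈ principalBlock M G,
      (χ : G → ℂ) (g * u * g⁻¹ * u⁻¹) = (χ : G → ℂ) 1 := by
    intro χ hχ
    have hy : (χ : G → ℂ) (u * g⁻¹ * u⁻¹) = (χ : G → ℂ) 1 := by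
      rw [irr_conj χ g⁻¹ u]
      exact hstep1 χ hχ g⁻¹ (by
        show ¬ p ∣ orderOf g⁻¹
        rw [orderOf_inv]
        exact hgreg)
    have e : g * u * g⁻¹ * u⁻¹ = g * (u * g⁻¹ * u⁻¹) := by group
    rw [e, irr_mul_ker χ _ hy g]
    exact hstep1 χ hχ g hgreg
  have hc1 : g * u * g⁻¹ * u⁻¹ = 1 := by
    obtain ⟨k, hk⟩ := hQ ⟨_, hcQ⟩
    have hk' : (g * u * g⁻¹ * u⁻¹) ^ p ^ k = 1 := by
      have := congrArg Subtype.val hk
      simpa using this
    have ho1 : orderOf (g * u * g⁻¹ * u⁻¹) ∣ p ^ k := orderOf_dvd_of_pow_eq_one hk'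
    obtain ⟨j, -, hj⟩ := (Nat.dvd_prime_pow hp).mp ho1
    have hcreg : ¬ p ∣ orderOf (g * u * g⁻¹ * u⁻¹) := by
      intro hd
      have hw := weak_block_orth hM triv 1 (g * u * g⁻¹ * u⁻¹) h1reg hd
      rw [← hPB, finsum_mem_eq_sum_ite'] at hw
      have hw2 : ∑ χ : IrrCharacter G, (if χ ∈ principalBlock M G
          then ((Complex.normSq ((χ : G → ℂ) 1) : ℝ) : ℂ) else 0) = 0 := by
        refine Eq.trans (Finset.sum_congr rfl fun χ _ => ?_) hw
        by_cases hχ : χ ∈ principalBlock M G
        · rw [if_pos hχ, if_pos hχ, hval χ hχ, Complex.mul_conj]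
        · rw [if_neg hχ, if_neg hχ]
      have hw3 : ∑ χ : IrrCharacter G, (if χ ∈ principalBlock M G
          then Complex.normSq ((χ : G → ℂ) 1) else 0) = 0 := by
        have h5 : ((∑ χ : IrrCharacter G, (if χ ∈ principalBlock M G
            then Complex.normSq ((χ : G → ℂ) 1) else 0) : ℝ) : ℂ) = 0 := by
          rw [Complex.ofReal_sum]
          refine Eq.trans (Finset.sum_congr rfl fun χ _ => ?_) hw2
          by_cases hχ : χ ∈ principalBlock M G
          · rw [if_pos hχ, if_pos hχ]
          · rw [if_neg hχ, if_neg hχ, Complex.ofReal_zero]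
        exact_mod_cast h5
      have hw4 := (Finset.sum_eq_zero_iff_of_nonneg (fun χ _ => by
        by_cases hχ : χ ∈ principalBlock M G
        · rw [if_pos hχ]
          exact Complex.normSq_nonneg _
        · rw [if_neg hχ])).mp hw3 triv (Finset.mem_univ _)
      rw [if_pos htB, htriv] at hw4
      simp at hw4
    cases j with
    | zero =>
      rw [pow_zero] at hj
      exact orderOf_eq_one_iff.mp hj
    | succ j =>
      exact absurd (hj ▸ dvd_pow_self p (Nat.succ_ne_zero j)) hcreg
  have h4 : g * u = u * g := by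
    have e : g * u = (g * u * g⁻¹ * u⁻¹) * (u * g) := by group
    rw [e, hc1, one_mul]
  exact h4.symm

end Cfsg.Agent.Helper5
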