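import Mathlib
import Cfsg.Agent.Helper24.BP23
import Cfsg.Agent.Helper5.GlCorr
import Cfsg.Agent.Helper5.BlkExt

/-!
helper5: shared definitions for S4692 (stable block of a normal subgroup of `p`-power index:
nilpotent iff the block above is nilpotent).  `R ≤ N`; `N ∩ C_G(R) ≃ C_N(R)`.
-/

set_option autoImplicit false

namespace Cfsg.Agent.Helper5

open Cfsg Cfsg.Agent.Helper22 Cfsg.Agent.Helper24

universe u

variable {G : Type u} [Group G]

/-- `N ∩ C_G(R) ≃ C_N(R)` for a subgroup `R` of `N`. -/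
def nx_phi (N : Subgroup G) (R : Subgroup ↥N) :
    ↥(N.subgroupOf (Subgroup.centralizer ((R.map N.subtype : Subgroup G) : Set G))) ≃*
      ↥(Subgroup.centralizer (R : Set ↥N)) where
  toFun y := ⟨⟨((y : ↥(Subgroup.centralizer ((R.map N.subtype : Subgroup G) : Set G))) : G),
      Subgroup.mem_subgroupOf.mp y.2⟩, by
    rw [Subgroup.mem_centralizer_iff]
    intro r hr
    apply Subtype.ext
    exact Subgroup.mem_centralizer_iff.mp
      (y : ↥(Subgroup.centralizer ((R.map N.subtype : Subgroup G) : Set G))).2 (r : G)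
      ⟨r, hr, rfl⟩⟩
  invFun z := ⟨⟨((z : ↥N) : G), by
      rw [Subgroup.mem_centralizer_iff]
      rintro _ ⟨r, hr, rfl⟩
      exact congrArg Subtype.val (Subgroup.mem_centralizer_iff.mp z.2 r hr)⟩,
    Subgroup.mem_subgroupOf.mpr (z : ↥N).2⟩
  left_inv y := rfl
  right_inv z := rfl
  map_mul' a b := rfl

theorem nx_phi_coe (N : Subgroup G) (R : Subgroup ↥N)
    (y : ↥(N.subgroupOf (Subgroup.centralizer ((R.map N.subtype : Subgroup G) : Set G)))) :
    (((nx_phi N R y : ↥(Subgroup.centralizer (R : Set ↥N))) : ↥N) : G)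
      = ((y : ↥(Subgroup.centralizer ((R.map N.subtype : Subgroup G) : Set G))) : G) := rfl

theorem nx_phi_symm_coe (N : Subgroup G) (R : Subgroup ↥N)
    (z : ↥(Subgroup.centralizer (R : Set ↥N))) :
    ((((nx_phi N R).symm z :
        ↥(N.subgroupOf (Subgroup.centralizer ((R.map N.subtype : Subgroup G) : Set G)))) :
        ↥(Subgroup.centralizer ((R.map N.subtype : Subgroup G) : Set G))) : G)
      = ((z : ↥N) : G) := rfl

/-- an irreducible character of `C_N(R)` read on `N ∩ C_G(R)`. -/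
noncomputable def nx_up (N : Subgroup G) (R : Subgroup ↥N)
    (θ : IrrCharacter ↥(Subgroup.centralizer (R : Set ↥N))) :
    IrrCharacter ↥(N.subgroupOf (Subgroup.centralizer ((R.map N.subtype : Subgroup G) : Set G))) :=
  ⟨fun y => (θ : ↥(Subgroup.centralizer (R : Set ↥N)) → ℂ) (nx_phi N R y),
    isIrrCharacter_comp_mulEquiv (nx_phi N R) θ.2⟩

theorem nx_up_apply (N : Subgroup G) (R : Subgroup ↥N)
    (θ : IrrCharacter ↥(Subgroup.centralizer (R : Set ↥N)))
    (y : ↥(N.subgroupOf (Subgroup.centralizer ((R.map N.subtype : Subgroup G) : Set G)))) :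
    (nx_up N R θ).1 y = (θ : ↥(Subgroup.centralizer (R : Set ↥N)) → ℂ) (nx_phi N R y) :=
  rfl

theorem nx_up_sameBlock {M : Ideal AlgInt} (N : Subgroup G) (R : Subgroup ↥N)
    (θ θ' : IrrCharacter ↥(Subgroup.centralizer (R : Set ↥N))) :
    SameBlock M (nx_up N R θ).1 (nx_up N R θ').1 ↔
      SameBlock M (θ : ↥(Subgroup.centralizer (R : Set ↥N)) → ℂ)
        (θ' : ↥(Subgroup.centralizer (R : Set ↥N)) → ℂ) :=
  sameBlock_comp_equiv (nx_phi N R) _ _

theorem nx_index [Finite G] {p : ℕ} [Fact p.Prime] (N : Subgroup G) [N.Normal]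
    (hN : ∃ k : ℕ, N.index = p ^ k) (C : Subgroup G) :
    ∃ k : ℕ, (N.subgroupOf C).index = p ^ k := by
  have hp : p.Prime := Fact.out
  obtain ⟨k, hk⟩ := hN
  have h1 : (N.subgroupOf C).index ∣ p ^ k := by
    rw [← hk]
    exact Subgroup.relIndex_dvd_index_of_normal N C
  obtain ⟨m, -, hm⟩ := (Nat.dvd_prime_pow hp).mp h1
  exact ⟨m, hm⟩

/-- conjugate characters exist for normalizing elements. -/
theorem nx_conj (K : Subgroup G) (z : G) (hz : z ∈ Subgroup.normalizer (K : Set G))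
    (χ : IrrCharacter K) : ∃ χ' : IrrCharacter K, IsConjCharOf K z (χ : K → ℂ) (χ' : K → ℂ) := by
  have h1 : ∀ g ∈ K, z * g * z⁻¹ ∈ K := fun g hg =>
    (Subgroup.mem_normalizer_iff.mp hz g).mp hg
  have h2 : ∀ g ∈ K, z⁻¹ * g * z ∈ K := fun g hg => by
    have h := (Subgroup.mem_normalizer_iff.mp (Subgroup.inv_mem _ hz) g).mp hg
    rwa [inv_inv] at h
  refine ⟨⟨fun k => (χ : K → ℂ) ((conjEquivL K z h1 h2).symm k),
    isIrrCharacter_comp_mulEquiv (conjEquivL K z h1 h2).symm χ.2⟩, ?_⟩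
  intro k k' hkk
  have e : (conjEquivL K z h1 h2).symm k' = k := by
    rw [MulEquiv.symm_apply_eq]
    exact Subtype.ext hkk
  show (χ : K → ℂ) ((conjEquivL K z h1 h2).symm k') = (χ : K → ℂ) k
  rw [e]

/-- conjugation preserves blocks. -/
theorem nx_conj_sameBlock {M : Ideal AlgInt} (K : Subgroup G) (z : G)
    (hz : z ∈ Subgroup.normalizer (K : Set G)) (χ₁ χ₂ χ₁' χ₂' : IrrCharacter K)
    (h1 : IsConjCharOf K z (χ₁ : K → ℂ) (χ₁' : K → ℂ))
    (h2 : IsConjCharOf K z (χ₂ : K → ℂ) (χ₂' : K → ℂ))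
    (hs : SameBlock M (χ₁ : K → ℂ) (χ₂ : K → ℂ)) :
    SameBlock M (χ₁' : K → ℂ) (χ₂' : K → ℂ) := by
  have k1 : ∀ g ∈ K, z * g * z⁻¹ ∈ K := fun g hg =>
    (Subgroup.mem_normalizer_iff.mp hz g).mp hg
  have k2 : ∀ g ∈ K, z⁻¹ * g * z ∈ K := fun g hg => by
    have h := (Subgroup.mem_normalizer_iff.mp (Subgroup.inv_mem _ hz) g).mp hg
    rwa [inv_inv] at h
  have e1 : (χ₁ : K → ℂ) = fun k => (χ₁' : K → ℂ) (conjEquivL K z k1 k2 k) :=
    funext fun k => (h1 k (conjEquivL K z k1 k2 k) rfl).symm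
  have e2 : (χ₂ : K → ℂ) = fun k => (χ₂' : K → ℂ) (conjEquivL K z k1 k2 k) :=
    funext fun k => (h2 k (conjEquivL K z k1 k2 k) rfl).symm
  rw [e1, e2] at hs
  exact (sameBlock_comp_equiv (conjEquivL K z k1 k2) _ _).mp hs

end Cfsg.Agent.Helper5
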