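import Mathlib
import Cfsg.Agent.Helper5.BlkPair

/-!
helper5: every Brauer pair belongs to a unique block.
-/

set_option autoImplicit false

namespace Cfsg.Agent.Helper5

open Cfsg Cfsg.Agent.Helper24 Cfsg.Agent.Helper22

universe u

variable {G : Type u} [Group G] [Fintype G]

/-- the Brauer-map image at `Q` of the block idempotents of `G`, evaluated on the block of `ξ₀`:
there is a character `χ₁` of `G` whose block is the only one with nonzero image. -/
theorem brauerPair_omega {p : ℕ} [Fact p.Prime] {M : Ideal AlgInt} (hM : IsPModular p M)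
    [hMp : M.IsPrime] (Q : Subgroup G) (hQ : IsPGroup p Q)
    (ξ₀ : IrrCharacter (Subgroup.centralizer (Q : Set G))) :
    ∃ χ₁ : IrrCharacter G, ∀ (χ₀ : IrrCharacter G)
      (ξ : IrrCharacter (Subgroup.centralizer (Q : Set G))),
      ξ ∈ blockOf M (ξ₀ : Subgroup.centralizer (Q : Set G) → ℂ) →
      (χ₁ ∈ blockOf M (χ₀ : G → ℂ) →
        MemLocalIdeal M (brauerOmega Q (blockCoeff (blockOf M (χ₀ : G → ℂ)))
          (ξ : Subgroup.centralizer (Q : Set G) → ℂ) - 1)) ∧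
      (χ₁ ∉ blockOf M (χ₀ : G → ℂ) →
        MemLocalIdeal M (brauerOmega Q (blockCoeff (blockOf M (χ₀ : G → ℂ)))
          (ξ : Subgroup.centralizer (Q : Set G) → ℂ))) := by
  classical
  have : Fintype (Subgroup.centralizer (Q : Set G)) := Fintype.ofFinite _
  obtain ⟨χ₁, hbr, -⟩ := centralizer_induced hM Q hQ ξ₀
  refine ⟨χ₁, fun χ₀ ξ hξ => ?_⟩
  have hbr' : ∀ g : G, MemLocalIdeal M (brauerCentralChar Q (Subgroup.centralizer (Q : Set G))
      (ξ : Subgroup.centralizer (Q : Set G) → ℂ) g - centralChar (χ₁ : G → ℂ) g) := by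
    intro g
    have h1 := inducedCentralChar_congr (Subgroup.centralizer (Q : Set G)) ξ ξ₀
      (sameBlock_symm hξ) g
    rw [induced_eq_brauer_centralizer, induced_eq_brauer_centralizer] at h1
    have h2 := memLocalIdeal_add hMp h1 (hbr g)
    rwa [sub_add_sub_cancel] at h2
  obtain ⟨c, hc⟩ : ∃ c : IrrCharacter G → ℂ,
      c = fun ψ => if ψ ∈ blockOf M (χ₀ : G → ℂ) then (1 : ℂ) else 0 := ⟨_, rfl⟩
  have hc1 : ∀ ψ ∈ blockOf M (χ₀ : G → ℂ), c ψ = 1 := fun ψ h => by rw [hc]; exact if_pos h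
  have hc0 : ∀ ψ, ψ ∉ blockOf M (χ₀ : G → ℂ) → c ψ = 0 := fun ψ h => by
    rw [hc]; exact if_neg h
  have hY := brauerOmega_congr hM Q ξ χ₁ hbr' χ₀ c hc1 hc0
  constructor
  · intro h
    rwa [hc1 χ₁ h] at hY
  · intro h
    rwa [hc0 χ₁ h, sub_zero] at hY

/-- every Brauer pair is a Brauer pair of exactly one block. -/
theorem brauerPair_unique_block {p : ℕ} [Fact p.Prime] {M : Ideal AlgInt} (hM : IsPModular p M)
    [hMp : M.IsPrime] (P : Subgroup G)
    (e : Set (IrrCharacter (Subgroup.centralizer (P : Set G)))) (hPe : IsBrauerPair p M P e) :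
    ∃! B : Set (IrrCharacter G), IsBrauerPairOf p M B P e := by
  classical
  obtain ⟨hP, ξ₀, rfl⟩ := hPe
  obtain ⟨χ₁, h⟩ := brauerPair_omega hM P hP ξ₀
  refine ⟨blockOf M (χ₁ : G → ℂ), ⟨⟨hP, ξ₀, rfl⟩, ⟨χ₁, rfl⟩,
    fun ξ hξ => (h χ₁ ξ hξ).1 (sameBlock_refl _)⟩, ?_⟩
  rintro B ⟨-, ⟨χ₀, rfl⟩, hB⟩
  have h1 := hB ξ₀ (sameBlock_refl _)
  by_contra hne
  have hχ₁ : χ₁ ∉ blockOf M (χ₀ : G → ℂ) := fun hmem =>
    hne (blockOf_eq_of_sameBlock hmem)
  have h2 := (h χ₀ ξ₀ (sameBlock_refl _)).2 hχ₁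
  have h3 := memLocalIdeal_sub h2 h1
  rw [sub_sub_cancel] at h3
  exact not_memLocalIdeal_one h3

end Cfsg.Agent.Helper5
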