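import Mathlib
import Cfsg.Agent.Helper5.BlkSMT2
import Cfsg.Agent.Helper5.BlkHt
import Cfsg.Agent.Helper5.BlkMinMax
import Cfsg.Agent.Helper5.Grp
import Cfsg.Agent.Helper5.BlkCen

/-!
helper5: height-zero characters and `p`-sections (S0926); conjugacy of defect groups (pointwise).
-/

set_option autoImplicit false

namespace Cfsg.Agent.Helper5

open Cfsg Cfsg.Agent.Helper24 Cfsg.Agent.Helper22

universe u

section Blocks

variable {G : Type u} [Group G] [Fintype G]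

/-- defect groups are conjugate (pointwise form). -/
theorem defect_group_conj_mem {p : ℕ} [Fact p.Prime] {M : Ideal AlgInt} (hM : IsPModular p M)
    [hMp : M.IsPrime] (χ₀ : IrrCharacter G) (D D' : Subgroup G)
    (hD : IsDefectGroup p M (blockOf M (χ₀ : G → ℂ)) D)
    (hD' : IsDefectGroup p M (blockOf M (χ₀ : G → ℂ)) D') (z : G) (hz : z ∈ D') :
    ∃ t : G, t * z * t⁻¹ ∈ D := by
  obtain ⟨g, hg, P, rfl⟩ := hD
  obtain ⟨g', hg', P', rfl⟩ := hD'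
  obtain ⟨x, Q, hQ⟩ := (min_max hM χ₀ g hg P g').1 hg'.2.1
  obtain ⟨c, hc⟩ := exists_conj_mem_sylow' Q (P' : Subgroup (Subgroup.centralizer ({g'} : Set G)))
    P'.2
  obtain ⟨w, hw, rfl⟩ := hz
  have h1 := hc w hw
  have h2 : ((c * w * c⁻¹ : Subgroup.centralizer ({g'} : Set G)) : G)
      ∈ (Q : Subgroup (Subgroup.centralizer ({g'} : Set G))).map
        (Subgroup.centralizer ({g'} : Set G)).subtype := ⟨_, h1, rfl⟩
  obtain ⟨d, hd, hd'⟩ := hQ h2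
  have hd'' : x * d * x⁻¹ = (c : G) * (w : G) * (c : G)⁻¹ := by
    rw [← MulAut.conj_apply]
    have : ((MulAut.conj x).toMonoidHom d) = ((c * w * c⁻¹ : Subgroup.centralizer ({g'} : Set G)) : G) := hd'
    rw [MulEquiv.coe_toMonoidHom] at this
    rw [this]
    push_cast
    rfl
  refine ⟨x⁻¹ * (c : G), ?_⟩
  have e : x⁻¹ * (c : G) * (Subgroup.centralizer ({g'} : Set G)).subtype w * (x⁻¹ * (c : G))⁻¹ = d := by
    show x⁻¹ * (c : G) * (w : G) * (x⁻¹ * (c : G))⁻¹ = d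
    have : x⁻¹ * (c : G) * (w : G) * (x⁻¹ * (c : G))⁻¹ = x⁻¹ * ((c : G) * (w : G) * (c : G)⁻¹) * x := by
      group
    rw [this, ← hd'']
    group
  rw [e]
  exact hd

/-- S0926, for `B = blockOf M χ₀`. -/
theorem height_zero_section {p : ℕ} [Fact p.Prime] {M : Ideal AlgInt} (hM : IsPModular p M)
    [hMp : M.IsPrime] (χ₀ : IrrCharacter G) (D : Subgroup G)
    (hD : IsDefectGroup p M (blockOf M (χ₀ : G → ℂ)) D) (χ : IrrCharacter G)
    (hχ : χ ∈ blockOf M (χ₀ : G → ℂ))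
    (h0 : blockHeight p (blockOf M (χ₀ : G → ℂ)) (χ : G → ℂ) = 0) (x : G)
    (hx : ∃ k : ℕ, orderOf x = p ^ k) :
    (∃ g : G, g * x * g⁻¹ ∈ D) ↔
      ∃ u : G, (∃ z : G, IsPPart p u z ∧ IsConj x z) ∧ (χ : G → ℂ) u ≠ 0 := by
  classical
  have hp := hM.1
  constructor
  · rintro ⟨t, ht⟩
    obtain ⟨g₀, hg₀, P, rfl⟩ := hD
    obtain ⟨w, hw, hw'⟩ := ht
    have hw'' : (w : G) = t * x * t⁻¹ := hw'
    obtain ⟨k, hk⟩ := hx
    have hcomm : t * x * t⁻¹ * g₀ = g₀ * (t * x * t⁻¹) := by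
      rw [← hw'']
      exact Subgroup.mem_centralizer_singleton_iff.mp w.2
    have hpow : (t * x * t⁻¹) ^ (p ^ k) = 1 := by
      rw [← hk, ← orderOf_conj_h5 t x]
      exact pow_orderOf_eq_one _
    have hunit := char_mul_unit hM χ₀ g₀ hg₀ χ hχ h0 (t * x * t⁻¹) hcomm k hpow
    have hreg : ¬ p ∣ orderOf g₀ := pRegular_of_blockCoeff hM χ₀ g₀ hg₀.2.1
    refine ⟨x * (t⁻¹ * g₀ * t), ⟨x, ⟨t⁻¹ * g₀ * t, rfl, ?_, ⟨k, hk⟩, ?_⟩, IsConj.refl x⟩, ?_⟩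
    · show x * (t⁻¹ * g₀ * t) = t⁻¹ * g₀ * t * x
      calc x * (t⁻¹ * g₀ * t) = t⁻¹ * (t * x * t⁻¹ * g₀) * t := by group
        _ = t⁻¹ * (g₀ * (t * x * t⁻¹)) * t := by rw [hcomm]
        _ = t⁻¹ * g₀ * t * x := by group
    · have e : t⁻¹ * g₀ * t = t⁻¹ * g₀ * t⁻¹⁻¹ := by rw [inv_inv]
      rw [e, orderOf_conj_h5]
      exact hreg
    · intro hzero
      apply hunit
      have e : t * x * t⁻¹ * g₀ = t * (x * (t⁻¹ * g₀ * t)) * t⁻¹ := by group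
      rw [e, irr_conj, hzero]
      exact memLocalIdeal_zero hMp.ne_top
  · rintro ⟨u, ⟨z, hz, hxz⟩, hne⟩
    by_contra hnot
    apply hne
    have e2 : blockOf M (χ₀ : G → ℂ) = blockOf M (χ : G → ℂ) := blockOf_eq_of_sameBlock hχ
    refine vanish_of_ppart hM χ u z hz ?_
    intro D' hD' hzD'
    rw [← e2] at hD'
    obtain ⟨t, ht⟩ := defect_group_conj_mem hM χ₀ D D' hD hD' z hzD'
    obtain ⟨s, hs⟩ := isConj_iff.mp hxz
    apply hnot
    refine ⟨t * s, ?_⟩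
    have e : t * s * x * (t * s)⁻¹ = t * (s * x * s⁻¹) * t⁻¹ := by group
    rw [e, hs]
    exact ht

end Blocks

end Cfsg.Agent.Helper5
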