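import Mathlib
import Cfsg.Prelude.Def_BlockLocal
import Cfsg.Prelude.Def_BrauerPairs
import Cfsg.Agent.Helper22.BlkNil
import Cfsg.Agent.Helper24.CharIto
import Cfsg.Agent.Helper5.BlkBr2
import Cfsg.Agent.Helper5.BlkQuot
import Cfsg.Agent.Helper5.BlkDefect
import Cfsg.Agent.Helper5.BlkKer
import Cfsg.Agent.Helper5.BlkInd

/-!
helper5: a `G`-stable block of a normal subgroup of `p`-power index (S4672).
-/

set_option autoImplicit false

namespace Cfsg.Agent.Helper5

open Cfsg Cfsg.Agent.Helper24 Cfsg.Agent.Helper22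

universe u

section Grp

variable {G : Type u} [Group G]

/-- `N` normal of `p`-power index with `N C = G`, and `P ≤ C` of index prime to `p` in `C`:
then `N P = G` and `N ∩ P` has index prime to `p` in `N ∩ C`. -/
theorem sup_sylow_eq_top [Finite G] {p : ℕ} (hp : p.Prime) (N C P : Subgroup G) [N.Normal]
    (k : ℕ) (hk : N.index = p ^ k) (hNC : N ⊔ C = ⊤) (hPC : P ≤ C)
    (hPidx : ¬ p ∣ P.relIndex C) :
    N ⊔ P = ⊤ ∧ ¬ p ∣ (N ⊓ P).relIndex (N ⊓ C) := by
  have h1 : N.relIndex C = p ^ k := by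
    rw [← Subgroup.relIndex_sup_left C N, hNC, Subgroup.relIndex_top_right, hk]
  have h2 : N.relIndex P * (N ⊔ P).index = p ^ k := by
    rw [← Subgroup.relIndex_sup_left P N, Subgroup.relIndex_mul_index le_sup_left, hk]
  have h3 := Subgroup.relIndex_mul_relIndex (N ⊓ P) (N ⊓ C) C (inf_le_inf_left N hPC) inf_le_right
  have h4 := Subgroup.relIndex_mul_relIndex (N ⊓ P) P C inf_le_right hPC
  rw [Subgroup.inf_relIndex_right, h1] at h3
  rw [Subgroup.inf_relIndex_right] at h4
  have h5 : (N ⊓ P).relIndex (N ⊓ C) * p ^ k = N.relIndex P * P.relIndex C := by rw [h3, h4]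
  obtain ⟨j, hj, hj'⟩ := (Nat.dvd_prime_pow hp).mp (Dvd.intro _ h2)
  have hcop : Nat.Coprime (p ^ k) (P.relIndex C) :=
    Nat.Coprime.pow_left k ((Nat.Prime.coprime_iff_not_dvd hp).mpr hPidx)
  have h6 : p ^ k ∣ p ^ j := by
    have h7 : p ^ k ∣ p ^ j * P.relIndex C := by
      rw [← hj', ← h5]
      exact Dvd.intro_left _ rfl
    exact hcop.dvd_of_dvd_mul_right h7
  have hjk : k = j := le_antisymm ((Nat.pow_dvd_pow_iff_le_right hp.one_lt).mp h6) hj
  subst hjk
  constructor
  · rw [← Subgroup.index_eq_one]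
    rw [hj'] at h2
    exact Nat.eq_of_mul_eq_mul_left (pow_pos hp.pos k) (by rw [h2, mul_one])
  · rw [hj', mul_comm] at h5
    rw [Nat.eq_of_mul_eq_mul_left (pow_pos hp.pos k) h5]
    exact hPidx

/-- index of a centralizer inside a subgroup. -/
theorem index_centralizer_sub (N : Subgroup G) (n : N) :
    (Subgroup.centralizer ({n} : Set N)).index
      = (Subgroup.centralizer ({(n : G)} : Set G)).relIndex N := by
  have h : Subgroup.centralizer ({n} : Set N)
      = (Subgroup.centralizer ({(n : G)} : Set G)).subgroupOf N := by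
    ext m
    rw [Subgroup.mem_subgroupOf, Subgroup.mem_centralizer_singleton_iff,
      Subgroup.mem_centralizer_singleton_iff]
    constructor
    · intro h; exact congrArg Subtype.val h
    · intro h; exact Subtype.ext h
  rw [h]
  rfl

theorem relIndex_centralizer_conj (N : Subgroup G) [hN : N.Normal] (g x : G) :
    (Subgroup.centralizer ({x * g * x⁻¹} : Set G)).relIndex N
      = (Subgroup.centralizer ({g} : Set G)).relIndex N := by
  have e1 : Subgroup.centralizer ({x * g * x⁻¹} : Set G)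
      = (Subgroup.centralizer ({g} : Set G)).map (MulAut.conj x).toMonoidHom := by
    ext m
    rw [Subgroup.mem_centralizer_singleton_iff]
    constructor
    · intro h
      refine ⟨x⁻¹ * m * x, ?_, ?_⟩
      · refine Subgroup.mem_centralizer_singleton_iff.mpr ?_
        have e : x⁻¹ * m * x * g = x⁻¹ * (m * (x * g * x⁻¹)) * x := by group
        rw [e, h]
        group
      · show x * (x⁻¹ * m * x) * x⁻¹ = m
        group
    · rintro ⟨m', hm'', rfl⟩
      have hm' : m' * g = g * m' := Subgroup.mem_centralizer_singleton_iff.mp hm''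
      show x * m' * x⁻¹ * (x * g * x⁻¹) = x * g * x⁻¹ * (x * m' * x⁻¹)
      calc x * m' * x⁻¹ * (x * g * x⁻¹) = x * (m' * g) * x⁻¹ := by group
        _ = x * (g * m') * x⁻¹ := by rw [hm']
        _ = x * g * x⁻¹ * (x * m' * x⁻¹) := by group
  have e2 : N = N.map (MulAut.conj x).toMonoidHom := by
    ext m
    constructor
    · intro h
      refine ⟨x⁻¹ * m * x, ?_, ?_⟩
      · have h' := hN.conj_mem m h x⁻¹
        rwa [inv_inv] at h'
      · show x * (x⁻¹ * m * x) * x⁻¹ = m
        group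
    · rintro ⟨m', hm', rfl⟩
      exact hN.conj_mem m' hm' x
  rw [e1]
  conv_lhs => rw [e2]
  exact Subgroup.relIndex_map_map_of_injective _ _ (MulAut.conj x).injective

end Grp

section Blocks

variable {G : Type u} [Group G] [Fintype G]

/-- a set of irreducible characters is determined by its idempotent coefficients. -/
theorem set_eq_of_blockCoeff_eq (B B' : Set (IrrCharacter G))
    (h : ∀ g, blockCoeff B g = blockCoeff B' g) : B = B' := by
  classical
  have key : ∀ (S : Set (IrrCharacter G)) (ψ : IrrCharacter G),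
      ∑ g : G, blockCoeff S g * (ψ : G → ℂ) g
        = (if ψ ∈ S then (1 : ℂ) else 0) * (ψ : G → ℂ) 1 := by
    intro S ψ
    have h1 := spec_inversion (fun χ : IrrCharacter G => if χ ∈ S then (1 : ℂ) else 0) ψ
    rw [← h1]
    refine Finset.sum_congr rfl fun g _ => ?_
    rw [blockCoeff_eq_specFun S (fun χ : IrrCharacter G => if χ ∈ S then (1 : ℂ) else 0)
      (fun ψ hψ => if_pos hψ) (fun ψ hψ => if_neg hψ) g]
  ext ψ
  have h1 := key B ψ
  have h2 := key B' ψ
  rw [Finset.sum_congr rfl fun g _ => by rw [h g]] at h1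
  rw [h1] at h2
  have h3 := mul_right_cancel₀ (Cfsg.Agent.Helper5.irr_one_ne_zero ψ) h2
  by_cases hB : ψ ∈ B <;> by_cases hB' : ψ ∈ B' <;> simp [hB, hB'] at h3 ⊢

variable (N : Subgroup G) [hN : N.Normal] [Fintype N]

/-- a `G`-stable set of characters of `N` is stable under `twIrr`. -/
theorem stab_twIrr_mem (c : Set (IrrCharacter N))
    (hst : ∀ x : G, StabilizesBlock N c x) (x : G) (ψ : IrrCharacter N) :
    twIrr N x ψ ∈ c ↔ ψ ∈ c := by
  have key : ∀ (y : G) (χ : IrrCharacter N), χ ∈ c → twIrr N y χ ∈ c := by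
    intro y χ hχ
    obtain ⟨χ', hχ', hconj⟩ := (hst y⁻¹).2 χ hχ
    have e : twIrr N y χ = χ' := by
      apply Subtype.ext
      funext n
      rw [twIrr_apply]
      exact (hconj ⟨y * n * y⁻¹, hN.conj_mem n n.2 y⟩ n (by
        show (n : G) = y⁻¹ * (y * (n : G) * y⁻¹) * y⁻¹⁻¹
        group)).symm
    rw [e]
    exact hχ'
  constructor
  · intro h
    have h' := key x⁻¹ _ h
    rwa [← twIrr_mul, mul_inv_cancel, twIrr_one] at h'
  · exact key x ψ

/-- the idempotent of a `G`-stable block of a normal subgroup of `p`-power index is a block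
idempotent of `G`; the block consists of the characters lying over the stable block. -/
theorem stable_block_spec {p : ℕ} [Fact p.Prime] {M : Ideal AlgInt} (hM : IsPModular p M)
    [hMp : M.IsPrime] (hidx : ∃ k : ℕ, N.index = p ^ k) (θ₀ : IrrCharacter N)
    (hst : ∀ x : G, StabilizesBlock N (blockOf M (θ₀ : N → ℂ)) x) :
    ∃ χ₁ : IrrCharacter G,
      (∀ g : G, blockCoeff (blockOf M (χ₁ : G → ℂ)) g
        = subgroupBlockCoeff N (blockOf M (θ₀ : N → ℂ)) g) ∧
      (∀ (χ : IrrCharacter G) (θ : IrrCharacter N),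
        classInner (fun n : N => (χ : G → ℂ) n) (θ : N → ℂ) ≠ 0 →
          (χ ∈ blockOf M (χ₁ : G → ℂ) ↔ θ ∈ blockOf M (θ₀ : N → ℂ))) := by
  classical
  have hp := hM.1
  obtain ⟨c, hcdef⟩ : ∃ c : Set (IrrCharacter N), c = blockOf M (θ₀ : N → ℂ) := ⟨_, rfl⟩
  rw [← hcdef] at hst ⊢
  obtain ⟨d, hd0⟩ : ∃ d : IrrCharacter N → ℂ,
      d = fun θ : IrrCharacter N => if θ ∈ c then (1 : ℂ) else 0 := ⟨_, rfl⟩
  have hda : ∀ θ : IrrCharacter N, d θ = if θ ∈ c then (1 : ℂ) else 0 := fun θ => by rw [hd0]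
  have hd : ∀ (x : G) (ψ : IrrCharacter N), d (twIrr N x ψ) = d ψ := by
    intro x ψ
    rw [hda, hda, if_congr (stab_twIrr_mem N c hst x ψ) rfl rfl]
  have hFcl := isClassFunction_ext_of_inv N d hd
  have hspec : ∀ n : N, specFun d n = blockCoeff c n := fun n =>
    (blockCoeff_eq_specFun c d (fun ψ hψ => by rw [hda, if_pos hψ])
      (fun ψ hψ => by rw [hda, if_neg hψ]) n).symm
  have hF : ∀ g : G, extendByZero N (specFun d) g = subgroupBlockCoeff N c g := by
    intro g
    unfold subgroupBlockCoeff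
    by_cases hg : g ∈ N
    · rw [extendByZero_apply_mem N _ hg, dif_pos hg, hspec]
    · rw [extendByZero_apply_not_mem N _ hg, dif_neg hg]
  obtain ⟨cB, hcB0⟩ : ∃ cB : IrrCharacter G → ℂ, cB = fun χ : IrrCharacter G =>
      ((χ : G → ℂ) 1)⁻¹ * ∑ h : G, extendByZero N (specFun d) h * (χ : G → ℂ) h := ⟨_, rfl⟩
  have hcBa : ∀ χ : IrrCharacter G, cB χ
      = ((χ : G → ℂ) 1)⁻¹ * ∑ h : G, extendByZero N (specFun d) h * (χ : G → ℂ) h :=
    fun χ => by rw [hcB0]
  have hcBθ : ∀ (χ : IrrCharacter G) (θ : IrrCharacter N),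
      classInner (fun n : N => (χ : G → ℂ) n) (θ : N → ℂ) ≠ 0 → cB χ = d θ := by
    intro χ θ hθ
    rw [hcBa]
    exact sum_ext_of_inv N d hd χ θ hθ
  have hspecB : specFun cB = extendByZero N (specFun d) := by
    rw [hcB0]
    exact specFun_cvec _ hFcl
  have hcB01 : ∀ χ : IrrCharacter G, cB χ = 1 ∨ cB χ = 0 := by
    intro χ
    obtain ⟨θ, hθ⟩ := exists_constituent_res N χ
    rw [hcBθ χ θ hθ, hda]
    by_cases h : θ ∈ c
    · left; rw [if_pos h]
    · right; rw [if_neg h]
  obtain ⟨χ₁, hχ₁θ⟩ := Cfsg.Agent.Helper24.exists_irr_over N (θ₀ : N → ℂ) θ₀.2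
  have hθ₀c : θ₀ ∈ c := by rw [hcdef]; exact sameBlock_refl _
  have hχ₁ : cB χ₁ = 1 := by rw [hcBθ χ₁ θ₀ hχ₁θ, hda, if_pos hθ₀c]
  have hS : ∀ g : G, MemLocalRing M (extendByZero N (specFun d) g) := by
    intro g
    by_cases hg : g ∈ N
    · rw [extendByZero_apply_mem N _ hg, hspec, hcdef]
      exact blockCoeff_memLocalRing θ₀ _
    · rw [extendByZero_apply_not_mem N _ hg]
      exact mem_locRing.mp (locRing M).zero_mem
  have hblock : ∀ χ : IrrCharacter G, χ ∈ blockOf M (χ₁ : G → ℂ) ↔ cB χ = 1 := by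
    intro χ
    constructor
    · intro hχ
      have h1 := classFun_congr hFcl hS hχ
      rw [← hcBa, ← hcBa, hχ₁] at h1
      rcases hcB01 χ with h | h
      · exact h
      · rw [h, sub_zero] at h1
        exact absurd h1 not_memLocalIdeal_one
    · intro hχ
      obtain ⟨θ, hθ⟩ := exists_constituent_res N χ
      have hθc : θ ∈ c := by
        have h1 := hcBθ χ θ hθ
        rw [hχ, hda] at h1
        by_contra hno
        rw [if_neg hno] at h1
        exact one_ne_zero h1
      apply sameBlock_of_congr_regular hM χ₁ χ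
      intro g hg
      have hgN : g ∈ N := mem_of_not_dvd_orderOf_of_index N hidx hp hg
      rw [← indCC_eq_centralChar N χ₁ θ₀ hχ₁θ g hgN, ← indCC_eq_centralChar N χ θ hθ g hgN]
      exact indCC_congr N (by rw [hcdef] at hθc; exact hθc) g
  refine ⟨χ₁, ?_, ?_⟩
  · intro g
    rw [← hF g, ← hspecB]
    exact blockCoeff_eq_specFun _ cB (fun ψ hψ => (hblock ψ).mp hψ) (fun ψ hψ => by
      rcases hcB01 ψ with h | h
      · exact absurd ((hblock ψ).mpr h) hψ
      · exact h) g
  · intro χ θ hθ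
    rw [hblock, hcBθ χ θ hθ, hda]
    by_cases h : θ ∈ c
    · rw [if_pos h]
      exact ⟨fun _ => h, fun _ => rfl⟩
    · rw [if_neg h]
      exact ⟨fun h0 => absurd h0 zero_ne_one, fun h' => absurd h' h⟩

/-- a defect class of the block of `G` given by a stable block of `N` lies in `N`, is a defect
class there, and `G = N C_G(g)`. -/
theorem stable_defect_class {p : ℕ} [Fact p.Prime] {M : Ideal AlgInt} (hM : IsPModular p M)
    [hMp : M.IsPrime] (hidx : ∃ k : ℕ, N.index = p ^ k) (θ₀ : IrrCharacter N)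
    (hst : ∀ x : G, StabilizesBlock N (blockOf M (θ₀ : N → ℂ)) x) (χ₁ : IrrCharacter G)
    (hco : ∀ g : G, blockCoeff (blockOf M (χ₁ : G → ℂ)) g
      = subgroupBlockCoeff N (blockOf M (θ₀ : N → ℂ)) g)
    (g : G) (hg : IsDefectClass M (blockOf M (χ₁ : G → ℂ)) g) :
    ∃ hgN : g ∈ N, IsDefectClass M (blockOf M (θ₀ : N → ℂ)) (⟨g, hgN⟩ : N) ∧
      N ⊔ Subgroup.centralizer ({g} : Set G) = ⊤ := by
  classical
  have hp := hM.1
  have hgN : g ∈ N := by
    by_contra hno
    apply hg.2.1
    rw [hco g]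
    unfold subgroupBlockCoeff
    rw [dif_neg hno]
    exact memLocalIdeal_zero hMp.ne_top
  refine ⟨hgN, ?_⟩
  have hbc : blockCoeff (blockOf M (θ₀ : N → ℂ)) (⟨g, hgN⟩ : N)
      = blockCoeff (blockOf M (χ₁ : G → ℂ)) g := by
    rw [hco g]
    unfold subgroupBlockCoeff
    rw [dif_pos hgN]
  obtain ⟨χ₁', hco', hmem'⟩ := stable_block_spec N hM hidx θ₀ hst
  have hBeq : blockOf M (χ₁ : G → ℂ) = blockOf M (χ₁' : G → ℂ) :=
    set_eq_of_blockCoeff_eq _ _ fun g => by rw [hco g, hco' g]
  obtain ⟨θ', hθ'⟩ := exists_constituent_res N χ₁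
  have hθ'c : θ' ∈ blockOf M (θ₀ : N → ℂ) := by
    rw [← hmem' χ₁ θ' hθ', ← hBeq]
    exact sameBlock_refl _
  obtain ⟨gN, hgNdef⟩ : ∃ gN : N, gN = ⟨g, hgN⟩ := ⟨_, rfl⟩
  rw [← hgNdef] at hbc ⊢
  have hgNc : (gN : G) = g := by rw [hgNdef]
  obtain ⟨w, hw⟩ : ∃ w : ℂ, w = centralChar (θ' : N → ℂ) gN := ⟨_, rfl⟩
  obtain ⟨ι, hι⟩ := exists_class_reps N
  have hconjcc : ∀ r : N, IsConj g (r : G) →
      MemLocalIdeal M (centralChar (θ' : N → ℂ) r - w) ∧
      (Subgroup.centralizer ({r} : Set N)).index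
        = (Subgroup.centralizer ({gN} : Set N)).index := by
    intro r hr
    obtain ⟨x, hx⟩ := isConj_iff.mp hr
    have hidx' : (Subgroup.centralizer ({r} : Set N)).index
        = (Subgroup.centralizer ({gN} : Set N)).index := by
      rw [index_centralizer_sub, index_centralizer_sub, ← hx, hgNc]
      exact relIndex_centralizer_conj N g x
    refine ⟨?_, hidx'⟩
    have hsb : SameBlock M (θ' : N → ℂ) (twIrr N x θ' : N → ℂ) := by
      have h1 : twIrr N x θ' ∈ blockOf M (θ₀ : N → ℂ) :=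
        (stab_twIrr_mem N _ hst x θ').mpr hθ'c
      exact sameBlock_trans (sameBlock_symm hθ'c) h1
    have e : centralChar (θ' : N → ℂ) r = centralChar (twIrr N x θ' : N → ℂ) gN := by
      unfold centralChar
      rw [hidx']
      have e1 : (twIrr N x θ' : N → ℂ) gN = (θ' : N → ℂ) r := by
        rw [twIrr_apply]
        have e3 : (⟨x * (gN : G) * x⁻¹, hN.conj_mem gN gN.2 x⟩ : N) = r :=
          Subtype.ext (by show x * (gN : G) * x⁻¹ = r; rw [hgNc, hx])
        rw [e3]
      have e2 : (twIrr N x θ' : N → ℂ) 1 = (θ' : N → ℂ) 1 := twist_one_apply N _ x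
      rw [e1, e2]
    rw [e, hw]
    have h2 := memLocalIdeal_neg (hsb gN)
    rwa [neg_sub] at h2
  have hiff : ∀ n h : N, IsConj g ((h * n * h⁻¹ : N) : G) ↔ IsConj g (n : G) := by
    intro n h
    have hc : IsConj (n : G) ((h * n * h⁻¹ : N) : G) := isConj_iff.mpr ⟨(h : G), rfl⟩
    exact ⟨fun h1 => h1.trans hc.symm, fun h1 => h1.trans hc⟩
  have hΦcl : IsClassFunction N (fun n : N =>
      (if IsConj g (n : G) then (1 : ℂ) else 0) * centralChar (θ' : N → ℂ) n) := by
    intro n h
    show (if IsConj g ((h * n * h⁻¹ : N) : G) then (1 : ℂ) else 0)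
      * centralChar (θ' : N → ℂ) (h * n * h⁻¹) = _
    rw [if_congr (hiff n h) rfl rfl, centralChar_isClassFunction θ' n h]
  have h1 := hι _ hΦcl
  have hω : centralChar (χ₁ : G → ℂ) g = ∑ r ∈ ι,
      (if IsConj g (r : G) then (1 : ℂ) else 0) * centralChar (θ' : N → ℂ) r := by
    rw [← h1, ← indCC_eq_centralChar N χ₁ θ' hθ' g hgN, indCC_eq N θ' g, Finset.mul_sum]
    refine Finset.sum_congr rfl fun m _ => ?_
    unfold centralChar
    have hi : ((Subgroup.centralizer ({m} : Set N)).index : ℂ) ≠ 0 :=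
      Nat.cast_ne_zero.mpr Subgroup.index_ne_zero_of_finite
    have h1' := Cfsg.Agent.Helper5.irr_one_ne_zero θ'
    field_simp
  obtain ⟨t, ht⟩ : ∃ t : ℕ, t = (ι.filter (fun r : N => IsConj g (r : G))).card := ⟨_, rfl⟩
  have hdiff : MemLocalIdeal M (centralChar (χ₁ : G → ℂ) g - (t : ℂ) * w) := by
    have e : (t : ℂ) * w = ∑ r ∈ ι, (if IsConj g (r : G) then (1 : ℂ) else 0) * w := by
      rw [← Finset.sum_mul, Finset.sum_boole, ht]
    rw [hω, e, ← Finset.sum_sub_distrib]
    refine memLocalIdeal_sum _ _ fun r _ => ?_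
    rw [← mul_sub]
    by_cases hr : IsConj g (r : G)
    · rw [if_pos hr, one_mul]
      exact (hconjcc r hr).1
    · rw [if_neg hr, zero_mul]
      exact memLocalIdeal_zero hMp.ne_top
  have hωn := hg.2.2 χ₁ (sameBlock_refl _)
  have hwR : MemLocalRing M w := by rw [hw]; exact centralChar_memLocalRing θ' gN
  have htw : ¬ MemLocalIdeal M ((t : ℂ) * w) := by
    intro h
    apply hωn
    have h2 := memLocalIdeal_add hMp hdiff h
    rwa [sub_add_cancel] at h2
  have hwn : ¬ MemLocalIdeal M w :=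
    fun h => htw (memLocalIdeal_mul_left (natCast_memLocalRing t) h)
  have htp : ¬ p ∣ t := by
    rintro ⟨k, hk⟩
    apply htw
    rw [hk, Nat.cast_mul, mul_assoc, mul_comm]
    exact memLocalIdeal_mul_left ((locRing M).mul_mem (natCast_memLocalRing k) hwR)
      (prime_memLocalIdeal hM)
  constructor
  · refine ⟨blockCoeff_memLocalRing θ₀ gN, ?_, ?_⟩
    · rw [hbc]
      exact hg.2.1
    · intro θ hθ hcon
      apply hwn
      have hsb : SameBlock M (θ : N → ℂ) (θ' : N → ℂ) :=
        sameBlock_trans (sameBlock_symm hθ) hθ'c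
      have h2 := memLocalIdeal_sub hcon (hsb gN)
      rw [sub_sub_cancel] at h2
      rw [hw]
      exact h2
  · have hΨcl : IsClassFunction N (fun n : N =>
        (if IsConj g (n : G) then (1 : ℂ) else 0)
          * ((Subgroup.centralizer ({n} : Set N)).index : ℂ)) := by
      intro n h
      show (if IsConj g ((h * n * h⁻¹ : N) : G) then (1 : ℂ) else 0)
        * ((Subgroup.centralizer ({h * n * h⁻¹} : Set N)).index : ℂ) = _
      rw [if_congr (hiff n h) rfl rfl, index_centralizer_conj n h]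
    have h2 := hι _ hΨcl
    have hL : ∑ n : N, (if IsConj g (n : G) then (1 : ℂ) else 0)
        * ((Subgroup.centralizer ({n} : Set N)).index : ℂ)
          / ((Subgroup.centralizer ({n} : Set N)).index : ℂ)
        = ((Subgroup.centralizer ({g} : Set G)).index : ℂ) := by
      have e1 : ∀ n : N, (if IsConj g (n : G) then (1 : ℂ) else 0)
          * ((Subgroup.centralizer ({n} : Set N)).index : ℂ)
            / ((Subgroup.centralizer ({n} : Set N)).index : ℂ)
          = (fun x : G => if IsConj g x then (1 : ℂ) else 0) (n : G) := by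
        intro n
        have hi : ((Subgroup.centralizer ({n} : Set N)).index : ℂ) ≠ 0 :=
          Nat.cast_ne_zero.mpr Subgroup.index_ne_zero_of_finite
        show _ = if IsConj g (n : G) then (1 : ℂ) else 0
        rw [mul_div_assoc, div_self hi, mul_one]
      rw [Finset.sum_congr rfl fun n _ => e1 n,
        ← sum_eq_sum_subgroup N (fun x : G => if IsConj g x then (1 : ℂ) else 0) ?_,
        Finset.sum_boole, card_filter_isConj]
      intro x hx
      show (if IsConj g x then (1 : ℂ) else 0) = 0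
      rw [if_neg]
      intro hc
      obtain ⟨y, hy⟩ := isConj_iff.mp hc
      exact hx (hy ▸ hN.conj_mem g hgN y)
    have hR : ∑ r ∈ ι, (if IsConj g (r : G) then (1 : ℂ) else 0)
        * ((Subgroup.centralizer ({r} : Set N)).index : ℂ)
        = (t : ℂ) * ((Subgroup.centralizer ({gN} : Set N)).index : ℂ) := by
      rw [ht, ← Finset.sum_boole, Finset.sum_mul]
      refine Finset.sum_congr rfl fun r _ => ?_
      by_cases hr : IsConj g (r : G)
      · rw [if_pos hr, (hconjcc r hr).2]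
      · rw [if_neg hr, zero_mul, zero_mul]
    rw [hL, hR] at h2
    have h3 : (Subgroup.centralizer ({g} : Set G)).index
        = t * (Subgroup.centralizer ({gN} : Set N)).index := by exact_mod_cast h2
    rw [index_centralizer_sub, hgNc] at h3
    obtain ⟨C, hC⟩ : ∃ C : Subgroup G, C = Subgroup.centralizer ({g} : Set G) := ⟨_, rfl⟩
    rw [← hC] at h3 ⊢
    have h4 := Subgroup.relIndex_mul_relIndex (N ⊓ C) N (N ⊔ C) inf_le_left le_sup_left
    have h5 := Subgroup.relIndex_mul_relIndex (N ⊓ C) C (N ⊔ C) inf_le_right le_sup_right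
    rw [Subgroup.inf_relIndex_left, Subgroup.relIndex_sup_left] at h4
    rw [Subgroup.inf_relIndex_right] at h5
    have hne1 : N.relIndex C ≠ 0 :=
      (Subgroup.index_ne_zero_of_finite : (N.subgroupOf C).index ≠ 0)
    have hne2 : C.relIndex N ≠ 0 :=
      (Subgroup.index_ne_zero_of_finite : (C.subgroupOf N).index ≠ 0)
    have h6 : C.relIndex (N ⊔ C) = C.relIndex N := by
      have h' : N.relIndex C * C.relIndex (N ⊔ C) = N.relIndex C * C.relIndex N := by
        rw [h5, ← h4, mul_comm]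
      exact Nat.eq_of_mul_eq_mul_left (Nat.pos_of_ne_zero hne1) h'
    have h7 := Subgroup.relIndex_mul_index (show C ≤ N ⊔ C from le_sup_right)
    rw [h6, h3] at h7
    have h8 : (N ⊔ C).index = t := by
      have h' : C.relIndex N * (N ⊔ C).index = C.relIndex N * t := by
        rw [h7, mul_comm]
      exact Nat.eq_of_mul_eq_mul_left (Nat.pos_of_ne_zero hne2) h'
    obtain ⟨k, hk⟩ := hidx
    have h9 : (N ⊔ C).index ∣ p ^ k := hk ▸ Subgroup.index_dvd_of_le le_sup_left
    obtain ⟨j, -, hj⟩ := (Nat.dvd_prime_pow hp).mp h9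
    rw [← Subgroup.index_eq_one, hj]
    rcases Nat.eq_zero_or_pos j with rfl | hjpos
    · rw [pow_zero]
    · exfalso
      apply htp
      rw [← h8, hj]
      exact dvd_pow_self p hjpos.ne'

/-- S4672, for `c = blockOf M θ₀` and blocks `blockOf M χ₁`. -/
theorem stable_block_main {p : ℕ} [Fact p.Prime] {M : Ideal AlgInt} (hM : IsPModular p M)
    [hMp : M.IsPrime] (hidx : ∃ k : ℕ, N.index = p ^ k) (θ₀ : IrrCharacter N)
    (hst : ∀ x : G, StabilizesBlock N (blockOf M (θ₀ : N → ℂ)) x) :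
    (∃ χ₁ : IrrCharacter G, ∀ g : G, blockCoeff (blockOf M (χ₁ : G → ℂ)) g
      = subgroupBlockCoeff N (blockOf M (θ₀ : N → ℂ)) g) ∧
    ∀ χ₁ : IrrCharacter G, (∀ g : G, blockCoeff (blockOf M (χ₁ : G → ℂ)) g
      = subgroupBlockCoeff N (blockOf M (θ₀ : N → ℂ)) g) →
      ∀ P : Subgroup G, IsDefectGroup p M (blockOf M (χ₁ : G → ℂ)) P →
        N ⊔ P = ⊤ ∧ IsDefectGroup p M (blockOf M (θ₀ : N → ℂ)) ((P ⊓ N).subgroupOf N) := by
  classical
  have hp := hM.1
  constructor
  · obtain ⟨χ₁, h1, -⟩ := stable_block_spec N hM hidx θ₀ hst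
    exact ⟨χ₁, h1⟩
  · intro χ₁ hco P hP
    obtain ⟨g, hg, Q, hPdef⟩ := hP
    obtain ⟨hgN, hdc, hNC⟩ := stable_defect_class N hM hidx θ₀ hst χ₁ hco g hg
    obtain ⟨k, hk⟩ := hidx
    have hPC : P ≤ Subgroup.centralizer ({g} : Set G) := by
      rw [hPdef]
      exact Subgroup.map_subtype_le _
    have hPp : IsPGroup p P := by
      rw [hPdef]
      exact Q.2.map _
    have hPidx : ¬ p ∣ P.relIndex (Subgroup.centralizer ({g} : Set G)) := by
      have e : P.relIndex (Subgroup.centralizer ({g} : Set G))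
          = (Q : Subgroup (Subgroup.centralizer ({g} : Set G))).index := by
        unfold Subgroup.relIndex
        rw [hPdef]
        congr 1
        exact Subgroup.comap_map_eq_self_of_injective (Subgroup.subtype_injective _) _
      rw [e]
      exact Q.not_dvd_index
    obtain ⟨h1, h2⟩ := sup_sylow_eq_top hp N _ P k hk hNC hPC hPidx
    refine ⟨h1, ⟨g, hgN⟩, hdc, ?_⟩
    have hle : (P ⊓ N).subgroupOf N ≤ Subgroup.centralizer ({(⟨g, hgN⟩ : N)} : Set N) := by
      intro n hn
      rw [Subgroup.mem_subgroupOf] at hn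
      have h3 : (n : G) * g = g * (n : G) :=
        Subgroup.mem_centralizer_singleton_iff.mp (hPC hn.1)
      exact Subgroup.mem_centralizer_singleton_iff.mpr (Subtype.ext h3)
    have hRp : IsPGroup p (((P ⊓ N).subgroupOf N).subgroupOf
        (Subgroup.centralizer ({(⟨g, hgN⟩ : N)} : Set N))) :=
      ((hPp.to_le inf_le_left).comap_subtype).comap_subtype
    have hRidx : ¬ p ∣ (((P ⊓ N).subgroupOf N).subgroupOf
        (Subgroup.centralizer ({(⟨g, hgN⟩ : N)} : Set N))).index := by
      show ¬ p ∣ ((P ⊓ N).subgroupOf N).relIndex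
        (Subgroup.centralizer ({(⟨g, hgN⟩ : N)} : Set N))
      have e1 : ((P ⊓ N).subgroupOf N).relIndex
          (Subgroup.centralizer ({(⟨g, hgN⟩ : N)} : Set N))
          = (P ⊓ N).relIndex ((Subgroup.centralizer ({(⟨g, hgN⟩ : N)} : Set N)).map
            N.subtype) :=
        Subgroup.relIndex_comap (P ⊓ N) N.subtype _
      have e2 : (Subgroup.centralizer ({(⟨g, hgN⟩ : N)} : Set N)).map N.subtype
          = N ⊓ Subgroup.centralizer ({g} : Set G) := by
        ext m
        constructor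
        · rintro ⟨n, hn, rfl⟩
          have hn' : n * (⟨g, hgN⟩ : N) = (⟨g, hgN⟩ : N) * n :=
            Subgroup.mem_centralizer_singleton_iff.mp hn
          exact ⟨n.2, Subgroup.mem_centralizer_singleton_iff.mpr (congrArg Subtype.val hn')⟩
        · rintro ⟨hmN, hmC⟩
          have hmC' : m * g = g * m := Subgroup.mem_centralizer_singleton_iff.mp hmC
          exact ⟨⟨m, hmN⟩, Subgroup.mem_centralizer_singleton_iff.mpr (Subtype.ext hmC'), rfl⟩
      rw [e1, e2, inf_comm P N]
      exact h2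
    refine ⟨hRp.toSylow hRidx, ?_⟩
    rw [IsPGroup.toSylow_coe]
    exact (Subgroup.map_subgroupOf_eq_of_le hle).symm

end Blocks

end Cfsg.Agent.Helper5
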