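import Mathlib
import Cfsg.Agent.Helper5.BlkDom2
import Cfsg.Agent.Helper5.BlkQuot
import Cfsg.Agent.Helper5.BlkOrth2
import Cfsg.Agent.Helper5.BlkOp
import Cfsg.Agent.Helper5.BlkKer
import Cfsg.Agent.Helper5.BlkDefect
import Cfsg.Agent.Helper5.BlkOsima
import Cfsg.Agent.Helper22.IrrKer
import Cfsg.Agent.Helper22.BlkCover
import Cfsg.Agent.Helper22.Brauer3
import Cfsg.Agent.Helper24.DefZero1
import Cfsg.Agent.Helper24.CharInd
import Cfsg.Agent.Helper24.CharComplete
import Cfsg.Prelude.Def_BrauerPairs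

/-!
helper5: general lemmas for weights of Brauer pairs.

* `sum_comp_surj_hom` : summing a function through a surjective homomorphism.
* `mem_of_blockCoeff_sub` : constituents of members of a block whose idempotent is that of a set
  `c` of characters of a subgroup lie in `c`.
* `weight_radical` : a character trivial on the normal subgroup `Q` and of defect zero modulo `Q`
  forces every normal `p`-subgroup to lie in `Q`.
* `defect_of_central_quot` : a block containing a character trivial on a central `p`-subgroup `Z`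
  and of defect zero modulo `Z` has defect group `Z`.
-/

set_option autoImplicit false

namespace Cfsg.Agent.Helper5

open Cfsg Cfsg.Agent.Helper22 Cfsg.Agent.Helper24

universe u

theorem sum_comp_surj_hom {A B : Type*} [Group A] [Group B] [Fintype A] [Fintype B]
    (π : A →* B) (hπ : Function.Surjective π) (Φ : B → ℂ) :
    ∑ a : A, Φ (π a) = (Nat.card π.ker : ℂ) * ∑ b : B, Φ b := by
  classical
  have hker : Nat.card π.ker = (Finset.univ.filter (fun a : A => π a = 1)).card :=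
    Nat.subtype_card _ (fun x => by simp [MonoidHom.mem_ker])
  rw [← Finset.sum_fiberwise (Finset.univ : Finset A) (fun a => π a) (fun a => Φ (π a)),
    Finset.mul_sum]
  refine Finset.sum_congr rfl fun b _ => ?_
  have h1 : ∑ a ∈ Finset.univ.filter (fun a : A => π a = b), Φ (π a)
      = ∑ a ∈ Finset.univ.filter (fun a : A => π a = b), Φ b :=
    Finset.sum_congr rfl fun a ha => by rw [(Finset.mem_filter.mp ha).2]
  rw [h1, Finset.sum_const, nsmul_eq_mul, hker]
  congr 2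
  exact MonoidHom.card_fiber_eq_of_mem_range π (hπ b) ⟨1, map_one π⟩

section Blocks

variable {G : Type u} [Group G] [Fintype G]

theorem mem_of_blockCoeff_sub (T C : Subgroup G) [Fintype T] [Fintype C] (hCT : C ≤ T)
    (S : Set (IrrCharacter T)) (c : Set (IrrCharacter C))
    (h : ∀ t : T, blockCoeff S t = subgroupBlockCoeff C c (t : G))
    (χ : IrrCharacter T) (hχ : χ ∈ S) (θ : IrrCharacter C)
    (hθ : classInner (fun n : C => (χ : T → ℂ) ⟨n, hCT n.2⟩) (θ : C → ℂ) ≠ 0) : θ ∈ c := by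
  classical
  have keyT : ∑ t : T, blockCoeff S t * (χ : T → ℂ) t = (χ : T → ℂ) 1 := by
    have h1 := spec_inversion (fun ψ : IrrCharacter T => if ψ ∈ S then (1 : ℂ) else 0) χ
    rw [if_pos hχ, one_mul] at h1
    rw [← h1]
    refine Finset.sum_congr rfl fun g _ => ?_
    rw [blockCoeff_eq_specFun S (fun ψ : IrrCharacter T => if ψ ∈ S then (1 : ℂ) else 0)
      (fun ψ hψ => if_pos hψ) (fun ψ hψ => if_neg hψ) g]
  have keyC : ∀ ψ : IrrCharacter C, ∑ n : C, blockCoeff c n * (ψ : C → ℂ) n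
      = (if ψ ∈ c then (1 : ℂ) else 0) * (ψ : C → ℂ) 1 := by
    intro ψ
    have h1 := spec_inversion (fun χ : IrrCharacter C => if χ ∈ c then (1 : ℂ) else 0) ψ
    rw [← h1]
    refine Finset.sum_congr rfl fun g _ => ?_
    rw [blockCoeff_eq_specFun c (fun χ : IrrCharacter C => if χ ∈ c then (1 : ℂ) else 0)
      (fun ψ hψ => if_pos hψ) (fun ψ hψ => if_neg hψ) g]
  have hre : ∑ t : T, blockCoeff S t * (χ : T → ℂ) t
      = ∑ n : C, blockCoeff c n * (χ : T → ℂ) ⟨n, hCT n.2⟩ := by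
    have hinj : Function.Injective (fun n : C => (⟨n, hCT n.2⟩ : T)) :=
      fun a b hab => Subtype.ext (congrArg (fun t : T => (t : G)) hab)
    rw [← Finset.sum_subset (Finset.subset_univ
      (Finset.univ.image (fun n : C => (⟨n, hCT n.2⟩ : T))))]
    · rw [Finset.sum_image (fun a _ b _ hab => hinj hab)]
      refine Finset.sum_congr rfl fun n _ => ?_
      rw [h ⟨n, hCT n.2⟩]
      unfold subgroupBlockCoeff
      rw [dif_pos n.2]
    · intro t _ ht
      have htC : (t : G) ∉ C := fun hC =>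
        ht (Finset.mem_image.mpr ⟨⟨t, hC⟩, Finset.mem_univ _, rfl⟩)
      rw [h t]
      unfold subgroupBlockCoeff
      rw [dif_neg htC, zero_mul]
  have hcf : IsClassFunction C (fun n : C => (χ : T → ℂ) ⟨n, hCT n.2⟩) := by
    intro g k
    exact irr_conj χ (⟨g, hCT g.2⟩ : T) (⟨k, hCT k.2⟩ : T)
  have hdec := classFunction_eq_sum_irr _ hcf
  have hch : IsCharacter C (fun n : C => (χ : T → ℂ) ⟨n, hCT n.2⟩) := by
    obtain ⟨m, ρ, hρ⟩ := isCharacter_of_isIrrCharacter χ.2
    refine ⟨m, MonoidHom.comp ρ (Subgroup.inclusion hCT), ?_⟩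
    rw [← hρ]
    rfl
  have hnat : ∀ ψ : IrrCharacter C, ∃ a : ℕ,
      classInner (fun n : C => (χ : T → ℂ) ⟨n, hCT n.2⟩) (ψ : C → ℂ) = a :=
    fun ψ => classInner_isCharacter_natCast hch (isCharacter_of_isIrrCharacter ψ.2)
  choose a ha using hnat
  have hdegs : ∀ ψ : IrrCharacter C, ∃ n : ℕ, 0 < n ∧ (ψ : C → ℂ) 1 = n :=
    fun ψ => irr_one_eq_natCast_pos ψ
  choose dg hdg0 hdg using hdegs
  have hval : ∀ n : C, (χ : T → ℂ) ⟨n, hCT n.2⟩
      = ∑ ψ : IrrCharacter C, (a ψ : ℂ) * (ψ : C → ℂ) n := by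
    intro n
    have h1 := congrFun hdec n
    simp only [Finset.sum_apply, Pi.smul_apply, smul_eq_mul] at h1
    rw [h1]
    exact Finset.sum_congr rfl fun ψ _ => by rw [ha ψ]
  have hL : ∑ n : C, blockCoeff c n * (χ : T → ℂ) ⟨n, hCT n.2⟩
      = ∑ ψ : IrrCharacter C, (a ψ : ℂ) * ((if ψ ∈ c then (1 : ℂ) else 0) * (dg ψ : ℂ)) := by
    rw [Finset.sum_congr rfl fun n _ => by rw [hval n, Finset.mul_sum]]
    rw [Finset.sum_comm]
    refine Finset.sum_congr rfl fun ψ _ => ?_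
    rw [← hdg ψ, ← keyC ψ, Finset.mul_sum]
    refine Finset.sum_congr rfl fun n _ => ?_
    ring
  have hR : (χ : T → ℂ) 1 = ∑ ψ : IrrCharacter C, (a ψ : ℂ) * (dg ψ : ℂ) := by
    have h1 := hval 1
    have e1 : (⟨((1 : C) : G), hCT (1 : C).2⟩ : T) = 1 := rfl
    rw [e1] at h1
    rw [h1]
    exact Finset.sum_congr rfl fun ψ _ => by rw [hdg ψ]
  have heq : ∑ ψ : IrrCharacter C, (a ψ : ℂ) * ((if ψ ∈ c then (1 : ℂ) else 0) * (dg ψ : ℂ))
      = ∑ ψ : IrrCharacter C, (a ψ : ℂ) * (dg ψ : ℂ) := by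
    rw [← hL, ← hre, keyT, hR]
  have hcast : ∀ ψ : IrrCharacter C, (((if ψ ∈ c then 1 else 0 : ℕ)) : ℂ)
      = if ψ ∈ c then (1 : ℂ) else 0 := fun ψ => by split_ifs <;> simp
  have heqN : ∑ ψ : IrrCharacter C, a ψ * ((if ψ ∈ c then 1 else 0) * dg ψ)
      = ∑ ψ : IrrCharacter C, a ψ * dg ψ := by
    have h1 : ((∑ ψ : IrrCharacter C, a ψ * ((if ψ ∈ c then 1 else 0) * dg ψ) : ℕ) : ℂ)
        = ((∑ ψ : IrrCharacter C, a ψ * dg ψ : ℕ) : ℂ) := by
      rw [Nat.cast_sum, Nat.cast_sum]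
      simp only [Nat.cast_mul, hcast]
      exact heq
    exact_mod_cast h1
  by_contra hθc
  have hlt : ∑ ψ : IrrCharacter C, a ψ * ((if ψ ∈ c then 1 else 0) * dg ψ)
      < ∑ ψ : IrrCharacter C, a ψ * dg ψ := by
    apply Finset.sum_lt_sum
    · intro ψ _
      by_cases hψ : ψ ∈ c
      · rw [if_pos hψ, one_mul]
      · rw [if_neg hψ, zero_mul, mul_zero]
        exact Nat.zero_le _
    · refine ⟨θ, Finset.mem_univ _, ?_⟩
      rw [if_neg hθc, zero_mul, mul_zero]
      have ha0 : a θ ≠ 0 := by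
        intro h0
        apply hθ
        rw [ha θ, h0, Nat.cast_zero]
      exact Nat.mul_pos (Nat.pos_of_ne_zero ha0) (hdg0 θ)
  exact absurd heqN hlt.ne

theorem weight_radical {p : ℕ} [Fact p.Prime]
    (Q R : Subgroup G) [hQn : Q.Normal] [hRn : R.Normal] (hR : IsPGroup p R)
    (χ : IrrCharacter G) (hχQ : ∀ q ∈ Q, (χ : G → ℂ) q = (χ : G → ℂ) 1)
    (hdeg : (Nat.card G).factorization p
      ≤ (charDegree (χ : G → ℂ)).factorization p + (Nat.card Q).factorization p) :
    R ≤ Q := by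
  classical
  have hp : p.Prime := Fact.out
  haveI : Fintype (G ⧸ Q) := Fintype.ofFinite _
  have hsurj : Function.Surjective (QuotientGroup.mk' Q) := QuotientGroup.mk'_surjective Q
  obtain ⟨ψ, hψ⟩ := exists_irr_of_ker (QuotientGroup.mk' Q) hsurj χ (fun u hu => hχQ u (by
    have h : u ∈ (QuotientGroup.mk' Q).ker := hu
    rwa [QuotientGroup.ker_mk'] at h))
  have hdegeq : charDegree (ψ : G ⧸ Q → ℂ) = charDegree (χ : G → ℂ) := by
    unfold charDegree
    rw [hψ 1, map_one]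
  have hcard : Nat.card G = Nat.card (G ⧸ Q) * Nat.card Q :=
    Subgroup.card_eq_card_quotient_mul_card_subgroup Q
  have hfac : (Nat.card G).factorization p
      = (Nat.card (G ⧸ Q)).factorization p + (Nat.card Q).factorization p := by
    rw [hcard, Nat.factorization_mul Nat.card_pos.ne' Nat.card_pos.ne', Finsupp.add_apply]
  have hdvd : p ^ (Nat.card (G ⧸ Q)).factorization p ∣ charDegree (ψ : G ⧸ Q → ℂ) := by
    have h1 : p ^ (charDegree (ψ : G ⧸ Q → ℂ)).factorization p ∣ charDegree (ψ : G ⧸ Q → ℂ) :=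
      Nat.ordProj_dvd _ _
    exact (pow_dvd_pow p (by rw [hdegeq]; omega)).trans h1
  have hvan : ∀ r ∈ R, r ∉ Q → (χ : G → ℂ) r = 0 := by
    intro r hr hrQ
    rw [hψ r]
    apply irr_defect_zero_vanish ψ p hp hdvd
    obtain ⟨k, hk⟩ := hR ⟨r, hr⟩
    have hk' : r ^ p ^ k = 1 := by
      have := congrArg Subtype.val hk
      simpa using this
    have h1 : (QuotientGroup.mk' Q r) ^ p ^ k = 1 := by rw [← map_pow, hk', map_one]
    have h2 : orderOf (QuotientGroup.mk' Q r) ∣ p ^ k := orderOf_dvd_of_pow_eq_one h1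
    obtain ⟨j, hj, hjeq⟩ := (Nat.dvd_prime_pow hp).mp h2
    have hne : QuotientGroup.mk' Q r ≠ 1 := fun h => hrQ ((QuotientGroup.eq_one_iff r).mp h)
    have hj0 : j ≠ 0 := by
      rintro rfl
      rw [pow_zero] at hjeq
      exact hne (orderOf_eq_one_iff.mp hjeq)
    rw [hjeq]
    exact dvd_pow_self p hj0
  by_contra hRQ
  obtain ⟨r₀, hr₀, hr₀Q⟩ := SetLike.not_le_iff_exists.mp hRQ
  haveI : Fintype R := Fintype.ofFinite _
  have hinner : classInner (fun n : R => (χ : G → ℂ) n) (fun _ : R => (1 : ℂ)) ≠ 0 := by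
    rw [classInner_def']
    have e : ∑ n : R, (χ : G → ℂ) n * starRingEnd ℂ (1 : ℂ)
        = ((Finset.univ.filter (fun n : R => (n : G) ∈ Q)).card : ℂ) * (χ : G → ℂ) 1 := by
      rw [Finset.card_filter, Nat.cast_sum, Finset.sum_mul]
      refine Finset.sum_congr rfl fun n _ => ?_
      by_cases hn : (n : G) ∈ Q
      · rw [if_pos hn, hχQ _ hn, map_one, mul_one, Nat.cast_one, one_mul]
      · rw [if_neg hn, hvan _ n.2 hn, zero_mul, Nat.cast_zero, zero_mul]
    rw [e]
    have hpos : 0 < (Finset.univ.filter (fun n : R => (n : G) ∈ Q)).card :=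
      Finset.card_pos.mpr ⟨1, Finset.mem_filter.mpr ⟨Finset.mem_univ _, Q.one_mem⟩⟩
    exact mul_ne_zero (inv_ne_zero (Nat.cast_ne_zero.mpr Nat.card_pos.ne'))
      (mul_ne_zero (Nat.cast_ne_zero.mpr hpos.ne') (Cfsg.Agent.Helper5.irr_one_ne_zero χ))
  have hconst := const_on_of_inner_one_ne_zero R χ hinner r₀ hr₀
  rw [hvan r₀ hr₀ hr₀Q] at hconst
  exact Cfsg.Agent.Helper5.irr_one_ne_zero χ hconst.symm

theorem defect_of_central_quot {p : ℕ} [Fact p.Prime] {M : Ideal AlgInt}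
    (hM : IsPModular p M) [hMp : M.IsPrime] (Z : Subgroup G) [hZn : Z.Normal]
    (hZp : IsPGroup p Z) (hZc : Z ≤ Subgroup.center G) (θ : IrrCharacter G)
    (hker : ∀ z ∈ Z, (θ : G → ℂ) z = (θ : G → ℂ) 1)
    (hdeg : (Nat.card G).factorization p
      ≤ (charDegree (θ : G → ℂ)).factorization p + (Nat.card Z).factorization p) :
    IsDefectGroup p M (blockOf M (θ : G → ℂ)) Z := by
  classical
  have hp : p.Prime := Fact.out
  haveI : Fintype (G ⧸ Z) := Fintype.ofFinite _
  have hsurj : Function.Surjective (QuotientGroup.mk' Z) := QuotientGroup.mk'_surjective Z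
  obtain ⟨θt, hθt⟩ := exists_irr_of_ker (QuotientGroup.mk' Z) hsurj θ (fun u hu => hker u (by
    have h : u ∈ (QuotientGroup.mk' Z).ker := hu
    rwa [QuotientGroup.ker_mk'] at h))
  have hdegeq : charDegree (θt : G ⧸ Z → ℂ) = charDegree (θ : G → ℂ) := by
    unfold charDegree
    rw [hθt 1, map_one]
  have hcard : Nat.card G = Nat.card (G ⧸ Z) * Nat.card Z :=
    Subgroup.card_eq_card_quotient_mul_card_subgroup Z
  have hfac : (Nat.card G).factorization p
      = (Nat.card (G ⧸ Z)).factorization p + (Nat.card Z).factorization p := by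
    rw [hcard, Nat.factorization_mul Nat.card_pos.ne' Nat.card_pos.ne', Finsupp.add_apply]
  obtain ⟨hθ1, hc0, hcdvd⟩ := irr_charDegree_spec θt
  have hnot : ¬ p ∣ Nat.card (G ⧸ Z) / charDegree (θt : G ⧸ Z → ℂ) := by
    intro hdiv
    have h1 : (Nat.card (G ⧸ Z) / charDegree (θt : G ⧸ Z → ℂ)).factorization p
        = (Nat.card (G ⧸ Z)).factorization p
          - (charDegree (θt : G ⧸ Z → ℂ)).factorization p := by
      rw [Nat.factorization_div hcdvd]
      rfl
    have hq0 : Nat.card (G ⧸ Z) / charDegree (θt : G ⧸ Z → ℂ) ≠ 0 :=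
      (Nat.div_pos (Nat.le_of_dvd Nat.card_pos hcdvd) (Nat.pos_of_ne_zero hc0)).ne'
    have h2 : 1 ≤ (Nat.card (G ⧸ Z) / charDegree (θt : G ⧸ Z → ℂ)).factorization p :=
      (hp.dvd_iff_one_le_factorization hq0).mp hdiv
    have hdeg' := hdeg
    rw [← hdegeq] at hdeg'
    omega
  have hsing : blockOf M (θt : G ⧸ Z → ℂ) = {θt} := (defect_zero_iff hM θt).mp hnot
  have hbd : blockDefect p (blockOf M (θt : G ⧸ Z → ℂ)) = 0 := by
    unfold blockDefect
    rw [hsing, Set.image_singleton, csInf_singleton, hdegeq]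
    omega
  obtain ⟨ξ₁, hξ₁inf, hξ₁def⟩ := dominated_block_exists hM Z hZp θ
  have hCent : ∃ k : ℕ, (Subgroup.centralizer (Z : Set G)).index = p ^ k := by
    refine ⟨0, ?_⟩
    have htop : Subgroup.centralizer (Z : Set G) = ⊤ := by
      rw [eq_top_iff]
      intro c _
      rw [Subgroup.mem_centralizer_iff]
      intro z hz
      exact Subgroup.mem_center_iff.mp (hZc hz) c |>.symm
    rw [htop, Subgroup.index_top, pow_zero]
  have hq := (quot_blocks hM Z hZp hCent).1
  have hinf : inflIrr (QuotientGroup.mk' Z) hsurj ξ₁ ∈ blockOf M (θ : G → ℂ) :=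
    hξ₁inf ξ₁ (sameBlock_refl _) (inflIrr (QuotientGroup.mk' Z) hsurj ξ₁) rfl
  have hsb : SameBlock M (ξ₁ : G ⧸ Z → ℂ) (θt : G ⧸ Z → ℂ) := by
    rw [hq ξ₁ θt]
    have e1 : ((θt : G ⧸ Z → ℂ) ∘ QuotientGroup.mk) = (θ : G → ℂ) := by
      funext g
      exact (hθt g).symm
    rw [e1]
    exact sameBlock_symm hinf
  have hblk : blockOf M (ξ₁ : G ⧸ Z → ℂ) = blockOf M (θt : G ⧸ Z → ℂ) :=
    blockOf_eq_of_sameBlock hsb
  obtain ⟨g, hg⟩ := exists_defect_class (M := M) ξ₁
  obtain ⟨S₀⟩ := (inferInstance : Nonempty (Sylow p (Subgroup.centralizer ({g} : Set (G ⧸ Z)))))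
  have hDbar : IsDefectGroup p M (blockOf M (ξ₁ : G ⧸ Z → ℂ))
      ((S₀ : Subgroup (Subgroup.centralizer ({g} : Set (G ⧸ Z)))).map
        (Subgroup.centralizer ({g} : Set (G ⧸ Z))).subtype) := ⟨g, hg, S₀, rfl⟩
  obtain ⟨P, hP, hPmap⟩ := (hξ₁def _).mp hDbar
  have hcardD := card_defect_group hM ξ₁ _ hDbar
  rw [hblk, hbd, pow_zero] at hcardD
  have hPZ : P ≤ Z := by
    intro x hx
    have hxm : QuotientGroup.mk' Z x ∈ P.map (QuotientGroup.mk' Z) := ⟨x, hx, rfl⟩
    rw [← hPmap] at hxm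
    haveI hsub : Subsingleton ↥((S₀ : Subgroup (Subgroup.centralizer ({g} : Set (G ⧸ Z)))).map
        (Subgroup.centralizer ({g} : Set (G ⧸ Z))).subtype) :=
      (Nat.card_eq_one_iff_unique.mp hcardD).1
    have h1 : (⟨_, hxm⟩ : ↥((S₀ : Subgroup (Subgroup.centralizer ({g} : Set (G ⧸ Z)))).map
        (Subgroup.centralizer ({g} : Set (G ⧸ Z))).subtype)) = 1 := Subsingleton.elim _ _
    have h2 : QuotientGroup.mk' Z x = 1 := congrArg Subtype.val h1
    exact (QuotientGroup.eq_one_iff x).mp h2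
  have hZP : Z ≤ P := normal_pGroup_le_defect hM θ Z hZp P hP
  have hPeq : P = Z := le_antisymm hPZ hZP
  rw [← hPeq]
  exact hP

end Blocks

end Cfsg.Agent.Helper5
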