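import Mathlib
import Cfsg.Agent.Helper5.Wt1
import Cfsg.Agent.Helper5.BlkInd
import Cfsg.Agent.Helper5.BlkOp
import Cfsg.Agent.Helper5.BlkDefect
import Cfsg.Agent.Helper5.GlCorr
import Cfsg.Agent.Helper24.BP23
import Cfsg.Agent.S0887

/-!
helper5: a centric subpair `(Q, f)` stabilized by the whole group: the block of `G` is the block
of `f`, and `f` is the idempotent of a nilpotent block of `Q C_G(Q)` (S4693).
-/

set_option autoImplicit false

namespace Cfsg.Agent.Helper5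

open Cfsg Cfsg.Agent.Helper22 Cfsg.Agent.Helper24

universe u

variable {G : Type u} [Group G] [Fintype G]

/-- a constituent on a normal subgroup `C ≤ H`, read on `C` itself, with degree dividing. -/
theorem h5_cn_deg (H C : Subgroup G) [Fintype H] [Fintype C] [hCn : C.Normal] (hCH : C ≤ H)
    (χ : IrrCharacter H) :
    ∃ θ : IrrCharacter C,
      classInner (fun n : C => (χ : H → ℂ) ⟨n, hCH n.2⟩) (θ : C → ℂ) ≠ 0 ∧
      charDegree (θ : C → ℂ) ∣ charDegree (χ : H → ℂ) ∧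
      charDegree (θ : C → ℂ) ≠ 0 ∧ charDegree (χ : H → ℂ) ≠ 0 := by
  classical
  haveI hNn : (C.subgroupOf H).Normal := Subgroup.normal_subgroupOf
  haveI : Fintype (C.subgroupOf H) := Fintype.ofFinite _
  obtain ⟨θ', hθ'⟩ := exists_constituent_res (C.subgroupOf H) χ
  obtain ⟨c, hc0, hc⟩ := irr_one_eq_natCast_pos χ
  obtain ⟨d, hd0, hd⟩ := irr_one_eq_natCast_pos θ'
  obtain ⟨hdc, -⟩ := Cfsg.Agent.S0887.result (C.subgroupOf H) (χ : H → ℂ) χ.2
    (θ' : C.subgroupOf H → ℂ) θ'.2 hθ' c d hc hd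
  obtain ⟨φ, hφ⟩ : ∃ φ : C.subgroupOf H ≃* C, φ = Subgroup.subgroupOfEquivOfLe hCH := ⟨_, rfl⟩
  have hφs : ∀ n : C, ((φ.symm n : C.subgroupOf H) : H) = ⟨n, hCH n.2⟩ := by
    intro n
    rw [hφ]
    rfl
  have hcχ : charDegree (χ : H → ℂ) = c := charDegree_of_eq hc
  refine ⟨⟨fun n => (θ' : C.subgroupOf H → ℂ) (φ.symm n),
    isIrrCharacter_comp_mulEquiv φ.symm θ'.2⟩, ?_, ?_, ?_, ?_⟩
  · intro h0
    apply hθ'
    rw [classInner_def'] at h0 ⊢
    have h1 := (mul_eq_zero.mp h0).resolve_left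
      (inv_ne_zero (Nat.cast_ne_zero.mpr Nat.card_pos.ne'))
    have h2 : ∑ n : C, (χ : H → ℂ) ⟨n, hCH n.2⟩
        * starRingEnd ℂ ((θ' : C.subgroupOf H → ℂ) (φ.symm n)) = 0 := h1
    have e1 : ∑ n : C, (χ : H → ℂ) ⟨n, hCH n.2⟩
          * starRingEnd ℂ ((θ' : C.subgroupOf H → ℂ) (φ.symm n))
        = ∑ m : C.subgroupOf H, (χ : H → ℂ) m
          * starRingEnd ℂ ((θ' : C.subgroupOf H → ℂ) m) := by
      rw [← Equiv.sum_comp φ.symm.toEquiv (fun m : C.subgroupOf H => (χ : H → ℂ) m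
          * starRingEnd ℂ ((θ' : C.subgroupOf H → ℂ) m))]
      refine Finset.sum_congr rfl fun n _ => ?_
      show _ = (χ : H → ℂ) ((φ.symm n : C.subgroupOf H) : H) * _
      rw [hφs]
      rfl
    show (Nat.card (C.subgroupOf H) : ℂ)⁻¹ * ∑ m : C.subgroupOf H, (χ : H → ℂ) m
          * starRingEnd ℂ ((θ' : C.subgroupOf H → ℂ) m) = 0
    rw [← e1, h2, mul_zero]
  · have hθd : charDegree (fun n : C => (θ' : C.subgroupOf H → ℂ) (φ.symm n)) = d := by
      apply charDegree_of_eq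
      rw [map_one]
      exact hd
    show charDegree (fun n : C => (θ' : C.subgroupOf H → ℂ) (φ.symm n)) ∣ _
    rw [hθd, hcχ]
    exact hdc
  · have hθd : charDegree (fun n : C => (θ' : C.subgroupOf H → ℂ) (φ.symm n)) = d := by
      apply charDegree_of_eq
      rw [map_one]
      exact hd
    show charDegree (fun n : C => (θ' : C.subgroupOf H → ℂ) (φ.symm n)) ≠ 0
    rw [hθd]
    exact hd0.ne'
  · rw [hcχ]
    exact hc0.ne'

omit [Fintype G] in
theorem h5_cn_card (Q C : Subgroup G) :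
    Nat.card ((Q ⊓ C).subgroupOf C) = Nat.card (C.subgroupOf Q) := by
  refine Nat.card_congr ⟨fun z => ⟨⟨(z : C), (Subgroup.mem_subgroupOf.mp z.2).1⟩,
      Subgroup.mem_subgroupOf.mpr (z : C).2⟩,
    fun x => ⟨⟨(x : Q), Subgroup.mem_subgroupOf.mp x.2⟩,
      Subgroup.mem_subgroupOf.mpr ⟨(x : Q).2, Subgroup.mem_subgroupOf.mp x.2⟩⟩,
    fun z => rfl, fun x => rfl⟩

omit [Fintype G] in
theorem h5_cn_idx [Finite G] {p : ℕ} [Fact p.Prime] (Q C : Subgroup G) [hCn : C.Normal]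
    (hQp : IsPGroup p Q) : ∃ k : ℕ, (C.subgroupOf (Q ⊔ C)).index = p ^ k := by
  have hp : p.Prime := Fact.out
  have h2 : (C.subgroupOf (Q ⊔ C)).index = (C.subgroupOf Q).index :=
    Subgroup.relIndex_sup_right Q C
  obtain ⟨n, hn⟩ := IsPGroup.iff_card.mp hQp
  have h3 : (C.subgroupOf Q).index ∣ p ^ n := by
    rw [← hn]
    exact Subgroup.index_dvd_card _
  obtain ⟨m, -, hm⟩ := (Nat.dvd_prime_pow hp).mp h3
  exact ⟨m, by rw [h2, hm]⟩

set_option maxHeartbeats 1000000 in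
/-- the defect groups of the block of `Q C` with the idempotent of a block `f` of `C` whose defect
groups have the order of `Q ∩ C`: they equal `Q`. -/
theorem h5_cn_defect {p : ℕ} [Fact p.Prime] {M : Ideal AlgInt} (hM : IsPModular p M)
    [hMp : M.IsPrime] (Q C : Subgroup G) [hQn : Q.Normal] [hCn : C.Normal] (hQp : IsPGroup p Q)
    (θ₀ : IrrCharacter C) (Z : Subgroup C)
    (hZ : IsDefectGroup p M (blockOf M (θ₀ : C → ℂ)) Z)
    (hZc : Nat.card Z = Nat.card (C.subgroupOf Q))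
    (χ₁ : IrrCharacter ↥(Q ⊔ C))
    (hco : ∀ t : ↥(Q ⊔ C), blockCoeff (blockOf M (χ₁ : ↥(Q ⊔ C) → ℂ)) t
      = subgroupBlockCoeff C (blockOf M (θ₀ : C → ℂ)) (t : G))
    (D : Subgroup ↥(Q ⊔ C)) (hD : IsDefectGroup p M (blockOf M (χ₁ : ↥(Q ⊔ C) → ℂ)) D) :
    D = Q.subgroupOf (Q ⊔ C) := by
  classical
  have hp : p.Prime := Fact.out
  haveI : Fintype ↥(Q ⊔ C) := Fintype.ofFinite _
  haveI : Fintype C := Fintype.ofFinite _
  have hCH : C ≤ Q ⊔ C := le_sup_right
  have hQH : Q ≤ Q ⊔ C := le_sup_left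
  haveI hQYn : (Q.subgroupOf (Q ⊔ C)).Normal := Subgroup.normal_subgroupOf
  have hQYp : IsPGroup p (Q.subgroupOf (Q ⊔ C)) := hQp.comap_subtype
  have hle : Q.subgroupOf (Q ⊔ C) ≤ D := normal_pGroup_le_defect hM χ₁ _ hQYp D hD
  have hcardQ : Nat.card (Q.subgroupOf (Q ⊔ C)) = Nat.card Q :=
    Nat.card_congr (Subgroup.subgroupOfEquivOfLe hQH).toEquiv
  have hcardD := card_defect_group hM χ₁ D hD
  have hcardZ := card_defect_group hM θ₀ Z hZ
  obtain ⟨i, hi⟩ : ∃ i : ℕ, i = (C.subgroupOf Q).index := ⟨_, rfl⟩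
  have hi0 : i ≠ 0 := by
    rw [hi]
    exact Subgroup.index_ne_zero_of_finite
  have hQcard : Nat.card (C.subgroupOf Q) * i = Nat.card Q := by
    rw [hi]
    exact Subgroup.card_mul_index _
  have hYcard : Nat.card C * i = Nat.card ↥(Q ⊔ C) := by
    have h1 := Subgroup.card_mul_index (C.subgroupOf (Q ⊔ C))
    have h2 : (C.subgroupOf (Q ⊔ C)).index = i := by
      rw [hi]
      exact Subgroup.relIndex_sup_right Q C
    have h3 : Nat.card (C.subgroupOf (Q ⊔ C)) = Nat.card C :=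
      Nat.card_congr (Subgroup.subgroupOfEquivOfLe hCH).toEquiv
    rw [h2, h3] at h1
    exact h1
  have hfY : (Nat.card ↥(Q ⊔ C)).factorization p
      = (Nat.card C).factorization p + i.factorization p := by
    rw [← hYcard, Nat.factorization_mul Nat.card_pos.ne' hi0, Finsupp.add_apply]
  have hfQ : (Nat.card Q).factorization p
      = (Nat.card Z).factorization p + i.factorization p := by
    rw [← hQcard, ← hZc, Nat.factorization_mul Nat.card_pos.ne' hi0, Finsupp.add_apply]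
  have hfZ : (Nat.card Z).factorization p = blockDefect p (blockOf M (θ₀ : C → ℂ)) := by
    rw [hcardZ, hp.factorization_pow, Finsupp.single_eq_same]
  have hdef : blockDefect p (blockOf M (χ₁ : ↥(Q ⊔ C) → ℂ))
      ≤ (Nat.card Q).factorization p := by
    have hne : ((fun χ : IrrCharacter ↥(Q ⊔ C) =>
        (charDegree (χ : ↥(Q ⊔ C) → ℂ)).factorization p) ''
          blockOf M (χ₁ : ↥(Q ⊔ C) → ℂ)).Nonempty :=
      ⟨_, χ₁, sameBlock_refl _, rfl⟩
    obtain ⟨χ, hχ, hχm⟩ := Nat.sInf_mem hne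
    have hχm' : (charDegree (χ : ↥(Q ⊔ C) → ℂ)).factorization p
        = sInf ((fun χ : IrrCharacter ↥(Q ⊔ C) =>
          (charDegree (χ : ↥(Q ⊔ C) → ℂ)).factorization p) ''
            blockOf M (χ₁ : ↥(Q ⊔ C) → ℂ)) := hχm
    obtain ⟨θ, hθcon, hθdvd, hθ0, hχ0⟩ := h5_cn_deg (Q ⊔ C) C hCH χ
    have hθf : θ ∈ blockOf M (θ₀ : C → ℂ) :=
      mem_of_blockCoeff_sub (Q ⊔ C) C hCH _ _ hco χ hχ θ hθcon
    have h1 : sInf ((fun ψ : IrrCharacter C => (charDegree (ψ : C → ℂ)).factorization p) ''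
        blockOf M (θ₀ : C → ℂ)) ≤ (charDegree (θ : C → ℂ)).factorization p :=
      Nat.sInf_le ⟨θ, hθf, rfl⟩
    have h2 : (charDegree (θ : C → ℂ)).factorization p
        ≤ (charDegree (χ : ↥(Q ⊔ C) → ℂ)).factorization p :=
      (Nat.factorization_le_iff_dvd hθ0 hχ0).mpr hθdvd p
    unfold blockDefect at hfZ ⊢
    rw [← hχm']
    omega
  obtain ⟨n, hn⟩ := IsPGroup.iff_card.mp hQp
  have hvQ : (Nat.card Q).factorization p = n := by
    rw [hn, hp.factorization_pow, Finsupp.single_eq_same]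
  have hcard : Nat.card D ≤ Nat.card (Q.subgroupOf (Q ⊔ C)) := by
    rw [hcardQ, hcardD, hn]
    exact Nat.pow_le_pow_right hp.pos (by omega)
  exact (Subgroup.eq_of_le_of_card_ge hle hcard).symm

set_option maxHeartbeats 1000000 in
theorem h5_cen_nil {p : ℕ} [Fact p.Prime] {M : Ideal AlgInt} (hM : IsPModular p M)
    [hMp : M.IsPrime] (B : Set (IrrCharacter G)) (P : Subgroup G)
    (e : Set (IrrCharacter (Subgroup.centralizer (P : Set G))))
    (hmax : IsMaximalBrauerPair p M B P e) (F : FusionSystem P)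
    (hF : IsBlockFusionSystemOn p M B P e F) (Q : Subgroup G)
    (f : Set (IrrCharacter (Subgroup.centralizer (Q : Set G))))
    (hQP : Q ≤ P) (hf : IsPBlock M f) (hle : SubpairLE p M Q f P e) (hcen : F.IsCentric Q)
    (hG : ∀ x : G, x ∈ Subgroup.normalizer (Q : Set G) ∧
      StabilizesBlock (Subgroup.centralizer (Q : Set G)) f x) :
    (∀ g : G, MemLocalIdeal M (blockCoeff B g
      - subgroupBlockCoeff (Subgroup.centralizer (Q : Set G)) f g)) ∧
    ∃ F' : Set (IrrCharacter ↥(Q ⊔ Subgroup.centralizer (Q : Set G))), IsPBlock M F' ∧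
      (∀ t : ↥(Q ⊔ Subgroup.centralizer (Q : Set G)), blockCoeff F' t
        = subgroupBlockCoeff (Subgroup.centralizer (Q : Set G)) f (t : G)) ∧
      IsNilpotentBlock p M F' := by
  classical
  have hp : p.Prime := Fact.out
  haveI hQn : Q.Normal :=
    ⟨fun n hn g => (Subgroup.mem_normalizer_iff.mp (hG g).1 n).mp hn⟩
  have hCn : (Subgroup.centralizer (Q : Set G)).Normal := inferInstance
  have hQp : IsPGroup p Q := hmax.1.1.1.to_le hQP
  have hB : IsPBlock M B := hmax.1.2.1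
  have hBQ : IsBrauerPairOf p M B Q f := (bp_of_le hM B hB ⟨Q, f⟩ ⟨P, e⟩ hle).mp hmax.1
  have hZ := (bp_centric hM B P e hmax F hF Q f hQP hf hle).mp hcen
  refine ⟨?_, ?_⟩
  · have key : ∀ (u k : G) (hk : k ∈ Subgroup.centralizer (Q : Set G))
        (hk' : u * k * u⁻¹ ∈ Subgroup.centralizer (Q : Set G)),
        blockCoeff f ⟨u * k * u⁻¹, hk'⟩ = blockCoeff f ⟨k, hk⟩ :=
      fun u k hk hk' => bp_stab_coeff _ f u (hG u).2 (hG u⁻¹).2 k hk hk'
    have hinv : ∀ x g : G,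
        subgroupBlockCoeff (Subgroup.centralizer (Q : Set G)) f (x⁻¹ * g * x)
        = subgroupBlockCoeff (Subgroup.centralizer (Q : Set G)) f g := by
      intro x g
      by_cases hg : g ∈ Subgroup.centralizer (Q : Set G)
      · have hk' : x⁻¹ * g * x⁻¹⁻¹ ∈ Subgroup.centralizer (Q : Set G) :=
          hCn.conj_mem g hg x⁻¹
        have h1 := key x⁻¹ g hg hk'
        have hk'' : x⁻¹ * g * x ∈ Subgroup.centralizer (Q : Set G) := by
          rwa [inv_inv] at hk'
        unfold subgroupBlockCoeff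
        rw [dif_pos hg, dif_pos hk'', ← h1]
        congr 1
        apply Subtype.ext
        show x⁻¹ * g * x = x⁻¹ * g * x⁻¹⁻¹
        rw [inv_inv]
      · have hk'' : x⁻¹ * g * x ∉ Subgroup.centralizer (Q : Set G) := by
          intro h5
          apply hg
          have h6 := hCn.conj_mem _ h5 x
          have e1 : x * (x⁻¹ * g * x) * x⁻¹ = g := by group
          rwa [e1] at h6
        unfold subgroupBlockCoeff
        rw [dif_neg hg, dif_neg hk'']
    intro g
    have h2 := bp_orbit_G hM Q hQp B f hBQ ⊤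
      (fun x => ⟨fun _ => (hG x).2, fun _ => Subgroup.mem_top x⟩) g
    have h3 : blockCoeff B g
        = subgroupBlockCoeff (Subgroup.centralizer (Q : Set G)) f g := by
      rw [h2, Finset.sum_congr rfl fun x _ => hinv x g, Finset.sum_const, Finset.card_univ,
        nsmul_eq_mul, Subgroup.card_top, Nat.card_eq_fintype_card, ← mul_assoc,
        inv_mul_cancel₀ (Nat.cast_ne_zero.mpr Fintype.card_ne_zero), one_mul]
    rw [h3, sub_self]
    exact memLocalIdeal_zero hMp.ne_top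
  · obtain ⟨θ₀, rfl⟩ := hf
    have hst : ∀ x ∈ Q ⊔ Subgroup.centralizer (Q : Set G),
        StabilizesBlock (Subgroup.centralizer (Q : Set G))
          (blockOf M (θ₀ : Subgroup.centralizer (Q : Set G) → ℂ)) x :=
      fun x _ => (hG x).2
    obtain ⟨χ₁, hχ₁⟩ := bp_orbit_H hM Q (Q ⊔ Subgroup.centralizer (Q : Set G)) hQp
      le_sup_left (fun x _ => (hG x).1) le_sup_right θ₀
      (blockOf M (θ₀ : Subgroup.centralizer (Q : Set G) → ℂ))
      (fun θ => bp_stab_orbit _ _ _ hst θ)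
    refine ⟨blockOf M (χ₁ : ↥(Q ⊔ Subgroup.centralizer (Q : Set G)) → ℂ), ⟨χ₁, rfl⟩, hχ₁,
      ⟨χ₁, rfl⟩, ?_⟩
    intro R g hRg x hxN hxst hxreg
    haveI : Fintype ↥(Q ⊔ Subgroup.centralizer (Q : Set G)) := Fintype.ofFinite _
    obtain ⟨b, hchain, hbmax⟩ := bp_exists_max (p := p) (M := M)
      (blockOf M (χ₁ : ↥(Q ⊔ Subgroup.centralizer (Q : Set G)) → ℂ)) _
      (⟨R, g⟩ : BrauerPairIdx ↥(Q ⊔ Subgroup.centralizer (Q : Set G))) hRg le_rfl
    have hRb : R ≤ b.1 := pf_le _ _ hchain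
    have hbD := bp_max_defect hM _ b.1 b.2 hbmax
    have hbQ := h5_cn_defect hM Q (Subgroup.centralizer (Q : Set G)) hQp θ₀ _ hZ
      (h5_cn_card Q _) χ₁ hχ₁ b.1 hbD
    have hxC : x ∈ (Subgroup.centralizer (Q : Set G)).subgroupOf
        (Q ⊔ Subgroup.centralizer (Q : Set G)) := by
      by_contra hx
      exact hxreg (singular_of_notMem hp ((Subgroup.centralizer (Q : Set G)).subgroupOf
        (Q ⊔ Subgroup.centralizer (Q : Set G))) (h5_cn_idx Q _ hQp) x hx)
    rw [Subgroup.mem_centralizer_iff]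
    intro r hr
    have hrQ : ((r : ↥(Q ⊔ Subgroup.centralizer (Q : Set G))) : G) ∈ Q := by
      have h5 := hRb hr
      rw [hbQ] at h5
      exact Subgroup.mem_subgroupOf.mp h5
    have hxc : (x : G) ∈ Subgroup.centralizer (Q : Set G) := Subgroup.mem_subgroupOf.mp hxC
    apply Subtype.ext
    exact Subgroup.mem_centralizer_iff.mp hxc _ hrQ

end Cfsg.Agent.Helper5
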