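import Mathlib
import Cfsg.Agent.Helper5.NX0

/-!
helper5: conjugation by an element normalizing `R.map N.subtype`, on `C_N(R)` (for S4692).
-/

set_option autoImplicit false

namespace Cfsg.Agent.Helper5

open Cfsg Cfsg.Agent.Helper22 Cfsg.Agent.Helper24

universe u

variable {G : Type u} [Group G]

theorem nx_conj_mem (N : Subgroup G) [hN : N.Normal] (R : Subgroup ↥N) (x : G)
    (hx : x ∈ Subgroup.normalizer ((R.map N.subtype : Subgroup G) : Set G))
    (z : ↥N) (hz : z ∈ Subgroup.centralizer (R : Set ↥N)) :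
    (⟨x * (z : G) * x⁻¹, hN.conj_mem _ z.2 x⟩ : ↥N) ∈ Subgroup.centralizer (R : Set ↥N) := by
  rw [Subgroup.mem_centralizer_iff]
  intro r hr
  have h1 : x⁻¹ * (r : G) * x ∈ (R.map N.subtype : Subgroup G) := by
    have h := (Subgroup.mem_normalizer_iff.mp (Subgroup.inv_mem _ hx) (r : G)).mp ⟨r, hr, rfl⟩
    rwa [inv_inv] at h
  obtain ⟨r₁, hr₁, hr₁e⟩ := h1
  have h2 := Subgroup.mem_centralizer_iff.mp hz r₁ hr₁
  have h3 : (r₁ : G) * (z : G) = (z : G) * (r₁ : G) := congrArg Subtype.val h2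
  have hr₁e' : (r₁ : G) = x⁻¹ * (r : G) * x := hr₁e
  have e : (r : G) = x * (r₁ : G) * x⁻¹ := by rw [hr₁e']; group
  apply Subtype.ext
  show (r : G) * (x * (z : G) * x⁻¹) = x * (z : G) * x⁻¹ * (r : G)
  rw [e]
  calc x * (r₁ : G) * x⁻¹ * (x * (z : G) * x⁻¹) = x * ((r₁ : G) * (z : G)) * x⁻¹ := by group
    _ = x * ((z : G) * (r₁ : G)) * x⁻¹ := by rw [h3]
    _ = x * (z : G) * x⁻¹ * (x * (r₁ : G) * x⁻¹) := by group

/-- conjugation by `x ∈ N_G(R')` as an automorphism of `C_N(R)`. -/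
def nx_sigma (N : Subgroup G) [hN : N.Normal] (R : Subgroup ↥N) (x : G)
    (hx : x ∈ Subgroup.normalizer ((R.map N.subtype : Subgroup G) : Set G)) :
    ↥(Subgroup.centralizer (R : Set ↥N)) ≃* ↥(Subgroup.centralizer (R : Set ↥N)) where
  toFun z := ⟨⟨x * ((z : ↥N) : G) * x⁻¹, hN.conj_mem _ (z : ↥N).2 x⟩,
    nx_conj_mem N R x hx z z.2⟩
  invFun z := ⟨⟨x⁻¹ * ((z : ↥N) : G) * x⁻¹⁻¹, hN.conj_mem _ (z : ↥N).2 x⁻¹⟩,
    nx_conj_mem N R x⁻¹ (Subgroup.inv_mem _ hx) z z.2⟩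
  left_inv z := Subtype.ext (Subtype.ext (by
    show x⁻¹ * (x * ((z : ↥N) : G) * x⁻¹) * x⁻¹⁻¹ = ((z : ↥N) : G)
    group))
  right_inv z := Subtype.ext (Subtype.ext (by
    show x * (x⁻¹ * ((z : ↥N) : G) * x⁻¹⁻¹) * x⁻¹ = ((z : ↥N) : G)
    group))
  map_mul' a b := Subtype.ext (Subtype.ext (by
    show x * (((a : ↥N) : G) * ((b : ↥N) : G)) * x⁻¹ =
      (x * ((a : ↥N) : G) * x⁻¹) * (x * ((b : ↥N) : G) * x⁻¹)
    group))

theorem nx_sigma_coe (N : Subgroup G) [hN : N.Normal] (R : Subgroup ↥N) (x : G)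
    (hx : x ∈ Subgroup.normalizer ((R.map N.subtype : Subgroup G) : Set G))
    (z : ↥(Subgroup.centralizer (R : Set ↥N))) :
    (((nx_sigma N R x hx z : ↥(Subgroup.centralizer (R : Set ↥N))) : ↥N) : G)
      = x * ((z : ↥N) : G) * x⁻¹ := rfl

/-- the conjugate of `θ` by `x`: `(nx_tw θ) (x k x⁻¹) = θ k`. -/
noncomputable def nx_tw (N : Subgroup G) [hN : N.Normal] (R : Subgroup ↥N) (x : G)
    (hx : x ∈ Subgroup.normalizer ((R.map N.subtype : Subgroup G) : Set G))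
    (θ : IrrCharacter ↥(Subgroup.centralizer (R : Set ↥N))) :
    IrrCharacter ↥(Subgroup.centralizer (R : Set ↥N)) :=
  ⟨fun z => (θ : ↥(Subgroup.centralizer (R : Set ↥N)) → ℂ) ((nx_sigma N R x hx).symm z),
    isIrrCharacter_comp_mulEquiv (nx_sigma N R x hx).symm θ.2⟩

theorem nx_tw_conj (N : Subgroup G) [hN : N.Normal] (R : Subgroup ↥N) (x : G)
    (hx : x ∈ Subgroup.normalizer ((R.map N.subtype : Subgroup G) : Set G))
    (θ : IrrCharacter ↥(Subgroup.centralizer (R : Set ↥N)))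
    (k k' : ↥(Subgroup.centralizer (R : Set ↥N)))
    (hkk : ((k' : ↥N) : G) = x * ((k : ↥N) : G) * x⁻¹) :
    (nx_tw N R x hx θ).1 k' = θ.1 k := by
  have e : (nx_sigma N R x hx).symm k' = k := by
    rw [MulEquiv.symm_apply_eq]
    exact Subtype.ext (Subtype.ext hkk)
  show (θ : ↥(Subgroup.centralizer (R : Set ↥N)) → ℂ) ((nx_sigma N R x hx).symm k') = θ.1 k
  rw [e]

theorem nx_tw_sameBlock {M : Ideal AlgInt} (N : Subgroup G) [hN : N.Normal] (R : Subgroup ↥N)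
    (x : G) (hx : x ∈ Subgroup.normalizer ((R.map N.subtype : Subgroup G) : Set G))
    (θ θ' : IrrCharacter ↥(Subgroup.centralizer (R : Set ↥N)))
    (h : SameBlock M θ.1 θ'.1) :
    SameBlock M (nx_tw N R x hx θ).1 (nx_tw N R x hx θ').1 :=
  (sameBlock_comp_equiv (nx_sigma N R x hx).symm _ _).mpr h

/-- a character with the conjugation property is the twist. -/
theorem nx_tw_unique (N : Subgroup G) [hN : N.Normal] (R : Subgroup ↥N) (x : G)
    (hx : x ∈ Subgroup.normalizer ((R.map N.subtype : Subgroup G) : Set G))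
    (θ θ' : IrrCharacter ↥(Subgroup.centralizer (R : Set ↥N)))
    (h : ∀ k k' : ↥(Subgroup.centralizer (R : Set ↥N)),
      ((k' : ↥N) : G) = x * ((k : ↥N) : G) * x⁻¹ → θ'.1 k' = θ.1 k) :
    θ' = nx_tw N R x hx θ := by
  apply Subtype.ext
  funext z
  have h1 := h ((nx_sigma N R x hx).symm z) z (by
    have h2 := nx_sigma_coe N R x hx ((nx_sigma N R x hx).symm z)
    rw [MulEquiv.apply_symm_apply] at h2
    exact h2)
  exact h1

end Cfsg.Agent.Helper5
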