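import Mathlib
import Cfsg.Agent.Helper5.NX0
import Cfsg.Agent.Helper5.BlkInd
import Cfsg.Agent.Helper22.BlkNil

/-!
helper5: piece [a] (omega_eq) of S4692.
-/

set_option autoImplicit false

namespace Cfsg.Agent.Helper5.S4692a

open Cfsg Cfsg.Agent.Helper5 Cfsg.Agent.Helper22 Cfsg.Agent.Helper24

universe u

theorem omega_aux {X : Type u} [Group X] [Fintype X] (K : Subgroup X) [hK : K.Normal] [Fintype K]
    (β : X → ℂ) (hβ0 : ∀ x, x ∉ K → β x = 0)
    (hβc : ∀ (x : X) (n : K), β (x * n * x⁻¹) = β n)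
    (ξ : IrrCharacter X) (θ : IrrCharacter K)
    (hcon : classInner (fun y : K => ξ.1 y) θ.1 ≠ 0) :
    ∑ᶠ x : X, β x * ξ.1 x / ξ.1 1 = ∑ y : K, β y * θ.1 y / θ.1 1 := by
  classical
  rw [finsum_eq_sum_of_fintype]
  rw [sum_eq_sum_subgroup K (fun x => β x * ξ.1 x / ξ.1 1) (fun x hx => by simp [hβ0 x hx])]
  have h1 := cliff_avg K (fun y : K => β y) (fun x n => hβc x n) ξ θ hcon
  calc ∑ y : K, β y * ξ.1 y / ξ.1 1 = (ξ.1 1)⁻¹ * ∑ y : K, β y * ξ.1 y := by
        rw [Finset.mul_sum]
        apply Finset.sum_congr rfl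
        intro y _
        ring
    _ = (θ.1 1)⁻¹ * ∑ y : K, β y * θ.1 y := h1
    _ = ∑ y : K, β y * θ.1 y / θ.1 1 := by
        rw [Finset.mul_sum]
        apply Finset.sum_congr rfl
        intro y _
        ring

theorem omega_eq {G : Type u} [Group G] [Fintype G] (N : Subgroup G) [N.Normal]
    (c : Set (IrrCharacter ↥N)) (hst : ∀ x : G, StabilizesBlock N c x)
    (B : Set (IrrCharacter G)) (hBc : ∀ g : G, blockCoeff B g = subgroupBlockCoeff N c g)
    (R : Subgroup ↥N)
    [Fintype ↥(Subgroup.centralizer ((R.map N.subtype : Subgroup G) : Set G))]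
    [Fintype ↥(N.subgroupOf (Subgroup.centralizer ((R.map N.subtype : Subgroup G) : Set G)))]
    (ξ : IrrCharacter ↥(Subgroup.centralizer ((R.map N.subtype : Subgroup G) : Set G)))
    (θ : IrrCharacter ↥(Subgroup.centralizer (R : Set ↥N)))
    (hcon : classInner (fun y : ↥(N.subgroupOf
        (Subgroup.centralizer ((R.map N.subtype : Subgroup G) : Set G))) => ξ.1 y)
      (nx_up N R θ).1 ≠ 0) :
    brauerOmega (R.map N.subtype) (blockCoeff B) ξ.1 = brauerOmega R (blockCoeff c) θ.1 := by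
  classical
  letI : Fintype ↥(Subgroup.centralizer (R : Set ↥N)) := Fintype.ofFinite _
  haveI hKn : (N.subgroupOf
      (Subgroup.centralizer ((R.map N.subtype : Subgroup G) : Set G))).Normal :=
    Subgroup.normal_subgroupOf
  have hb0 : ∀ x : ↥(Subgroup.centralizer ((R.map N.subtype : Subgroup G) : Set G)),
      x ∉ N.subgroupOf (Subgroup.centralizer ((R.map N.subtype : Subgroup G) : Set G)) →
        blockCoeff B (x : G) = 0 := by
    intro x hx
    have hx' : (x : G) ∉ N := fun h => hx (Subgroup.mem_subgroupOf.mpr h)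
    rw [hBc]
    unfold subgroupBlockCoeff
    rw [dif_neg hx']
  have hbc : ∀ (x : ↥(Subgroup.centralizer ((R.map N.subtype : Subgroup G) : Set G)))
      (n : ↥(N.subgroupOf (Subgroup.centralizer ((R.map N.subtype : Subgroup G) : Set G)))),
      blockCoeff B (((x * n * x⁻¹ :
        ↥(Subgroup.centralizer ((R.map N.subtype : Subgroup G) : Set G))) : G)) =
        blockCoeff B (((n : ↥(Subgroup.centralizer ((R.map N.subtype : Subgroup G) : Set G))) : G))
      := by
    intro x n
    have e : (((x * n * x⁻¹ :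
        ↥(Subgroup.centralizer ((R.map N.subtype : Subgroup G) : Set G))) : G)) =
        (x : G) * ((n : ↥(Subgroup.centralizer ((R.map N.subtype : Subgroup G) : Set G))) : G)
          * (x : G)⁻¹ := rfl
    rw [e]
    exact bp_coeff_class B _ _
  have h1 := omega_aux
    (N.subgroupOf (Subgroup.centralizer ((R.map N.subtype : Subgroup G) : Set G)))
    (fun x : ↥(Subgroup.centralizer ((R.map N.subtype : Subgroup G) : Set G)) =>
      blockCoeff B (x : G)) hb0 hbc ξ (nx_up N R θ) hcon
  have h2 : brauerOmega (R.map N.subtype) (blockCoeff B) ξ.1 =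
      ∑ᶠ x : ↥(Subgroup.centralizer ((R.map N.subtype : Subgroup G) : Set G)),
        blockCoeff B (x : G) * ξ.1 x / ξ.1 1 := rfl
  have h3 : brauerOmega R (blockCoeff c) θ.1 =
      ∑ z : ↥(Subgroup.centralizer (R : Set ↥N)), blockCoeff c (z : ↥N) * θ.1 z / θ.1 1 := by
    unfold brauerOmega
    rw [finsum_eq_sum_of_fintype]
  rw [h2, h1, h3]
  rw [← Equiv.sum_comp (nx_phi N R).toEquiv
    (fun z : ↥(Subgroup.centralizer (R : Set ↥N)) => blockCoeff c (z : ↥N) * θ.1 z / θ.1 1)]
  apply Finset.sum_congr rfl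
  intro y _
  have e1 : (nx_up N R θ).1 1 = θ.1 1 := by
    rw [nx_up_apply, map_one]
  have e2 : blockCoeff B (((y :
      ↥(Subgroup.centralizer ((R.map N.subtype : Subgroup G) : Set G))) : G)) =
      blockCoeff c ((nx_phi N R y : ↥(Subgroup.centralizer (R : Set ↥N))) : ↥N) := by
    rw [hBc]
    unfold subgroupBlockCoeff
    rw [dif_pos (Subgroup.mem_subgroupOf.mp y.2)]
    rfl
  show blockCoeff B (((y :
      ↥(Subgroup.centralizer ((R.map N.subtype : Subgroup G) : Set G))) : G)) *
      (nx_up N R θ).1 y / (nx_up N R θ).1 1 = _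
  rw [e1, e2, nx_up_apply]
  rfl

end Cfsg.Agent.Helper5.S4692a
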