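import Mathlib
import Cfsg.Agent.Helper5.NX0
import Cfsg.Agent.Helper5.BlkInd
import Cfsg.Agent.Helper5.BlkDefect
import Cfsg.Agent.Helper5.BlkStab
import Cfsg.Agent.Helper22.BlkNil

/-!
helper5: pieces [c] (omega_congr) and [u] (cover_unique) of S4692.
-/

set_option autoImplicit false

namespace Cfsg.Agent.Helper5.S4692cu

open Cfsg Cfsg.Agent.Helper5 Cfsg.Agent.Helper22 Cfsg.Agent.Helper24

universe u

theorem omega_congr {X : Type u} [Group X] [Fintype X] {M : Ideal AlgInt} [hMp : M.IsPrime]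
    (β : X → ℂ) (hβc : ∀ x y : X, β (y * x * y⁻¹) = β x) (hβl : ∀ x : X, MemLocalRing M (β x))
    (ξ ξ' : IrrCharacter X) (h : SameBlock M ξ.1 ξ'.1) :
    MemLocalIdeal M (∑ᶠ x : X, β x * ξ.1 x / ξ.1 1 - ∑ᶠ x : X, β x * ξ'.1 x / ξ'.1 1) := by
  classical
  obtain ⟨ι, hι⟩ := exists_class_reps X
  have key : ∀ ψ : IrrCharacter X,
      ∑ᶠ x : X, β x * ψ.1 x / ψ.1 1 = ∑ r ∈ ι, β r * centralChar ψ.1 r := by
    intro ψ
    rw [finsum_eq_sum_of_fintype]
    have hcl : IsClassFunction X (fun x => β x * centralChar ψ.1 x) := by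
      intro g h
      show β (h * g * h⁻¹) * centralChar ψ.1 (h * g * h⁻¹) = β g * centralChar ψ.1 g
      rw [hβc, centralChar_isClassFunction ψ g h]
    rw [← hι _ hcl]
    refine Finset.sum_congr rfl fun x _ => ?_
    unfold centralChar
    have hi : ((Subgroup.centralizer ({x} : Set X)).index : ℂ) ≠ 0 :=
      Nat.cast_ne_zero.mpr Subgroup.index_ne_zero_of_finite
    have h0 : ψ.1 1 ≠ 0 := irr_one_ne_zero ψ
    field_simp
  rw [key ξ, key ξ', ← Finset.sum_sub_distrib]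
  refine memLocalIdeal_sum _ _ fun r _ => ?_
  have e : β r * centralChar ξ.1 r - β r * centralChar ξ'.1 r
      = β r * (centralChar ξ.1 r - centralChar ξ'.1 r) := by ring
  rw [e]
  exact memLocalIdeal_mul_left (hβl r) (h r)

set_option maxHeartbeats 1000000 in
theorem cover_unique {X : Type u} [Group X] [Fintype X] {p : ℕ} [Fact p.Prime]
    {M : Ideal AlgInt} (hM : IsPModular p M) (Y : Subgroup X) [hYn : Y.Normal] [Fintype Y]
    (hidx : ∃ k : ℕ, Y.index = p ^ k) (ξ₁ ξ₂ : IrrCharacter X) (θ₁ θ₂ : IrrCharacter Y)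
    (h₁ : classInner (fun n : Y => ξ₁.1 n) θ₁.1 ≠ 0)
    (h₂ : classInner (fun n : Y => ξ₂.1 n) θ₂.1 ≠ 0)
    (hs : SameBlock M θ₁.1 θ₂.1) : SameBlock M ξ₁.1 ξ₂.1 := by
  classical
  haveI hMp : M.IsPrime := hM.2.1.isPrime
  have hp : p.Prime := Fact.out
  obtain ⟨β, hβ⟩ : ∃ β : X → ℂ, β = blockCoeff (blockOf M ξ₁.1) := ⟨_, rfl⟩
  have hβsing : ∀ x : X, x ∉ Y → MemLocalIdeal M (β x) := by
    intro x hx
    by_contra h0
    rw [hβ] at h0
    exact (pRegular_of_blockCoeff hM ξ₁ x h0) (singular_of_notMem hp Y hidx x hx)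
  have hβcl : ∀ x y : X, β (y * x * y⁻¹) = β x := fun x y => by
    rw [hβ]
    exact bp_coeff_class _ x y
  have hβloc : ∀ x : X, MemLocalRing M (β x) := fun x => by
    rw [hβ]
    exact blockCoeff_memLocalRing ξ₁ x
  have key : ∀ ψ : IrrCharacter X, ∑ x : X, β x * ψ.1 x
      = (if ψ ∈ blockOf M ξ₁.1 then (1 : ℂ) else 0) * ψ.1 1 := by
    intro ψ
    have h1 := spec_inversion
      (fun χ : IrrCharacter X => if χ ∈ blockOf M ξ₁.1 then (1 : ℂ) else 0) ψ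
    rw [← h1]
    refine Finset.sum_congr rfl fun g _ => ?_
    rw [hβ, blockCoeff_eq_specFun (blockOf M ξ₁.1)
      (fun χ : IrrCharacter X => if χ ∈ blockOf M ξ₁.1 then (1 : ℂ) else 0)
      (fun ψ hψ => if_pos hψ) (fun ψ hψ => if_neg hψ) g]
  obtain ⟨ι, hι⟩ := exists_class_reps X
  have hout : ∀ ψ : IrrCharacter X, MemLocalIdeal M
      ((ψ.1 1)⁻¹ * ∑ x : X, (if x ∈ Y then 0 else β x) * ψ.1 x) := by
    intro ψ
    have hcl : IsClassFunction X
        (fun x => (if x ∈ Y then 0 else β x) * centralChar ψ.1 x) := by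
      intro g h
      show (if h * g * h⁻¹ ∈ Y then 0 else β (h * g * h⁻¹)) * centralChar ψ.1 (h * g * h⁻¹)
        = (if g ∈ Y then 0 else β g) * centralChar ψ.1 g
      rw [hβcl, centralChar_isClassFunction ψ g h]
      have hiff : h * g * h⁻¹ ∈ Y ↔ g ∈ Y := by
        constructor
        · intro h1
          have h2 := hYn.conj_mem _ h1 h⁻¹
          have e : h⁻¹ * (h * g * h⁻¹) * h⁻¹⁻¹ = g := by group
          rwa [e] at h2
        · intro h1
          exact hYn.conj_mem g h1 h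
      simp only [hiff]
    have e1 : (ψ.1 1)⁻¹ * ∑ x : X, (if x ∈ Y then 0 else β x) * ψ.1 x
        = ∑ r ∈ ι, (if r ∈ Y then 0 else β r) * centralChar ψ.1 r := by
      rw [← hι _ hcl, Finset.mul_sum]
      refine Finset.sum_congr rfl fun x _ => ?_
      unfold centralChar
      have hi : ((Subgroup.centralizer ({x} : Set X)).index : ℂ) ≠ 0 :=
        Nat.cast_ne_zero.mpr Subgroup.index_ne_zero_of_finite
      have h0 : ψ.1 1 ≠ 0 := irr_one_ne_zero ψ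
      field_simp
    rw [e1]
    refine memLocalIdeal_sum _ _ fun r _ => ?_
    rw [mul_comm]
    refine memLocalIdeal_mul_left (centralChar_memLocalRing ψ r) ?_
    by_cases hr : r ∈ Y
    · rw [if_pos hr]
      exact memLocalIdeal_zero hMp.ne_top
    · rw [if_neg hr]
      exact hβsing r hr
  have hF : ∀ (x : X) (n : Y),
      β ((⟨x * n * x⁻¹, hYn.conj_mem n n.2 x⟩ : Y) : X) = β n := fun x n => hβcl n x
  have d : ∀ (ξ : IrrCharacter X) (θ : IrrCharacter Y),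
      classInner (fun n : Y => ξ.1 n) θ.1 ≠ 0 →
      MemLocalIdeal M ((θ.1 1)⁻¹ * ∑ n : Y, β n * θ.1 n
        - (if ξ ∈ blockOf M ξ₁.1 then (1 : ℂ) else 0)) := by
    intro ξ θ hθ
    have h1 : (ξ.1 1)⁻¹ * ∑ n : Y, β n * ξ.1 n = (θ.1 1)⁻¹ * ∑ n : Y, β n * θ.1 n :=
      cliff_avg Y (fun n : Y => β n) hF ξ θ hθ
    have h2 : ∑ x : X, β x * ξ.1 x = ∑ n : Y, β n * ξ.1 n
        + ∑ x : X, (if x ∈ Y then 0 else β x) * ξ.1 x := by
      have h3 : ∑ n : Y, β n * ξ.1 n = ∑ x : X, (if x ∈ Y then β x else 0) * ξ.1 x := by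
        rw [sum_eq_sum_subgroup Y (fun x => (if x ∈ Y then β x else 0) * ξ.1 x)
          (fun g hg => by rw [if_neg hg, zero_mul])]
        refine Finset.sum_congr rfl fun n _ => ?_
        rw [if_pos n.2]
      rw [h3, ← Finset.sum_add_distrib]
      refine Finset.sum_congr rfl fun x _ => ?_
      by_cases hx : x ∈ Y
      · rw [if_pos hx, if_pos hx]
        ring
      · rw [if_neg hx, if_neg hx]
        ring
    have h0 : ξ.1 1 ≠ 0 := irr_one_ne_zero ξ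
    have h4 : (θ.1 1)⁻¹ * ∑ n : Y, β n * θ.1 n
          - (if ξ ∈ blockOf M ξ₁.1 then (1 : ℂ) else 0)
        = -((ξ.1 1)⁻¹ * ∑ x : X, (if x ∈ Y then 0 else β x) * ξ.1 x) := by
      rw [← h1]
      have h5 := key ξ
      rw [h2] at h5
      have h6 : (if ξ ∈ blockOf M ξ₁.1 then (1 : ℂ) else 0)
          = (ξ.1 1)⁻¹ * (∑ n : Y, β n * ξ.1 n
            + ∑ x : X, (if x ∈ Y then 0 else β x) * ξ.1 x) := by
        rw [h5, mul_comm _ (ξ.1 1), ← mul_assoc, inv_mul_cancel₀ h0, one_mul]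
      rw [h6]
      ring
    rw [h4]
    exact memLocalIdeal_neg (hout ξ)
  have d1 := d ξ₁ θ₁ h₁
  have h11 : ξ₁ ∈ blockOf M ξ₁.1 := sameBlock_refl _
  rw [if_pos h11] at d1
  by_contra hnot
  have hnot' : ξ₂ ∉ blockOf M ξ₁.1 := hnot
  have d2 := d ξ₂ θ₂ h₂
  rw [if_neg hnot', sub_zero] at d2
  have hc : MemLocalIdeal M (∑ᶠ n : Y, β n * θ₁.1 n / θ₁.1 1
      - ∑ᶠ n : Y, β n * θ₂.1 n / θ₂.1 1) :=
    omega_congr (M := M) (fun n : Y => β n) (fun x y => hβcl (x : X) (y : X))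
      (fun x => hβloc x) θ₁ θ₂ hs
  have conv : ∀ θ : IrrCharacter Y,
      ∑ᶠ n : Y, β n * θ.1 n / θ.1 1 = (θ.1 1)⁻¹ * ∑ n : Y, β n * θ.1 n := by
    intro θ
    rw [finsum_eq_sum_of_fintype, Finset.mul_sum]
    exact Finset.sum_congr rfl fun n _ => by ring
  rw [conv θ₁, conv θ₂] at hc
  have h1 := memLocalIdeal_sub (memLocalIdeal_add hMp hc d2) d1
  have e : (θ₁.1 1)⁻¹ * ∑ n : Y, β n * θ₁.1 n - (θ₂.1 1)⁻¹ * ∑ n : Y, β n * θ₂.1 n
      + (θ₂.1 1)⁻¹ * ∑ n : Y, β n * θ₂.1 n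
      - ((θ₁.1 1)⁻¹ * ∑ n : Y, β n * θ₁.1 n - 1) = 1 := by ring
  rw [e] at h1
  exact not_memLocalIdeal_one h1

end Cfsg.Agent.Helper5.S4692cu
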