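import Mathlib
import Cfsg.Agent.Helper5.NX1
import Cfsg.Agent.Helper9.S4692s
import Cfsg.Agent.Helper22.BlkCover

/-!
helper5: piece [o] (orbit) of S4692.
-/

set_option autoImplicit false

namespace Cfsg.Agent.Helper5.S4692o

open Cfsg Cfsg.Agent.Helper5 Cfsg.Agent.Helper22 Cfsg.Agent.Helper24

universe u

theorem orbit {G : Type u} [Group G] [Fintype G] {M : Ideal AlgInt} [hMp : M.IsPrime]
    (N : Subgroup G) [N.Normal] (R : Subgroup ↥N)
    [Fintype ↥(Subgroup.centralizer ((R.map N.subtype : Subgroup G) : Set G))]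
    [Fintype ↥(N.subgroupOf (Subgroup.centralizer ((R.map N.subtype : Subgroup G) : Set G)))]
    (x : G) (hx : x ∈ Subgroup.normalizer ((R.map N.subtype : Subgroup G) : Set G))
    (ξ : IrrCharacter ↥(Subgroup.centralizer ((R.map N.subtype : Subgroup G) : Set G)))
    (hst : StabilizesBlock (Subgroup.centralizer ((R.map N.subtype : Subgroup G) : Set G))
      (blockOf M ξ.1) x)
    (θ : IrrCharacter ↥(Subgroup.centralizer (R : Set ↥N)))
    (hcon : classInner (fun y : ↥(N.subgroupOf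
        (Subgroup.centralizer ((R.map N.subtype : Subgroup G) : Set G))) => ξ.1 y)
      (nx_up N R θ).1 ≠ 0) :
    ∃ u ∈ Subgroup.centralizer ((R.map N.subtype : Subgroup G) : Set G),
      ∃ θ' : IrrCharacter ↥(Subgroup.centralizer (R : Set ↥N)), SameBlock M θ.1 θ'.1 ∧
        ∀ k k' : ↥(Subgroup.centralizer (R : Set ↥N)),
          ((k' : ↥N) : G) = (u * x) * ((k : ↥N) : G) * (u * x)⁻¹ → θ'.1 k' = θ.1 k := by
  classical
  haveI hKn : (N.subgroupOf
      (Subgroup.centralizer ((R.map N.subtype : Subgroup G) : Set G))).Normal :=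
    Subgroup.normal_subgroupOf
  obtain ⟨ξ', hξ'mem, hξ'conj⟩ := hst.2 ξ (sameBlock_refl _)
  have hsame : SameBlock M ξ.1 ξ'.1 := hξ'mem
  have hcon' := Cfsg.Agent.Helper9.S4692s.conj_over N R x hx ξ ξ' hξ'conj θ (nx_tw N R x hx θ)
    (nx_tw_conj N R x hx θ) hcon
  obtain ⟨g, hg⟩ := cover_key
    (N.subgroupOf (Subgroup.centralizer ((R.map N.subtype : Subgroup G) : Set G)))
    ξ ξ' (fun n => hsame n) (nx_up N R θ) (nx_up N R θ) (nx_up N R (nx_tw N R x hx θ))
    (sameBlock_refl _) hcon hcon'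
  have hux : (g : G)⁻¹ * x ∈ Subgroup.normalizer ((R.map N.subtype : Subgroup G) : Set G) :=
    Subgroup.mul_mem _
      (Subgroup.centralizer_le_normalizer _ (Subgroup.inv_mem _ g.2)) hx
  refine ⟨(g : G)⁻¹, Subgroup.inv_mem _ g.2, nx_tw N R ((g : G)⁻¹ * x) hux θ, ?_,
    nx_tw_conj N R ((g : G)⁻¹ * x) hux θ⟩
  have hfun : (twIrr (N.subgroupOf
      (Subgroup.centralizer ((R.map N.subtype : Subgroup G) : Set G))) g
      (nx_up N R (nx_tw N R x hx θ))).1 = (nx_up N R (nx_tw N R ((g : G)⁻¹ * x) hux θ)).1 := by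
    funext y
    rw [twIrr_apply, nx_up_apply, nx_up_apply]
    obtain ⟨k, hk⟩ : ∃ k, k = (nx_sigma N R ((g : G)⁻¹ * x) hux).symm (nx_phi N R y) :=
      ⟨_, rfl⟩
    have h1 : (nx_tw N R ((g : G)⁻¹ * x) hux θ).1 (nx_phi N R y) = θ.1 k := by
      rw [hk]
      rfl
    rw [h1]
    apply nx_tw_conj N R x hx θ
    have h2 := nx_sigma_coe N R ((g : G)⁻¹ * x) hux k
    rw [hk, MulEquiv.apply_symm_apply] at h2
    rw [← hk] at h2
    have h3 : ((y : ↥(Subgroup.centralizer ((R.map N.subtype : Subgroup G) : Set G))) : G)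
        = ((g : G)⁻¹ * x) * ((k : ↥N) : G) * ((g : G)⁻¹ * x)⁻¹ := h2
    show (g : G) * ((y : ↥(Subgroup.centralizer ((R.map N.subtype : Subgroup G) : Set G))) : G)
        * (g : G)⁻¹ = x * ((k : ↥N) : G) * x⁻¹
    rw [h3]
    group
  have hg' : SameBlock M (nx_up N R θ).1
      (nx_up N R (nx_tw N R ((g : G)⁻¹ * x) hux θ)).1 := by
    rw [← hfun]
    exact hg
  exact (nx_up_sameBlock N R θ _).mp hg'

end Cfsg.Agent.Helper5.S4692o
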