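import Mathlib
import Cfsg.Agent.Helper24.BP23

/-!
helper5: piece [t] (sub_pair) of S4692.
-/

set_option autoImplicit false

namespace Cfsg.Agent.Helper5.S4692t

open Cfsg Cfsg.Agent.Helper5 Cfsg.Agent.Helper22 Cfsg.Agent.Helper24

universe u

theorem sub_pair {G : Type u} [Group G] [Fintype G] {p : ℕ} [Fact p.Prime] {M : Ideal AlgInt}
    (hM : IsPModular p M) (B : Set (IrrCharacter G)) (Q : Subgroup G)
    (e : Set (IrrCharacter (Subgroup.centralizer (Q : Set G))))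
    (hQe : IsBrauerPairOf p M B Q e) (x : G) (hxN : x ∈ Subgroup.normalizer (Q : Set G))
    (hxst : StabilizesBlock (Subgroup.centralizer (Q : Set G)) e x)
    (R₁ : Subgroup G) (hRQ : R₁ ≤ Q) (hQR : Q ≤ Subgroup.normalizer (R₁ : Set G))
    (hxR : x ∈ Subgroup.normalizer (R₁ : Set G)) :
    ∃ f : Set (IrrCharacter (Subgroup.centralizer (R₁ : Set G))),
      IsBrauerPairOf p M B R₁ f ∧ StabilizesBlock (Subgroup.centralizer (R₁ : Set G)) f x := by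
  haveI hMp : M.IsPrime := hM.2.1.isPrime
  obtain ⟨f, hf⟩ := bp_normal_exists hM Q R₁ e hQe.1 hRQ hQR
  refine ⟨f, (bp_of_normal hM Q R₁ e f hf B hQe.2.1).mp hQe, ?_⟩
  have hs : bc_sub x R₁ R₁ := by
    intro g
    constructor
    · intro hg
      exact ⟨x⁻¹ * g * x, bp_norm_inv R₁ x hxR g hg, by group⟩
    · rintro ⟨q, hq, rfl⟩
      exact (Subgroup.mem_normalizer_iff.mp hxR q).mp hq
  obtain ⟨f', hf'⟩ : ∃ f' : Set (IrrCharacter (Subgroup.centralizer (R₁ : Set G))),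
      bc_blk x R₁ R₁ f f' :=
    ⟨{ξ' | ∃ ξ ∈ f, ∀ (c : (Subgroup.centralizer (R₁ : Set G)))
        (c' : (Subgroup.centralizer (R₁ : Set G))),
        (c' : G) = x * (c : G) * x⁻¹ →
          (ξ' : (Subgroup.centralizer (R₁ : Set G)) → ℂ) c'
            = (ξ : (Subgroup.centralizer (R₁ : Set G)) → ℂ) c}, fun _ => Iff.rfl⟩
  have ha : bc_rel x (⟨R₁, f⟩ : BrauerPairIdx G) ⟨R₁, f'⟩ := ⟨hs, hf'⟩
  have hb : bc_rel x (⟨Q, e⟩ : BrauerPairIdx G) ⟨Q, e⟩ :=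
    bc_stab_self x Q e hxN hxst (bp_stab_inv _ e x hxst)
  have hn : NormalSubpairRel p M (⟨R₁, f'⟩ : BrauerPairIdx G) ⟨Q, e⟩ :=
    bc_normal x ⟨R₁, f⟩ ⟨Q, e⟩ ⟨R₁, f'⟩ ⟨Q, e⟩ hf ha hb
  have hff : f = f' := bp_normal_unique hM Q R₁ e f f' hf hn
  rw [← hff] at ha
  exact (bc_self_stab x R₁ f ha).2

end Cfsg.Agent.Helper5.S4692t
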