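import Mathlib
import Cfsg.Agent.Helper5.NX0
import Cfsg.Agent.Helper5.PRes
import Cfsg.Agent.Helper5.BlkInd
import Cfsg.Agent.Helper5.S4692a
import Cfsg.Agent.Helper5.S4692cu
import Cfsg.Agent.Helper5.S4692t
import Cfsg.Agent.Helper5.S4692o
import Cfsg.Agent.Helper9.S4692s
import Cfsg.Agent.Helper29.S4692w
import Cfsg.Agent.Helper11.S4692p
import Cfsg.Agent.Helper11.S4692l

/-!
helper5: assembly for S4692.
-/

set_option autoImplicit false

namespace Cfsg.Agent.Helper5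

open Cfsg Cfsg.Agent.Helper22 Cfsg.Agent.Helper24
open Cfsg.Agent.Helper5.S4692a Cfsg.Agent.Helper5.S4692cu Cfsg.Agent.Helper5.S4692t
open Cfsg.Agent.Helper5.S4692o Cfsg.Agent.Helper9.S4692s Cfsg.Agent.Helper29.S4692w
open Cfsg.Agent.Helper11.S4692p Cfsg.Agent.Helper11.S4692l

universe u

theorem nx_norm_up {G : Type u} [Group G] (N : Subgroup G) (R : Subgroup ↥N) (x : ↥N)
    (hx : x ∈ Subgroup.normalizer (R : Set ↥N)) :
    (x : G) ∈ Subgroup.normalizer ((R.map N.subtype : Subgroup G) : Set G) := by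
  rw [Subgroup.mem_normalizer_iff]
  intro g
  have hx' := Subgroup.mem_normalizer_iff.mp hx
  constructor
  · rintro ⟨r, hr, rfl⟩
    exact ⟨x * r * x⁻¹, (hx' r).mp hr, rfl⟩
  · rintro ⟨r', hr', he⟩
    refine ⟨x⁻¹ * r' * x, ?_, ?_⟩
    · apply (hx' _).mpr
      have e : x * (x⁻¹ * r' * x) * x⁻¹ = r' := by group
      rw [e]
      exact hr'
    · show ((x : G))⁻¹ * (r' : G) * (x : G) = g
      have he' : (r' : G) = (x : G) * g * (x : G)⁻¹ := he
      rw [he']
      group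

set_option maxHeartbeats 1000000 in
theorem nx_down {G : Type u} [Group G] [Fintype G] {p : ℕ} [Fact p.Prime] {M : Ideal AlgInt}
    (hM : IsPModular p M) [hMp : M.IsPrime] (N : Subgroup G) [hNn : N.Normal]
    (hN : ∃ k : ℕ, N.index = p ^ k)
    (c : Set (IrrCharacter ↥N)) (hc : IsPBlock M c) (hst : ∀ x : G, StabilizesBlock N c x)
    (B : Set (IrrCharacter G)) (hB : IsPBlock M B)
    (hBc : ∀ g : G, blockCoeff B g = subgroupBlockCoeff N c g)
    (hnil : IsNilpotentBlock p M B) : IsNilpotentBlock p M c := by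
  classical
  refine ⟨hc, fun R g hRg x hxN hxst hxreg => ?_⟩
  haveI : Fintype ↥(Subgroup.centralizer ((R.map N.subtype : Subgroup G) : Set G)) :=
    Fintype.ofFinite _
  haveI : Fintype ↥(N.subgroupOf (Subgroup.centralizer ((R.map N.subtype : Subgroup G) : Set G))) :=
    Fintype.ofFinite _
  obtain ⟨χ₀, hBeq⟩ := hB
  obtain ⟨θ₀, hg⟩ := hRg.1.2
  have hθ₀ : θ₀ ∈ g := by
    rw [hg]
    exact sameBlock_refl _
  obtain ⟨ξ, hξ⟩ := Cfsg.Agent.Helper5.exists_irr_over
    (N.subgroupOf (Subgroup.centralizer ((R.map N.subtype : Subgroup G) : Set G)))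
    (nx_up N R θ₀).1 (nx_up N R θ₀).2
  have hx' : (x : G) ∈ Subgroup.normalizer ((R.map N.subtype : Subgroup G) : Set G) :=
    nx_norm_up N R x hxN
  have hxC := pf_norm_cent (R.map N.subtype) (x : G) hx'
  have hidx := nx_index N hN (Subgroup.centralizer ((R.map N.subtype : Subgroup G) : Set G))
  have hpair : IsBrauerPairOf p M B (R.map N.subtype) (blockOf M ξ.1) := by
    refine ⟨⟨hRg.1.1.map N.subtype, ⟨ξ, rfl⟩⟩, ⟨χ₀, hBeq⟩, ?_⟩
    intro ξ' hξ'
    have h1 := omega_eq N c hst B hBc R ξ θ₀ hξ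
    have h2 : MemLocalIdeal M (brauerOmega (R.map N.subtype) (blockCoeff B) ξ'.1
        - brauerOmega (R.map N.subtype) (blockCoeff B) ξ.1) :=
      omega_congr (M := M)
        (fun y : ↥(Subgroup.centralizer ((R.map N.subtype : Subgroup G) : Set G)) =>
          blockCoeff B (y : G))
        (fun a b => bp_coeff_class B (a : G) (b : G))
        (fun a => by
          show MemLocalRing M (blockCoeff B (a : G))
          rw [hBeq]
          exact blockCoeff_memLocalRing χ₀ _) ξ' ξ (sameBlock_symm hξ')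
    have h3 := hRg.2.2 θ₀ hθ₀
    rw [← h1] at h3
    have e : brauerOmega (R.map N.subtype) (blockCoeff B) ξ'.1 - 1
        = (brauerOmega (R.map N.subtype) (blockCoeff B) ξ'.1
          - brauerOmega (R.map N.subtype) (blockCoeff B) ξ.1)
          + (brauerOmega (R.map N.subtype) (blockCoeff B) ξ.1 - 1) := by ring
    rw [e]
    exact memLocalIdeal_add hMp h2 h3
  have hstab : StabilizesBlock (Subgroup.centralizer ((R.map N.subtype : Subgroup G) : Set G))
      (blockOf M ξ.1) (x : G) := by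
    refine ⟨hxC, fun χ hχ => ?_⟩
    obtain ⟨χ', hχ'⟩ := nx_conj _ (x : G) hxC χ
    refine ⟨χ', ?_, hχ'⟩
    obtain ⟨ξ', hξ'⟩ := nx_conj _ (x : G) hxC ξ
    obtain ⟨θ₀', hθ₀'g, hθ₀'c⟩ := hxst.2 θ₀ hθ₀
    have hover := conj_over N R (x : G) hx' ξ ξ' hξ' θ₀ θ₀'
      (fun k k' hkk => hθ₀'c k k' (Subtype.ext hkk)) hξ
    have hs0 : SameBlock M (nx_up N R θ₀).1 (nx_up N R θ₀').1 :=
      (nx_up_sameBlock N R θ₀ θ₀').mpr (by rw [hg] at hθ₀'g; exact hθ₀'g)
    have h1 : SameBlock M ξ.1 ξ'.1 :=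
      cover_unique hM _ hidx ξ ξ' (nx_up N R θ₀) (nx_up N R θ₀') hξ hover hs0
    have h2 : SameBlock M ξ'.1 χ'.1 := nx_conj_sameBlock _ (x : G) hxC ξ χ ξ' χ' hξ' hχ' hχ
    exact sameBlock_trans h1 h2
  have hxc := hnil.2 (R.map N.subtype) (blockOf M ξ.1) hpair (x : G) hx' hstab (by
    show ¬ p ∣ orderOf (x : G)
    rw [Subgroup.orderOf_coe]
    exact hxreg)
  rw [Subgroup.mem_centralizer_iff]
  intro r hr
  apply Subtype.ext
  exact Subgroup.mem_centralizer_iff.mp hxc (r : G) ⟨r, hr, rfl⟩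

set_option maxHeartbeats 1000000 in
theorem nx_up_nil {G : Type u} [Group G] [Fintype G] {p : ℕ} [Fact p.Prime] {M : Ideal AlgInt}
    (hM : IsPModular p M) [hMp : M.IsPrime] (N : Subgroup G) [hNn : N.Normal]
    (hN : ∃ k : ℕ, N.index = p ^ k)
    (c : Set (IrrCharacter ↥N)) (hc : IsPBlock M c) (hst : ∀ x : G, StabilizesBlock N c x)
    (B : Set (IrrCharacter G)) (hB : IsPBlock M B)
    (hBc : ∀ g : G, blockCoeff B g = subgroupBlockCoeff N c g)
    (hnil : IsNilpotentBlock p M c) : IsNilpotentBlock p M B := by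
  classical
  refine ⟨hB, fun Q e hQe x hxN hxst hxreg => ?_⟩
  have hp : p.Prime := Fact.out
  haveI : Fintype ↥N := Fintype.ofFinite _
  have hxNN : x ∈ N := by
    by_contra h
    exact hxreg (singular_of_notMem hp N hN x h)
  obtain ⟨R, hR⟩ : ∃ R : Subgroup ↥N, R = Q.subgroupOf N := ⟨_, rfl⟩
  have hRmap : R.map N.subtype = Q ⊓ N := by
    rw [hR]
    exact Subgroup.subgroupOf_map_subtype Q N
  have hQp : IsPGroup p Q := hQe.1.1
  have hxQ := Subgroup.mem_normalizer_iff.mp hxN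
  have hRQ : R.map N.subtype ≤ Q := by
    rw [hRmap]
    exact inf_le_left
  have hQR : Q ≤ Subgroup.normalizer ((R.map N.subtype : Subgroup G) : Set G) := by
    rw [hRmap]
    intro q hq
    rw [Subgroup.mem_normalizer_iff]
    intro h
    rw [Subgroup.mem_inf, Subgroup.mem_inf]
    constructor
    · rintro ⟨h1, h2⟩
      exact ⟨Q.mul_mem (Q.mul_mem hq h1) (Q.inv_mem hq), hNn.conj_mem h h2 q⟩
    · rintro ⟨h1, h2⟩
      refine ⟨?_, ?_⟩
      · have h3 := Q.mul_mem (Q.mul_mem (Q.inv_mem hq) h1) hq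
        have e : q⁻¹ * (q * h * q⁻¹) * q = h := by group
        rwa [e] at h3
      · have h3 := hNn.conj_mem _ h2 q⁻¹
        have e : q⁻¹ * (q * h * q⁻¹) * q⁻¹⁻¹ = h := by group
        rwa [e] at h3
  have hxR : x ∈ Subgroup.normalizer ((R.map N.subtype : Subgroup G) : Set G) := by
    rw [hRmap, Subgroup.mem_normalizer_iff]
    intro h
    rw [Subgroup.mem_inf, Subgroup.mem_inf]
    constructor
    · rintro ⟨h1, h2⟩
      exact ⟨(hxQ h).mp h1, hNn.conj_mem h h2 x⟩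
    · rintro ⟨h1, h2⟩
      refine ⟨(hxQ h).mpr h1, ?_⟩
      have h3 := hNn.conj_mem _ h2 x⁻¹
      have e : x⁻¹ * (x * h * x⁻¹) * x⁻¹⁻¹ = h := by group
      rwa [e] at h3
  obtain ⟨f, hf, hfst⟩ := sub_pair hM B Q e hQe x hxN hxst (R.map N.subtype) hRQ hQR hxR
  haveI : Fintype ↥(Subgroup.centralizer ((R.map N.subtype : Subgroup G) : Set G)) :=
    Fintype.ofFinite _
  haveI : Fintype ↥(N.subgroupOf (Subgroup.centralizer ((R.map N.subtype : Subgroup G) : Set G))) :=
    Fintype.ofFinite _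
  obtain ⟨ξ, hfeq⟩ := hf.1.2
  subst hfeq
  obtain ⟨θs, hθs⟩ := exists_constituent_res
    (N.subgroupOf (Subgroup.centralizer ((R.map N.subtype : Subgroup G) : Set G))) ξ
  obtain ⟨θ, hθ⟩ : ∃ θ : IrrCharacter ↥(Subgroup.centralizer (R : Set ↥N)),
      nx_up N R θ = θs :=
    ⟨⟨fun z => θs.1 ((nx_phi N R).symm z),
      isIrrCharacter_comp_mulEquiv (nx_phi N R).symm θs.2⟩,
      Subtype.ext (funext fun y => by
        show θs.1 ((nx_phi N R).symm (nx_phi N R y)) = θs.1 y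
        rw [MulEquiv.symm_apply_apply])⟩
  have hcon : classInner (fun y : ↥(N.subgroupOf
      (Subgroup.centralizer ((R.map N.subtype : Subgroup G) : Set G))) => ξ.1 y)
      (nx_up N R θ).1 ≠ 0 := by
    rw [hθ]
    exact hθs
  obtain ⟨θc, hceq⟩ := hc
  have hcp : IsBrauerPairOf p M c R (blockOf M θ.1) := by
    refine ⟨⟨by rw [hR]; exact hQp.comap_subtype, ⟨θ, rfl⟩⟩, ⟨θc, hceq⟩, ?_⟩
    intro θ' hθ'
    have h1 := omega_eq N c hst B hBc R ξ θ hcon
    have h2 : MemLocalIdeal M (brauerOmega R (blockCoeff c) θ'.1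
        - brauerOmega R (blockCoeff c) θ.1) :=
      omega_congr (M := M)
        (fun z : ↥(Subgroup.centralizer (R : Set ↥N)) => blockCoeff c (z : ↥N))
        (fun a b => bp_coeff_class c (a : ↥N) (b : ↥N))
        (fun a => by
          show MemLocalRing M (blockCoeff c (a : ↥N))
          rw [hceq]
          exact blockCoeff_memLocalRing θc _) θ' θ (sameBlock_symm hθ')
    have h3 := hf.2.2 ξ (sameBlock_refl _)
    rw [h1] at h3
    have e : brauerOmega R (blockCoeff c) θ'.1 - 1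
        = (brauerOmega R (blockCoeff c) θ'.1 - brauerOmega R (blockCoeff c) θ.1)
          + (brauerOmega R (blockCoeff c) θ.1 - 1) := by ring
    rw [e]
    exact memLocalIdeal_add hMp h2 h3
  obtain ⟨u, hu, θ', hs, hθ'⟩ := orbit (M := M) N R x hxR ξ hfst θ hcon
  have hwR : u * x ∈ Subgroup.normalizer ((R.map N.subtype : Subgroup G) : Set G) :=
    Subgroup.mul_mem _ (Subgroup.centralizer_le_normalizer _ hu) hxR
  have key : ∀ k : ℕ, ¬ p ∣ orderOf ((u * x) ^ k) → ∀ r ∈ R.map N.subtype,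
      (u * x) ^ k * r * ((u * x) ^ k)⁻¹ = r := by
    intro k hk r hr
    have hkN : (u * x) ^ k ∈ N := by
      by_contra h
      exact hk (singular_of_notMem hp N hN _ h)
    obtain ⟨h1, h2⟩ := pow_stab (M := M) N R (u * x) hwR θ θ' hs hθ' k hkN
    have h3 := hnil.2 R (blockOf M θ.1) hcp ⟨(u * x) ^ k, hkN⟩ h1 h2 (by
      show ¬ p ∣ orderOf (⟨(u * x) ^ k, hkN⟩ : ↥N)
      rw [← Subgroup.orderOf_coe]
      exact hk)
    obtain ⟨r₀, hr₀, rfl⟩ := hr
    have h4 := Subgroup.mem_centralizer_iff.mp h3 r₀ hr₀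
    have h5 : (r₀ : G) * (u * x) ^ k = (u * x) ^ k * (r₀ : G) := congrArg Subtype.val h4
    show (u * x) ^ k * (r₀ : G) * ((u * x) ^ k)⁻¹ = (r₀ : G)
    rw [← h5, mul_inv_cancel_right]
  have hxc : ∀ r ∈ R.map N.subtype, x * r * x⁻¹ = r :=
    p_lemma p (R.map N.subtype) x (u * x) hxreg
      (fun r hr => (Subgroup.mem_normalizer_iff.mp hxR r).mp hr)
      (fun r hr => by
        have hr' : x * r * x⁻¹ ∈ R.map N.subtype :=
          (Subgroup.mem_normalizer_iff.mp hxR r).mp hr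
        have h6 := Subgroup.mem_centralizer_iff.mp hu _ hr'
        calc u * x * r * (u * x)⁻¹ = u * (x * r * x⁻¹) * u⁻¹ := by group
          _ = (x * r * x⁻¹) * u * u⁻¹ := by rw [h6]
          _ = x * r * x⁻¹ := by group) key
  exact coprime_lemma p N Q hQp x hxNN hxreg hxN (fun r hr => hxc r (by rw [hRmap]; exact hr))

end Cfsg.Agent.Helper5
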