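import Mathlib

/-!
helper5: piece [i] of S4172 (helper26): the trace (relative Maschke) argument.
-/

set_option autoImplicit false

namespace Cfsg.Agent.Helper5.S4172i

/-- commutative group structure on a commutative subgroup. -/
@[reducible] def commGroupOf {G : Type*} [Group G] (M : Subgroup G)
    (hMc : ∀ a ∈ M, ∀ b ∈ M, a * b = b * a) : CommGroup ↥M :=
  { (inferInstance : Group ↥M) with
    mul_comm := fun a b => Subtype.ext (hMc a a.2 b b.2) }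

theorem trace_aux {H A : Type*} [Group H] [Finite H] [CommGroup A] (P₀ : Subgroup H)
    (κ : H → A →* A) (hκ : ∀ (a b : H) (x : A), κ (a * b) x = κ a (κ b x))
    (w : A) (hw : ∀ u ∈ P₀, κ u w = w) :
    ∃ c : A, (∀ h : H, κ h c = c) ∧
      ∀ S : Subgroup A, (∀ h : H, κ h w * w⁻¹ ∈ S) → c * (w ^ P₀.index)⁻¹ ∈ S := by
  classical
  haveI : Fintype (H ⧸ P₀) := Fintype.ofFinite _
  have hF : ∀ g : H, κ (QuotientGroup.mk g : H ⧸ P₀).out w = κ g w := by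
    intro g
    obtain ⟨u, hu⟩ := QuotientGroup.mk_out_eq_mul P₀ g
    rw [hu, hκ, hw u u.2]
  refine ⟨∏ q : H ⧸ P₀, κ q.out w, ?_, ?_⟩
  · intro h
    rw [map_prod]
    have e : ∀ q : H ⧸ P₀, κ h (κ q.out w) = κ (h • q).out w := by
      intro q
      have h1 : h • q = (QuotientGroup.mk (h * q.out) : H ⧸ P₀) :=
        calc h • q = h • (QuotientGroup.mk q.out : H ⧸ P₀) := by rw [QuotientGroup.out_eq']
          _ = (QuotientGroup.mk (h * q.out) : H ⧸ P₀) := rfl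
      rw [h1, hF, hκ]
    rw [Finset.prod_congr rfl fun q _ => e q]
    exact Equiv.prod_comp (MulAction.toPerm h) (fun q : H ⧸ P₀ => κ q.out w)
  · intro S hS
    have h1 : (∏ q : H ⧸ P₀, κ q.out w) * (w ^ P₀.index)⁻¹
        = ∏ q : H ⧸ P₀, (κ q.out w * w⁻¹) := by
      rw [Finset.prod_mul_distrib, Finset.prod_const, Finset.card_univ, inv_pow,
        Subgroup.index, Nat.card_eq_fintype_card]
    rw [h1]
    exact Subgroup.prod_mem S (fun q _ => hS _)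

theorem trace {G : Type*} [Group G] [Finite G] (p : ℕ) [Fact p.Prime] (P : Sylow p G)
    (M N : Subgroup G) (hM : M.Normal) (hN : N.Normal) (hNM : N ≤ M)
    (hMc : ∀ a ∈ M, ∀ b ∈ M, a * b = b * a) (hMp : IsPGroup p ↥M)
    (w : G) (hwM : w ∈ M) (hwN : w ∉ N) (hwP : ∀ u ∈ (P : Subgroup G), u * w = w * u)
    (hPM : ∀ u ∈ (P : Subgroup G), ∀ m ∈ M, u * m * u⁻¹ * m⁻¹ ∈ N) :
    ∃ c ∈ M, c ∉ N ∧ ∃ H : Subgroup G, H.Normal ∧ (P : Subgroup G) ≤ H ∧
      ∀ h ∈ H, h * c = c * h := by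
  classical
  have hp : p.Prime := Fact.out
  obtain ⟨H, hH⟩ : ∃ H : Subgroup G, ∀ h : G, h ∈ H ↔ ∀ m ∈ M, h * m * h⁻¹ * m⁻¹ ∈ N := by
    refine ⟨{ carrier := {h | ∀ m ∈ M, h * m * h⁻¹ * m⁻¹ ∈ N}
              one_mem' := ?_
              mul_mem' := ?_
              inv_mem' := ?_ }, fun h => Iff.rfl⟩
    · intro a b ha hb m hm
      have h1 := hb m hm
      have h2 := ha m hm
      have h3 : a * (b * m * b⁻¹ * m⁻¹) * a⁻¹ ∈ N := hN.conj_mem _ h1 a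
      have e : a * b * m * (a * b)⁻¹ * m⁻¹
          = a * (b * m * b⁻¹ * m⁻¹) * a⁻¹ * (a * m * a⁻¹ * m⁻¹) := by group
      rw [e]
      exact N.mul_mem h3 h2
    · intro m _
      have e : (1 : G) * m * (1 : G)⁻¹ * m⁻¹ = 1 := by group
      rw [e]
      exact N.one_mem
    · intro a ha m hm
      have hm' : a⁻¹ * m * a⁻¹⁻¹ ∈ M := hM.conj_mem m hm a⁻¹
      have h1 := ha _ hm'
      have h2 := N.inv_mem h1
      have e : (a * (a⁻¹ * m * a⁻¹⁻¹) * a⁻¹ * (a⁻¹ * m * a⁻¹⁻¹)⁻¹)⁻¹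
          = a⁻¹ * m * a⁻¹⁻¹ * m⁻¹ := by group
      rw [e] at h2
      exact h2
  have hHn : H.Normal := by
    constructor
    intro h hh g
    rw [hH] at hh ⊢
    intro m hm
    have hm' : g⁻¹ * m * g⁻¹⁻¹ ∈ M := hM.conj_mem m hm g⁻¹
    have h1 := hh _ hm'
    have h2 := hN.conj_mem _ h1 g
    have e : g * (h * (g⁻¹ * m * g⁻¹⁻¹) * h⁻¹ * (g⁻¹ * m * g⁻¹⁻¹)⁻¹) * g⁻¹
        = g * h * g⁻¹ * m * (g * h * g⁻¹)⁻¹ * m⁻¹ := by group
    rw [e] at h2
    exact h2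
  have hPH : (P : Subgroup G) ≤ H := fun u hu => (hH u).mpr (hPM u hu)
  letI inst : CommGroup ↥M := commGroupOf M hMc
  obtain ⟨κ, hκdef⟩ : ∃ κ : ↥H → ↥M →* ↥M,
      ∀ (h : ↥H) (m : ↥M), ((κ h m : ↥M) : G) = (h : G) * (m : G) * (h : G)⁻¹ :=
    ⟨fun h =>
      { toFun := fun m => ⟨(h : G) * (m : G) * (h : G)⁻¹, hM.conj_mem m m.2 h⟩
        map_one' := Subtype.ext (show (h : G) * 1 * (h : G)⁻¹ = 1 by group)
        map_mul' := fun a b => Subtype.ext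
          (show (h : G) * ((a : G) * (b : G)) * (h : G)⁻¹
            = ((h : G) * (a : G) * (h : G)⁻¹) * ((h : G) * (b : G) * (h : G)⁻¹) by group) },
      fun h m => rfl⟩
  have hκmul : ∀ (a b : ↥H) (x : ↥M), κ (a * b) x = κ a (κ b x) := by
    intro a b x
    apply Subtype.ext
    rw [hκdef, hκdef, hκdef, Subgroup.coe_mul]
    group
  have hw' : ∀ u ∈ (P : Subgroup G).subgroupOf H, κ u (⟨w, hwM⟩ : ↥M) = ⟨w, hwM⟩ := by
    intro u hu
    apply Subtype.ext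
    rw [hκdef]
    show (u : G) * w * (u : G)⁻¹ = w
    rw [hwP _ (Subgroup.mem_subgroupOf.mp hu), mul_inv_cancel_right]
  obtain ⟨c, hc1, hc2⟩ := trace_aux ((P : Subgroup G).subgroupOf H) κ hκmul ⟨w, hwM⟩ hw'
  refine ⟨(c : G), c.2, ?_, H, hHn, hPH, ?_⟩
  · intro hcN
    have hS : ∀ h : ↥H, κ h (⟨w, hwM⟩ : ↥M) * (⟨w, hwM⟩ : ↥M)⁻¹ ∈ N.subgroupOf M := by
      intro h
      rw [Subgroup.mem_subgroupOf]
      show ((κ h (⟨w, hwM⟩ : ↥M) : ↥M) : G) * w⁻¹ ∈ N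
      rw [hκdef]
      exact (hH h).mp h.2 w hwM
    have h3 := hc2 (N.subgroupOf M) hS
    obtain ⟨n, hn⟩ : ∃ n : ℕ, n = ((P : Subgroup G).subgroupOf H).index := ⟨_, rfl⟩
    rw [← hn] at h3
    have h4 : (c : G) * (w ^ n)⁻¹ ∈ N := h3
    have h5 : (w ^ n)⁻¹ ∈ N := by
      have h := N.mul_mem (N.inv_mem hcN) h4
      rwa [inv_mul_cancel_left] at h
    have h6 : w ^ n ∈ N := by
      have h := N.inv_mem h5
      rwa [inv_inv] at h
    obtain ⟨k, hk⟩ := hMp ⟨w, hwM⟩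
    have hk' : w ^ p ^ k = 1 := congrArg Subtype.val hk
    have hnd : n ∣ (P : Subgroup G).index := by
      rw [hn]
      exact Subgroup.relIndex_dvd_index_of_le hPH
    have hpn : ¬ p ∣ n := fun h => P.not_dvd_index (h.trans hnd)
    have hcop : Nat.Coprime n (p ^ k) :=
      Nat.Coprime.pow_right k ((Nat.Prime.coprime_iff_not_dvd hp).mpr hpn).symm
    have hb := Nat.gcd_eq_gcd_ab n (p ^ k)
    rw [Nat.Coprime.gcd_eq_one hcop] at hb
    have hw1 : w = (w ^ n) ^ (Nat.gcdA n (p ^ k)) * (w ^ (p ^ k)) ^ (Nat.gcdB n (p ^ k)) := by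
      rw [← zpow_natCast w n, ← zpow_natCast w (p ^ k), ← zpow_mul, ← zpow_mul, ← zpow_add,
        ← hb]
      simp
    apply hwN
    rw [hw1, hk', one_zpow, mul_one]
    exact N.zpow_mem h6 _
  · intro h hh
    have h1 := congrArg Subtype.val (hc1 ⟨h, hh⟩)
    rw [hκdef] at h1
    have h2 : h * (c : G) * h⁻¹ = (c : G) := h1
    calc h * (c : G) = h * (c : G) * h⁻¹ * h := by group
      _ = (c : G) * h := by rw [h2]

end Cfsg.Agent.Helper5.S4172i
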