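import Mathlib
import Cfsg.Agent.Helper5.Wt1
import Cfsg.Agent.Helper24.BP14
import Cfsg.Agent.S0887

/-!
helper5: a Brauer pair carrying a weight is centric and radical (S4694).
-/

set_option autoImplicit false

namespace Cfsg.Agent.Helper5

open Cfsg Cfsg.Agent.Helper22 Cfsg.Agent.Helper24

universe u

variable {G : Type u} [Group G] [Fintype G]

set_option maxHeartbeats 1000000 in
theorem h5_weight {p : ℕ} [Fact p.Prime] {M : Ideal AlgInt} (hM : IsPModular p M)
    [hMp : M.IsPrime] (Q : Subgroup G) (hQp : IsPGroup p Q)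
    (e : Set (IrrCharacter (Subgroup.centralizer (Q : Set G)))) (he : IsPBlock M e)
    (T : Subgroup G)
    (hT : ∀ y : G, y ∈ T ↔ y ∈ Subgroup.normalizer (Q : Set G) ∧
      StabilizesBlock (Subgroup.centralizer (Q : Set G)) e y)
    (F' : Set (IrrCharacter T))
    (hF'e : ∀ t : T, blockCoeff F' t
      = subgroupBlockCoeff (Subgroup.centralizer (Q : Set G)) e (t : G))
    (χ : IrrCharacter T) (hχ : χ ∈ F')
    (hχQ : ∀ q : G, q ∈ Q → ∀ t : T, ∀ t' : T, (t' : G) = q * (t : G) →
      (χ : T → ℂ) t' = (χ : T → ℂ) t)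
    (hdeg : (charDegree (χ : T → ℂ)).factorization p + (Nat.card Q).factorization p
      = (Nat.card T).factorization p) :
    IsDefectGroup p M e ((Q ⊓ Subgroup.centralizer (Q : Set G)).subgroupOf
        (Subgroup.centralizer (Q : Set G))) ∧
    ∀ R : Subgroup G, R ≤ T → IsPGroup p R →
      (∀ t ∈ T, t ∈ Subgroup.normalizer (R : Set G)) → R ≤ Q := by
  classical
  have hp : p.Prime := Fact.out
  haveI : Fintype T := Fintype.ofFinite _
  haveI : Fintype (Subgroup.centralizer (Q : Set G)) := Fintype.ofFinite _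
  have hTN : T ≤ Subgroup.normalizer (Q : Set G) := fun t ht => ((hT t).mp ht).1
  have hCT : Subgroup.centralizer (Q : Set G) ≤ T := fun c hc =>
    (hT c).mpr ⟨Subgroup.centralizer_le_normalizer _ hc, bp_cent_stab Q e c hc⟩
  have hQT : Q ≤ T := by
    intro q hq
    refine (hT q).mpr ⟨Subgroup.le_normalizer hq,
      pf_norm_cent Q q (Subgroup.le_normalizer hq), fun ξ hξ => ⟨ξ, hξ, fun k k' hkk => ?_⟩⟩
    have hk : q * (k : G) * q⁻¹ = (k : G) := by
      have h1 := Subgroup.mem_centralizer_iff.mp k.2 q hq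
      rw [h1]
      group
    have hkk' : k' = k := Subtype.ext (by rw [hkk, hk])
    rw [hkk']
  haveI hQTn : (Q.subgroupOf T).Normal :=
    (Subgroup.normal_subgroupOf_iff_le_normalizer hQT).mpr hTN
  have hcardQ : Nat.card (Q.subgroupOf T) = Nat.card Q :=
    Nat.card_congr (Subgroup.subgroupOfEquivOfLe hQT).toEquiv
  have hχQ' : ∀ q ∈ Q.subgroupOf T, (χ : T → ℂ) q = (χ : T → ℂ) 1 := by
    intro q hq
    exact hχQ (q : G) (Subgroup.mem_subgroupOf.mp hq) 1 q (by simp)
  have hdeg' : (Nat.card T).factorization p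
      ≤ (charDegree (χ : T → ℂ)).factorization p
        + (Nat.card (Q.subgroupOf T)).factorization p := by
    rw [hcardQ]
    omega
  refine ⟨?_, ?_⟩
  swap
  · intro R hRT hRp hRn
    haveI hRTn : (R.subgroupOf T).Normal :=
      (Subgroup.normal_subgroupOf_iff_le_normalizer hRT).mpr (fun t ht => hRn t ht)
    have hRTp : IsPGroup p (R.subgroupOf T) :=
      hRp.of_equiv (Subgroup.subgroupOfEquivOfLe hRT).symm
    have hle := weight_radical (Q.subgroupOf T) (R.subgroupOf T) hRTp χ hχQ' hdeg'
    intro r hr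
    have hmem : (⟨r, hRT hr⟩ : T) ∈ R.subgroupOf T := Subgroup.mem_subgroupOf.mpr hr
    exact Subgroup.mem_subgroupOf.mp (hle hmem)
  · haveI : Fintype (T ⧸ Q.subgroupOf T) := Fintype.ofFinite _
    have hsurj : Function.Surjective (QuotientGroup.mk' (Q.subgroupOf T)) :=
      QuotientGroup.mk'_surjective _
    obtain ⟨χb, hχb⟩ := exists_irr_of_ker (QuotientGroup.mk' (Q.subgroupOf T)) hsurj χ
      (fun u hu => hχQ' u (by
        have h : u ∈ (QuotientGroup.mk' (Q.subgroupOf T)).ker := hu
        rwa [QuotientGroup.ker_mk'] at h))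
    haveI hCTn : ((Subgroup.centralizer (Q : Set G)).subgroupOf T).Normal :=
      (Subgroup.normal_subgroupOf_iff_le_normalizer hCT).mpr
        (fun t ht => pf_norm_cent Q t (hTN ht))
    obtain ⟨Cb, hCb⟩ : ∃ Cb : Subgroup (T ⧸ Q.subgroupOf T),
        Cb = ((Subgroup.centralizer (Q : Set G)).subgroupOf T).map
          (QuotientGroup.mk' (Q.subgroupOf T)) := ⟨_, rfl⟩
    haveI hCbn : Cb.Normal := by
      rw [hCb]
      exact Subgroup.Normal.map hCTn _ hsurj
    haveI : Fintype Cb := Fintype.ofFinite _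
    obtain ⟨θb, hθb⟩ := exists_constituent_res Cb χb
    obtain ⟨c, hc0, hc⟩ := irr_one_eq_natCast_pos χb
    obtain ⟨d, hd0, hd⟩ := irr_one_eq_natCast_pos θb
    obtain ⟨hdc, hcd⟩ := Cfsg.Agent.S0887.result Cb (χb : T ⧸ Q.subgroupOf T → ℂ) χb.2
      (θb : Cb → ℂ) θb.2 hθb c d hc hd
    have hcχ : charDegree (χ : T → ℂ) = c := by
      apply charDegree_of_eq
      rw [hχb 1, map_one, hc]
    have hcardT : Nat.card T
        = Nat.card (T ⧸ Q.subgroupOf T) * Nat.card (Q.subgroupOf T) :=
      Subgroup.card_eq_card_quotient_mul_card_subgroup _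
    have hfacT : (Nat.card T).factorization p
        = (Nat.card (T ⧸ Q.subgroupOf T)).factorization p
          + (Nat.card (Q.subgroupOf T)).factorization p := by
      rw [hcardT, Nat.factorization_mul Nat.card_pos.ne' Nat.card_pos.ne', Finsupp.add_apply]
    have hcardCb : Nat.card Cb * Cb.index = Nat.card (T ⧸ Q.subgroupOf T) :=
      Subgroup.card_mul_index Cb
    have hidx0 : Cb.index ≠ 0 := Subgroup.index_ne_zero_of_finite
    have hfacCb : (Nat.card (T ⧸ Q.subgroupOf T)).factorization p
        = (Nat.card Cb).factorization p + (Cb.index).factorization p := by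
      rw [← hcardCb, Nat.factorization_mul Nat.card_pos.ne' hidx0, Finsupp.add_apply]
    have hcdmul : c = d * (c / d) := (Nat.mul_div_cancel' hdc).symm
    have hcd0 : c / d ≠ 0 := (Nat.div_pos (Nat.le_of_dvd hc0 hdc) hd0).ne'
    have hfacc : c.factorization p = d.factorization p + (c / d).factorization p := by
      conv_lhs => rw [hcdmul]
      rw [Nat.factorization_mul hd0.ne' hcd0, Finsupp.add_apply]
    have hle1 : (c / d).factorization p ≤ (Cb.index).factorization p :=
      (Nat.factorization_le_iff_dvd hcd0 hidx0).mpr hcd p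
    have hdval : (Nat.card Cb).factorization p ≤ d.factorization p := by
      rw [hcχ] at hdeg'
      omega
    obtain ⟨π, hπ⟩ : ∃ π : (Subgroup.centralizer (Q : Set G)) →* Cb,
        ∀ n, ((π n : Cb) : T ⧸ Q.subgroupOf T)
          = QuotientGroup.mk' (Q.subgroupOf T) ⟨n, hCT n.2⟩ := by
      refine ⟨((QuotientGroup.mk' (Q.subgroupOf T)).comp
        (Subgroup.inclusion hCT)).codRestrict Cb (fun n => ?_), fun n => rfl⟩
      rw [hCb]
      exact ⟨Subgroup.inclusion hCT n, Subgroup.mem_subgroupOf.mpr n.2, rfl⟩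
    have hπs : Function.Surjective π := by
      intro cb
      have hcb : (cb : T ⧸ Q.subgroupOf T) ∈ ((Subgroup.centralizer (Q : Set G)).subgroupOf T).map
          (QuotientGroup.mk' (Q.subgroupOf T)) := by
        rw [← hCb]
        exact cb.2
      obtain ⟨t, ht, hte⟩ := hcb
      refine ⟨⟨(t : G), Subgroup.mem_subgroupOf.mp ht⟩, Subtype.ext ?_⟩
      rw [hπ]
      exact hte
    have hπker : ∀ n : Subgroup.centralizer (Q : Set G), π n = 1 ↔ (n : G) ∈ Q := by
      intro n
      constructor
      · intro h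
        have h0 := hπ n
        rw [h] at h0
        have h1 : QuotientGroup.mk' (Q.subgroupOf T) ⟨n, hCT n.2⟩ = 1 := h0.symm
        exact Subgroup.mem_subgroupOf.mp
          ((QuotientGroup.eq_one_iff (N := Q.subgroupOf T) (⟨n, hCT n.2⟩ : T)).mp h1)
      · intro h
        apply Subtype.ext
        rw [hπ]
        exact (QuotientGroup.eq_one_iff (N := Q.subgroupOf T) (⟨n, hCT n.2⟩ : T)).mpr
          (Subgroup.mem_subgroupOf.mpr h)
    obtain ⟨θ, hθ⟩ : ∃ θ : IrrCharacter (Subgroup.centralizer (Q : Set G)),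
        θ = inflIrr π hπs θb := ⟨_, rfl⟩
    have hθv : ∀ n, (θ : Subgroup.centralizer (Q : Set G) → ℂ) n = (θb : Cb → ℂ) (π n) :=
      fun n => by rw [hθ]; rfl
    obtain ⟨Z, hZ⟩ : ∃ Z : Subgroup (Subgroup.centralizer (Q : Set G)),
        Z = (Q ⊓ Subgroup.centralizer (Q : Set G)).subgroupOf
          (Subgroup.centralizer (Q : Set G)) := ⟨_, rfl⟩
    have hZmem : ∀ n : Subgroup.centralizer (Q : Set G), n ∈ Z ↔ (n : G) ∈ Q := by
      intro n
      rw [hZ, Subgroup.mem_subgroupOf, Subgroup.mem_inf]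
      exact ⟨fun h => h.1, fun h => ⟨h, n.2⟩⟩
    have hZc : Z ≤ Subgroup.center (Subgroup.centralizer (Q : Set G)) := by
      intro z hz
      rw [Subgroup.mem_center_iff]
      intro n
      apply Subtype.ext
      have h1 := Subgroup.mem_centralizer_iff.mp n.2 (z : G) ((hZmem z).mp hz)
      exact h1.symm
    haveI hZn : Z.Normal := by
      constructor
      intro z hz n
      have hcomm := Subgroup.mem_center_iff.mp (hZc hz) n
      have h1 : n * z * n⁻¹ = z := by
        rw [hcomm]
        group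
      rw [h1]
      exact hz
    have hZp : IsPGroup p Z := by
      rw [hZ]
      exact (hQp.to_le inf_le_left).of_equiv (Subgroup.subgroupOfEquivOfLe inf_le_right).symm
    have hkerθ : ∀ z ∈ Z, (θ : Subgroup.centralizer (Q : Set G) → ℂ) z
        = (θ : Subgroup.centralizer (Q : Set G) → ℂ) 1 := by
      intro z hz
      rw [hθv, hθv, (hπker z).mpr ((hZmem z).mp hz), map_one]
    have hkerZ : π.ker = Z := by
      ext n
      rw [MonoidHom.mem_ker, hπker, hZmem]
    have hcardC : Nat.card (Subgroup.centralizer (Q : Set G)) = Nat.card Cb * Nat.card Z := by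
      rw [← hkerZ, ← Nat.card_congr (QuotientGroup.quotientKerEquivOfSurjective π hπs).toEquiv]
      exact Subgroup.card_eq_card_quotient_mul_card_subgroup _
    have hfacC : (Nat.card (Subgroup.centralizer (Q : Set G))).factorization p
        = (Nat.card Cb).factorization p + (Nat.card Z).factorization p := by
      rw [hcardC, Nat.factorization_mul Nat.card_pos.ne' Nat.card_pos.ne', Finsupp.add_apply]
    have hθdeg : charDegree (θ : Subgroup.centralizer (Q : Set G) → ℂ) = d := by
      apply charDegree_of_eq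
      rw [hθv, map_one, hd]
    have hdegθ : (Nat.card (Subgroup.centralizer (Q : Set G))).factorization p
        ≤ (charDegree (θ : Subgroup.centralizer (Q : Set G) → ℂ)).factorization p
          + (Nat.card Z).factorization p := by
      rw [hθdeg]
      omega
    have hdefect := defect_of_central_quot hM Z hZp hZc θ hkerθ hdegθ
    have hθcon : classInner (fun n : Subgroup.centralizer (Q : Set G) =>
        (χ : T → ℂ) ⟨n, hCT n.2⟩) (θ : Subgroup.centralizer (Q : Set G) → ℂ) ≠ 0 := by
      rw [classInner_def']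
      have e1 : ∑ n : Subgroup.centralizer (Q : Set G),
          (χ : T → ℂ) ⟨n, hCT n.2⟩
            * starRingEnd ℂ ((θ : Subgroup.centralizer (Q : Set G) → ℂ) n)
          = ∑ n : Subgroup.centralizer (Q : Set G),
            (fun cb : Cb => (χb : T ⧸ Q.subgroupOf T → ℂ) cb
              * starRingEnd ℂ ((θb : Cb → ℂ) cb)) (π n) := by
        refine Finset.sum_congr rfl fun n _ => ?_
        beta_reduce
        rw [hχb ⟨n, hCT n.2⟩, hθv n, hπ n]
      rw [e1, sum_comp_surj_hom π hπs (fun cb : Cb => (χb : T ⧸ Q.subgroupOf T → ℂ) cb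
              * starRingEnd ℂ ((θb : Cb → ℂ) cb))]
      have h2 : ∑ cb : Cb, (χb : T ⧸ Q.subgroupOf T → ℂ) cb
          * starRingEnd ℂ ((θb : Cb → ℂ) cb) ≠ 0 := by
        intro h0
        apply hθb
        rw [classInner_def', h0, mul_zero]
      exact mul_ne_zero (inv_ne_zero (Nat.cast_ne_zero.mpr Nat.card_pos.ne'))
        (mul_ne_zero (Nat.cast_ne_zero.mpr Nat.card_pos.ne') h2)
    have hθe : θ ∈ e :=
      mem_of_blockCoeff_sub T (Subgroup.centralizer (Q : Set G)) hCT F' e hF'e χ hχ θ hθcon
    obtain ⟨θ₀, rfl⟩ := he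
    rw [blockOf_eq_of_sameBlock hθe, ← hZ]
    exact hdefect

end Cfsg.Agent.Helper5
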